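import Mathlib
import Cfsg.Prelude.Def_Transfer
import Cfsg.Prelude.Def_Solvable

/-! Interface for S4415 (see the paper proof in `AWPlan`). -/

namespace Cfsg.Agent.Star.AW

universe u v

/-- `b` of order 3 with `rank (b - 1) ≤ 2` on a faithful `F₃`-module, `{1, x, y, x*y}` a four-group
permuted cyclically by `b`. -/
structure QB {G : Type u} [Group G] {W : Type v} [AddCommGroup W] [Module (ZMod 3) W]
    (σ : Representation (ZMod 3) G W) (b x y : G) : Prop where
  faith : Function.Injective σ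
  b3 : b ^ 3 = 1
  rk : Module.finrank (ZMod 3) (LinearMap.range (σ b - 1)) ≤ 2
  x1 : x ≠ 1
  x2 : x * x = 1
  xy : x * y = y * x
  bx : b * x * b⁻¹ = y
  bby : b * y * b⁻¹ = x * y

/-- The full situation: `G = N⟨b⟩` solvable and irreducible on `W`, `N` a normal `3'`-subgroup with
`N = [N, b]`. -/
structure Dat {G : Type u} [Group G] {W : Type v} [AddCommGroup W] [Module (ZMod 3) W]
    (σ : Representation (ZMod 3) G W) (N : Subgroup G) (b x y : G) : Prop
    extends QB σ b x y where
  irr : ∀ U : Submodule (ZMod 3) W, (∀ g : G, ∀ v ∈ U, σ g v ∈ U) → U = ⊥ ∨ U = ⊤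
  normal : N.Normal
  cop : (Nat.card N).Coprime 3
  sol : Group.IsSolvable G
  gen : N ⊔ Subgroup.zpowers b = ⊤
  comm : ⁅N, Subgroup.zpowers b⁆ = N
  xN : x ∈ N

end Cfsg.Agent.Star.AW
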