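import Cfsg.Agent.Star.AWRed4
import Cfsg.Agent.Extra.Basic

namespace Cfsg.Agent.Star.AW

open Subgroup

universe u v

theorem isExtraspecial_congr {P Q : Type*} [Group P] [Group Q] [Finite P] (e : P ≃* Q)
    (h : Cfsg.IsExtraspecial 2 P) : Cfsg.IsExtraspecial 2 Q := by
  have h2f : Fact (Nat.Prime 2) := ⟨Nat.prime_two⟩
  have : Finite Q := Finite.of_equiv _ e.toEquiv
  rw [Extra.isExtraspecial_iff] at h ⊢
  refine ⟨h.1.of_equiv e, fun h1 => h.2 ?_⟩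
  rw [eq_top_iff]
  intro x _
  rw [Subgroup.mem_center_iff]
  intro y
  apply e.injective
  have h3 : e x ∈ Subgroup.center Q := by rw [h1]; trivial
  rw [map_mul, map_mul]
  exact Subgroup.mem_center_iff.mp h3 (e y)

section
variable {S : Type u} [Group S] [Finite S] {E : Type v} [AddCommGroup E] [Module (ZMod 3) E]
  [Finite E] {ρ : Representation (ZMod 3) S E} {R : Subgroup S} {b x y : S}

theorem comm_of_sq {G : Type*} [Group G] {H : Subgroup G} (h : ∀ a ∈ H, a * a = 1) :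
    Cfsg.IsElementaryAbelian 2 H := by
  refine ⟨⟨⟨?_⟩⟩, fun a ha => by rw [pow_two]; exact h a ha⟩
  rintro ⟨u, hu⟩ ⟨v, hv⟩
  apply Subtype.ext
  show u * v = v * u
  have h1 := h _ (mul_mem hu hv)
  have hu1 := h u hu
  have hv1 := h v hv
  have hui : u⁻¹ = u := inv_eq_of_mul_eq_one_left hu1
  have hvi : v⁻¹ = v := inv_eq_of_mul_eq_one_left hv1
  have : (u * v)⁻¹ = u * v := inv_eq_of_mul_eq_one_left h1
  rw [mul_inv_rev, hui, hvi] at this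
  exact this.symm

theorem concl (h : QB ρ b x y) [Group.IsSolvable S] (hR : (Nat.card R).Coprime 3) (hx : x ∈ R)
    (hy : y ∈ R) (hbR : b ∈ normalizer (R : Set S)) (hRb : ⁅R, zpowers b⁆ = R) :
    ((Cfsg.IsElementaryAbelian 2 R ∧ Nat.card R = 4) ∨
      (Cfsg.IsExtraspecial 2 ↥R ∧ Nat.card ↥R = 32 ∧
        ∃ A : Subgroup S, A ≤ R ∧ Cfsg.IsElementaryAbelian 2 A ∧ Nat.card ↥A = 8)) ∧
    ∃ F₀ F₁ : Submodule (ZMod 3) E, F₀ ⊓ F₁ = ⊥ ∧ F₀ ⊔ F₁ = ⊤ ∧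
      (∀ r ∈ R, ∀ v ∈ F₁, ρ r v = v) ∧ (∀ r ∈ R ⊔ zpowers b, ∀ v ∈ F₀, ρ r v ∈ F₀) ∧
      (∀ r ∈ R ⊔ zpowers b, (∀ v ∈ F₀, ρ r v = v) → r = 1) ∧
      (∀ N : Submodule (ZMod 3) E, N ≤ F₀ → (∀ r ∈ R ⊔ zpowers b, ∀ v ∈ N, ρ r v ∈ N) →
        N = ⊥ ∨ N = F₀) := by
  have hT : (R ⊔ zpowers b) ≤ normalizer (R : Set S) :=
    sup_le le_normalizer (zpowers_le.2 hbR)
  have hRT : R ≤ R ⊔ zpowers b := le_sup_left
  have hbT : b ∈ R ⊔ zpowers b := mem_sup_right (mem_zpowers b)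
  refine ⟨?_, br ρ R, fx ρ R, inf_eq_bot ρ hR, sup_eq_top ρ hR, ?_, ?_, ?_, ?_⟩
  · have D := dat h hR hx hy hbR hRb hT
    have e := Subgroup.subgroupOfEquivOfLe hRT
    rcases main D with ⟨h1, h2⟩ | ⟨h1, h2, A, h3, h4, h5⟩
    · left
      refine ⟨comm_of_sq ?_, ?_⟩
      · intro a ha
        have := h1 ⟨a, hRT ha⟩ (Subgroup.mem_subgroupOf.2 ha)
        exact congrArg Subtype.val this
      · rw [← h2]
        exact (Nat.card_congr e.toEquiv).symm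
    · right
      refine ⟨isExtraspecial_congr e h1, ?_, A.map (Subgroup.subtype _), ?_, ?_, ?_⟩
      · rw [← h2]
        exact (Nat.card_congr e.toEquiv).symm
      · rw [Subgroup.map_le_iff_le_comap]
        exact h3
      · apply comm_of_sq
        rintro _ ⟨a, ha, rfl⟩
        have := h4.2 a ha
        rw [pow_two] at this
        exact congrArg Subtype.val this
      · rw [← h5]
        exact Nat.card_congr (A.equivMapOfInjective _ (Subgroup.subtype_injective _)).symm.toEquiv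
  · intro r hr v hv
    exact (mem_fx ρ).1 hv r hr
  · intro r hr v hv
    exact br_inv ρ (hT hr) hv
  · intro r hr hv
    exact faith_br h hR hx hy hbR hr hv
  · intro U hU1 hU2
    exact irr_br h hR hx hy hbT hRT hRb U hU2 hU1

end

theorem final {S : Type u} [Group S] [Finite S]
    [Group.IsSolvable S] {E : Type v} [AddCommGroup E] [Module (ZMod 3) E] [Finite E]
    (ρ : Representation (ZMod 3) S E)
    (hfaith : Function.Injective ρ)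
    (B : Subgroup S) (hB : Nat.card ↥B = 3) (b : S) (hb : Subgroup.zpowers b = B)
    (E₀ E₁ : Submodule (ZMod 3) E) (hE01' : E₀ ⊔ E₁ = ⊤)
    (hE1 : ∀ v ∈ E₁, ρ b v = v) (hE0inv : ∀ v ∈ E₀, ρ b v ∈ E₀) (hE0 : Nat.card ↥E₀ = 27)
    (Q : Subgroup S) (hQ : Cfsg.IsElementaryAbelian 2 Q) (hQ4 : Nat.card ↥Q = 4)
    (hBQ : B ≤ Subgroup.normalizer (Q : Set S)) (hBQ' : ¬ B ≤ Subgroup.centralizer (Q : Set S))
    (P : Sylow 3 S) (hBZ : (Subgroup.center ↥(P : Subgroup S)).map (P : Subgroup S).subtype = B) :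
    ((Cfsg.IsElementaryAbelian 2 ⁅Cfsg.pPrimeCore 3 S, B⁆ ∧ Nat.card ↥⁅Cfsg.pPrimeCore 3 S, B⁆ = 4) ∨
      (Cfsg.IsExtraspecial 2 ↥⁅Cfsg.pPrimeCore 3 S, B⁆ ∧ Nat.card ↥⁅Cfsg.pPrimeCore 3 S, B⁆ = 32 ∧
        ∃ A : Subgroup S, A ≤ ⁅Cfsg.pPrimeCore 3 S, B⁆ ∧ Cfsg.IsElementaryAbelian 2 A ∧ Nat.card ↥A = 8)) ∧
    ∃ F₀ F₁ : Submodule (ZMod 3) E, F₀ ⊓ F₁ = ⊥ ∧ F₀ ⊔ F₁ = ⊤ ∧
      (∀ r ∈ ⁅Cfsg.pPrimeCore 3 S, B⁆, ∀ v ∈ F₁, ρ r v = v) ∧ (∀ r ∈ ⁅Cfsg.pPrimeCore 3 S, B⁆ ⊔ B, ∀ v ∈ F₀, ρ r v ∈ F₀) ∧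
      (∀ r ∈ ⁅Cfsg.pPrimeCore 3 S, B⁆ ⊔ B, (∀ v ∈ F₀, ρ r v = v) → r = 1) ∧
      (∀ N : Submodule (ZMod 3) E, N ≤ F₀ → (∀ r ∈ ⁅Cfsg.pPrimeCore 3 S, B⁆ ⊔ B, ∀ v ∈ N, ρ r v ∈ N) → N = ⊥ ∨ N = F₀) := by
  have hQR := H79.AW.Q_le B hB Q hQ hQ4 hBQ hBQ' P hBZ
  have hcopK : (Nat.card (Cfsg.pPrimeCore 3 S)).Coprime 3 := Solv.pPrimeCore_card_coprime 3
  have hKn : (Cfsg.pPrimeCore 3 S).Normal := inferInstance
  have hRK : ⁅Cfsg.pPrimeCore 3 S, B⁆ ≤ Cfsg.pPrimeCore 3 S := Subgroup.commutator_le_left _ _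
  have hR : (Nat.card ↥⁅Cfsg.pPrimeCore 3 S, B⁆).Coprime 3 :=
    Nat.Coprime.coprime_dvd_left (Subgroup.card_dvd_of_le hRK) hcopK
  have hBR : B ≤ normalizer ((⁅Cfsg.pPrimeCore 3 S, B⁆ : Subgroup S) : Set S) :=
    normalizer_commutator_ge_right _ _
  have hRB : ⁅⁅Cfsg.pPrimeCore 3 S, B⁆, B⁆ = ⁅Cfsg.pPrimeCore 3 S, B⁆ :=
    Cop.commutator_commutator_eq (by rw [Subgroup.normalizer_eq_top]; exact le_top)
      (by rw [hB]; exact hcopK.symm) (Or.inr inferInstance)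
  subst hb
  have hb3 : b ^ 3 = 1 := by
    have : orderOf b = 3 := by rw [← hB, Nat.card_zpowers]
    rw [← this]; exact pow_orderOf_eq_one b
  have hbQ : ∀ q ∈ Q, b * q * b⁻¹ ∈ Q := fun q hq =>
    (mem_normalizer_iff.1 (hBQ (mem_zpowers b)) q).1 hq
  have hne : ∃ q ∈ Q, b * q * b⁻¹ ≠ q := by
    by_contra hcon
    push Not at hcon
    apply hBQ'
    rw [zpowers_le, mem_centralizer_iff]
    intro q hq
    have := hcon q hq
    calc q * b = (b * q * b⁻¹) * b := by rw [this]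
      _ = b * q := by group
  obtain ⟨x, y, hx, hy, hx1, hx2, hxy, hbx, hby⟩ := exists_xy hb3 Q hQ hQ4 hbQ hne
  have h : QB ρ b x y :=
    { faith := hfaith
      b3 := hb3
      rk := rk_le hb3 E₀ E₁ hE01' hE1 hE0inv hE0
      x1 := hx1
      x2 := hx2
      xy := hxy
      bx := hbx
      bby := hby }
  exact concl h hR (hQR hx) (hQR hy) (hBR (mem_zpowers b)) hRB

end Cfsg.Agent.Star.AW
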