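import Cfsg.Agent.Star.PowDeg

/-!
# Counting `σ`-fixed characters over a cyclic `p`-quotient (owner: helper77)
-/

set_option autoImplicit false
set_option linter.unusedSectionVars false
set_option linter.style.haveILetI false

namespace Cfsg.Agent.Star

open scoped ComplexConjugate BigOperators
open Cfsg Cfsg.Agent.CharBase Cfsg.Agent.Char Cfsg.Agent.Blk Cfsg.Agent.BlkC

universe u

section Cancel

variable {G : Type u} [Group G] [Finite G] (N : Subgroup G) [hN : N.Normal]

/-- linear characters of the quotient, as functions on the group -/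
theorem lin_cancel {χ : G → ℂ} (hχ : IsIrrCharacter G χ)
    (hχN : IsIrrCharacter N (fun n : N => χ n)) (l l' : (G ⧸ N) →* ℂˣ)
    (h : ∀ g : G, (l (QuotientGroup.mk g) : ℂ) * χ g = (l' (QuotientGroup.mk g) : ℂ) * χ g) : l = l' := by
  classical
  haveI := Fintype.ofFinite G
  haveI : Fintype N := Fintype.ofFinite N
  have hinv : ∀ g : G, cj N g (fun n : N => χ n) = fun n : N => χ n := fun g =>
    cj_restrict N g (isClassFunction_of_isCharacter (isCharacter_of_isIrr hχ))
  have hGal := gallagher_bijOn N (fun _ => 1) (fun n : N => χ n) Char.isIrrCharacter_one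
    (fun g => rfl) hinv (by
      rw [show ((fun _ => 1) * (fun n : N => χ n)) = (fun n : N => χ n) from one_mul _]
      exact hχN) χ hχ (fun n => rfl)
  have hmem : ∀ m : (G ⧸ N) →* ℂˣ, (fun g : G => (m (QuotientGroup.mk g) : ℂ)) ∈
      {β : G → ℂ | IsIrrCharacter G β ∧ classInner (indFun N (fun _ => 1)) β ≠ 0} := by
    intro m
    have h1 : IsIrrCharacter G (fun g : G => (m (QuotientGroup.mk g) : ℂ)) :=
      isIrrCharacter_of_hom (((Units.coeHom ℂ).comp m).comp (QuotientGroup.mk' N))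
    refine ⟨h1, ?_⟩
    rw [frobenius_reciprocity N _ _ (isClassFunction_of_isCharacter (isCharacter_of_isIrr h1))]
    have h2 : (fun n : N => (m (QuotientGroup.mk (n : G)) : ℂ)) = fun _ => 1 := by
      funext n
      rw [(QuotientGroup.eq_one_iff (n : G)).mpr n.2, map_one, Units.val_one]
    rw [h2, (isIrrCharacter_iff (isCharacter_of_isIrr Char.isIrrCharacter_one)).mp
      Char.isIrrCharacter_one]
    exact one_ne_zero
  have h3 := hGal.injOn (hmem l) (hmem l') (by
    funext g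
    exact h g)
  ext g
  exact congrFun h3 g

end Cancel

section Count

variable {G : Type u} [Group G] [Finite G] {p : ℕ} [hp : Fact p.Prime] {M : Ideal AlgInt} {k : ℕ}

/-- A member of the principal block of degree prime to `p` restricts to a member of the principal block
of `O^p(G)`, up to cyclic quotients. -/
theorem restrict_residual (hM : IsPModular p M) [hNn : (pResidual p G).Normal]
    (χ : IrrCharacter G) (hχB : χ ∈ principalBlock M G) (hχ : ¬ p ∣ charDegree (χ : G → ℂ)) :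
    ∃ θ : IrrCharacter (pResidual p G), θ ∈ principalBlock M (pResidual p G) ∧
      (∀ n : pResidual p G, (χ : G → ℂ) n = (θ : pResidual p G → ℂ) n) ∧
        (∀ g : G, cj (pResidual p G) g (θ : pResidual p G → ℂ) = θ) ∧
        charDegree (θ : pResidual p G → ℂ) = charDegree (χ : G → ℂ) ∧
        ∀ χ₀ : IrrCharacter G, (∀ n : pResidual p G, (χ₀ : G → ℂ) n = (θ : pResidual p G → ℂ) n) →
          ∃ β : (G ⧸ pResidual p G) →* ℂˣ, ∀ g : G, (χ : G → ℂ) g =
            (β (QuotientGroup.mk g) : ℂ) * (χ₀ : G → ℂ) g := by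
  classical
  haveI := isPrime_of_isPModular hM
  haveI : Fintype G := Fintype.ofFinite G
  obtain ⟨k₀, hk₀⟩ : ∃ k, (pResidual p G).index = p ^ k := Glaub.index_residual p
  have hcanon := fun θ => exists_canonical (p := p) hM (G := G) θ
  set N := pResidual p G with hN
  haveI : Fintype N := Fintype.ofFinite N
  obtain ⟨θ, hθ, hne, hinv⟩ := Glaub.invariant_of_coprime_degree N χ (by
    rw [hk₀]
    exact (Nat.Coprime.pow_left _ ((Nat.Prime.coprime_iff_not_dvd hp.out).mpr hχ)).symm)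
  have hne' : classInner (fun n : N => (χ : G → ℂ) n) θ ≠ 0 := by convert hne
  have hθB : (⟨θ, hθ⟩ : IrrCharacter N) ∈ principalBlock M N := H76.covers_down N hχB hne'
  have hd := clifford_degree N χ.2 hθ hne'
  obtain ⟨m, hm⟩ := classInner_natCast (isCharacter_restrict (irr_isCharacter χ) N)
    (isCharacter_of_isIrr hθ)
  have hdθ : ¬ p ∣ charDegree θ := by
    have e0 : charDegree θ = H75.deg (⟨θ, hθ⟩ : IrrCharacter N) :=
      H75.charDegree_eq_deg (⟨θ, hθ⟩ : IrrCharacter N)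
    rw [e0]
    rw [H75.charDegree_eq_deg] at hχ
    intro h
    apply hχ
    have e1 : θ 1 = H75.deg (⟨θ, hθ⟩ : IrrCharacter N) := H75.deg_spec ⟨θ, hθ⟩
    have e2 := H75.deg_spec χ
    rw [hm, e1, e2] at hd
    have e3 : H75.deg χ = m * ((inertia N θ).index * H75.deg (⟨θ, hθ⟩ : IrrCharacter N)) := by
      exact_mod_cast hd
    rw [e3]
    exact (h.mul_left _).mul_left _
  -- every extension differs by a linear character
  have hlin : ∀ χ₀ : IrrCharacter G, (∀ n : N, (χ₀ : G → ℂ) n = θ n) →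
      ∃ β : (G ⧸ N) →* ℂˣ, ∀ g : G, (χ : G → ℂ) g =
        (β (QuotientGroup.mk g) : ℂ) * (χ₀ : G → ℂ) g := by
    intro χ₀ h2
    have h2' : (fun n : N => (χ₀ : G → ℂ) n) = θ := funext h2
    obtain ⟨β, hβ, hβ2⟩ := Glaub.exists_irr_factor N χ₀.2 (by rw [h2']; exact hθ) χ.2 (by
      rw [h2']; exact hne')
    have hβd : H75.deg (⟨β, hβ⟩ : IrrCharacter (G ⧸ N)) = 1 := by
      have e1 : H75.deg (⟨β, hβ⟩ : IrrCharacter (G ⧸ N)) ∣ p ^ k₀ := by
        have := H75.deg_dvd (⟨β, hβ⟩ : IrrCharacter (G ⧸ N))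
        rwa [show Nat.card (G ⧸ N) = p ^ k₀ from hk₀] at this
      obtain ⟨j, -, hj⟩ := (Nat.dvd_prime_pow hp.out).mp e1
      rcases Nat.eq_zero_or_pos j with h | h
      · rw [hj, h, pow_zero]
      · exfalso
        apply hχ
        have e2 := hβ2 1
        have e3 : β (QuotientGroup.mk 1) = H75.deg (⟨β, hβ⟩ : IrrCharacter (G ⧸ N)) :=
          H75.deg_spec (⟨β, hβ⟩ : IrrCharacter (G ⧸ N))
        have e4 : (χ₀ : G → ℂ) 1 = H75.deg χ₀ := H75.deg_spec χ₀
        rw [e3, e4, H75.deg_spec χ] at e2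
        rw [H75.charDegree_eq_deg]
        have e5 : H75.deg χ = H75.deg (⟨β, hβ⟩ : IrrCharacter (G ⧸ N)) * H75.deg χ₀ := by
          exact_mod_cast e2
        rw [e5, hj]
        exact (dvd_pow_self p h.ne').mul_right _
    have hβ1 : β 1 = 1 := by
      have := H75.deg_spec (⟨β, hβ⟩ : IrrCharacter (G ⧸ N))
      rw [hβd, Nat.cast_one] at this
      exact this
    exact ⟨(linHom (isCharacter_of_isIrr hβ) hβ1).toHomUnits, hβ2⟩
  obtain ⟨χ', -, hχ'θ, -⟩ := hcanon ⟨θ, hθ⟩ hθB hinv hdθ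
  obtain ⟨β, hβ⟩ := hlin χ' hχ'θ
  have hχθ : ∀ n : N, (χ : G → ℂ) n = θ n := by
    intro n
    rw [hβ, (QuotientGroup.eq_one_iff (n : G)).mpr n.2, map_one, Units.val_one, one_mul]
    exact hχ'θ n
  refine ⟨⟨θ, hθ⟩, hθB, hχθ, hinv, ?_, hlin⟩
  unfold charDegree
  rw [show (χ : G → ℂ) 1 = θ 1 from hχθ 1]

theorem card_pow_eq_one {C : Type u} [Group C] [Finite C] (hcyc : IsCyclic C) (hpC : p ∣ Nat.card C) :
    Nat.card {l : C →* ℂˣ // l ^ p = 1} = p := by
  letI : CommGroup C := { (inferInstance : Group C) with mul_comm := hcyc.isMulCommutative.is_comm.comm }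
  obtain ⟨e⟩ := CommGroup.monoidHom_mulEquiv_of_hasEnoughRootsOfUnity C ℂ
  have h1 : Nat.card {l : C →* ℂˣ // l ^ p = 1} = Nat.card (powMonoidHom p : C →* C).ker := by
    refine Nat.card_congr (e.toEquiv.subtypeEquiv fun l => ?_)
    rw [MonoidHom.mem_ker, powMonoidHom_apply]
    show l ^ p = 1 ↔ (e l) ^ p = 1
    rw [← map_pow, MulEquiv.map_eq_one_iff]
  rw [h1, IsCyclic.card_powMonoidHom_ker]
  exact Nat.gcd_eq_right hpC

/-- **S4553** -/
theorem card_fixed (hM : IsPModular p M) (P : Sylow p G) [hN : (pResidual p G).Normal]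
    (hcyc : IsCyclic (G ⧸ pResidual p G)) (hnt : pResidual p G ≠ ⊤)
    (hk₁ : ∀ g : G, (∃ j : ℕ, orderOf g = p ^ j) → g ^ k = g ^ (1 + p))
    (hk₂ : ∀ g : G, Nat.Coprime (orderOf g) p → g ^ k = g) :
    Nat.card {χ : IrrCharacter G // χ ∈ principalBlock M G ∧ ¬ p ∣ charDegree (χ : G → ℂ) ∧
      ∀ g : G, (χ : G → ℂ) (g ^ k) = (χ : G → ℂ) g} =
    p * Nat.card {θ : IrrCharacter (pResidual p G) // θ ∈ principalBlock M (pResidual p G) ∧
      ¬ p ∣ charDegree (θ : pResidual p G → ℂ) ∧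
      (∀ x ∈ (P : Subgroup G), ∀ n : pResidual p G, (θ : pResidual p G → ℂ)
        ⟨x * n * x⁻¹, hN.conj_mem n n.2 x⟩ = (θ : pResidual p G → ℂ) n) ∧
      ∀ n : pResidual p G, (θ : pResidual p G → ℂ) (n ^ k) = (θ : pResidual p G → ℂ) n} := by
  classical
  haveI := isPrime_of_isPModular hM
  haveI : Fintype G := Fintype.ofFinite G
  obtain ⟨k₀, hk₀⟩ : ∃ k, (pResidual p G).index = p ^ k := Glaub.index_residual p
  have hpC : p ∣ Nat.card (G ⧸ pResidual p G) := by
    rw [← Subgroup.index_eq_card, hk₀]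
    refine dvd_pow_self p ?_
    rintro rfl
    rw [pow_zero, Subgroup.index_eq_one] at hk₀
    exact hnt hk₀
  have hpG : p ∣ Nat.card G := hpC.trans (Subgroup.card_quotient_dvd_card _)
  have hkp : k ≡ 1 [MOD p] := by
    obtain ⟨g, hg⟩ := exists_prime_orderOf_dvd_card' p hpG
    have h1 := hk₁ g ⟨1, by rw [hg, pow_one]⟩
    rw [← hg]
    apply pow_eq_pow_iff_modEq.mp
    rw [h1, pow_add, pow_one, ← hg, pow_orderOf_eq_one, mul_one]
  have hkG : k.Coprime (Nat.card G) := coprime_of_fix hkp hk₂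
  have hcanon := fun θ => exists_canonical (p := p) hM (G := G) θ
  have hres := fun χ => restrict_residual (p := p) hM (G := G) χ
  have hcard := card_pow_eq_one (p := p) hcyc hpC
  have hreg : ∀ g : G, ¬ p ∣ orderOf g → g ∈ (pResidual p G).subtype.range := fun g hg => by
    rw [Subgroup.range_subtype]
    exact Transfer.mem_pResidual_of_coprime ((Nat.Prime.coprime_iff_not_dvd hp.out).mpr hg).symm
  have hPN : (pResidual p G) ⊔ (P : Subgroup G) = ⊤ := by
    rw [sup_comm]
    exact Transfer.sylow_sup_pResidual P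
  set N := pResidual p G with hNdef
  have hinv : ∀ θ : IrrCharacter N, (∀ x ∈ (P : Subgroup G), ∀ n : N, (θ : N → ℂ)
        ⟨x * n * x⁻¹, hN.conj_mem n n.2 x⟩ = (θ : N → ℂ) n) ↔ ∀ g : G, cj N g (θ : N → ℂ) = θ := by
    intro θ
    rw [Glaub.cj_invariant_iff N (P : Subgroup G) hPN (irr_isClassFunction θ)]
    exact forall₂_congr fun x _ => ⟨fun h => funext h, fun h n => congrFun h n⟩
  -- linear characters fixed by the power map
  have hlfix : ∀ l : (G ⧸ N) →* ℂˣ, l ^ p = 1 ↔ ∀ g : G, l (QuotientGroup.mk (g ^ k)) =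
      l (QuotientGroup.mk g) := by
    intro l
    have h0 : ∀ g : G, (∃ j : ℕ, orderOf g = p ^ j) → (l (QuotientGroup.mk (g ^ k)) =
        l (QuotientGroup.mk g) ↔ (l (QuotientGroup.mk g)) ^ p = 1) := by
      intro g hg
      rw [hk₁ g hg, QuotientGroup.mk_pow, map_pow, pow_add, pow_one]
      exact mul_eq_left
    constructor
    · intro h g
      have hg : g ∈ N ⊔ (P : Subgroup G) := by rw [hPN]; trivial
      obtain ⟨n, hn, x, hx, rfl⟩ := Subgroup.mem_sup_of_normal_left.mp hg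
      have e1 : (QuotientGroup.mk (n * x) : G ⧸ N) = QuotientGroup.mk x := by
        rw [QuotientGroup.mk_mul, (QuotientGroup.eq_one_iff n).mpr hn, one_mul]
      rw [QuotientGroup.mk_pow, e1, ← QuotientGroup.mk_pow]
      refine (h0 x ?_).mpr ?_
      · obtain ⟨j, hj⟩ := IsPGroup.iff_orderOf.mp P.2 ⟨x, hx⟩
        exact ⟨j, by rw [← hj, Subgroup.orderOf_mk]⟩
      · have := congrArg (fun z : (G ⧸ N) →* ℂˣ => z (QuotientGroup.mk x)) h
        exact this
    · intro h
      refine MonoidHom.ext fun q => ?_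
      obtain ⟨g, rfl⟩ := QuotientGroup.mk_surjective q
      have hg : g ∈ N ⊔ (P : Subgroup G) := by rw [hPN]; trivial
      obtain ⟨n, hn, x, hx, rfl⟩ := Subgroup.mem_sup_of_normal_left.mp hg
      have e1 : (QuotientGroup.mk (n * x) : G ⧸ N) = QuotientGroup.mk x := by
        rw [QuotientGroup.mk_mul, (QuotientGroup.eq_one_iff n).mpr hn, one_mul]
      rw [e1]
      have h2 := (h0 x (by
        obtain ⟨j, hj⟩ := IsPGroup.iff_orderOf.mp P.2 ⟨x, hx⟩
        exact ⟨j, by rw [← hj, Subgroup.orderOf_mk]⟩)).mp (h x)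
      rw [MonoidHom.pow_apply, h2]
      rfl
  haveI : Nonempty (IrrCharacter G) := ⟨oneIrr G⟩
  choose! C hC1 hC2 hC3 hC4 using hcanon
  let A := {χ : IrrCharacter G // χ ∈ principalBlock M G ∧ ¬ p ∣ charDegree (χ : G → ℂ) ∧
      ∀ g : G, (χ : G → ℂ) (g ^ k) = (χ : G → ℂ) g}
  let B := {θ : IrrCharacter N // θ ∈ principalBlock M N ∧ ¬ p ∣ charDegree (θ : N → ℂ) ∧
      (∀ x ∈ (P : Subgroup G), ∀ n : N, (θ : N → ℂ) ⟨x * n * x⁻¹, hN.conj_mem n n.2 x⟩ =
        (θ : N → ℂ) n) ∧ ∀ n : N, (θ : N → ℂ) (n ^ k) = (θ : N → ℂ) n}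
  let L := {l : (G ⧸ N) →* ℂˣ // l ^ p = 1}
  -- the product character
  have hprod : ∀ (l : (G ⧸ N) →* ℂˣ) (χ : IrrCharacter G),
      IsIrrCharacter G (fun g : G => (l (QuotientGroup.mk g) : ℂ) * (χ : G → ℂ) g) := fun l χ =>
    isIrrCharacter_hom_mul χ.2 (((Units.coeHom ℂ).comp l).comp (QuotientGroup.mk' N))
  let F : L × B → A := fun z => ⟨⟨fun g : G => ((z.1.1 (QuotientGroup.mk g) : ℂˣ) : ℂ) *
      (C z.2.1 : G → ℂ) g, hprod z.1.1 (C z.2.1)⟩, by
      obtain ⟨⟨l, hl⟩, ⟨θ, h1, h2, h3, h4⟩⟩ := z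
      have h3' := (hinv θ).mp h3
      have e1 : ∀ n : N, (l (QuotientGroup.mk (n : G)) : ℂ) * (C θ : G → ℂ) n = (θ : N → ℂ) n := by
        intro n
        rw [(QuotientGroup.eq_one_iff (n : G)).mpr n.2, map_one, Units.val_one, one_mul,
          hC2 θ h1 h3' h2]
      refine ⟨?_, ?_, ?_⟩
      · exact H76.mem_principalBlock_of_restrict hM N.subtype N.subtype_injective hreg _ θ e1 h1
      · have e2 : charDegree (fun g : G => (l (QuotientGroup.mk g) : ℂ) * (C θ : G → ℂ) g) =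
            charDegree (θ : N → ℂ) := by
          unfold charDegree
          have := e1 1
          rw [OneMemClass.coe_one] at this
          show ⌊((l (QuotientGroup.mk (1 : G)) : ℂ) * (C θ : G → ℂ) 1).re⌋₊ = _
          rw [this]
        show ¬ p ∣ charDegree (fun g : G => (l (QuotientGroup.mk g) : ℂ) * (C θ : G → ℂ) g)
        rw [e2]
        exact h2
      · intro g
        show (l (QuotientGroup.mk (g ^ k)) : ℂ) * (C θ : G → ℂ) (g ^ k) =
          (l (QuotientGroup.mk g) : ℂ) * (C θ : G → ℂ) g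
        rw [(hlfix l).mp hl g, hC4 θ h1 h3' h2 k hkG h4]⟩
  have hF : Function.Bijective F := by
    constructor
    · rintro ⟨⟨l, hl⟩, ⟨θ, h1, h2, h3, h4⟩⟩ ⟨⟨l', hl'⟩, ⟨θ', h1', h2', h3', h4'⟩⟩ h
      have e0 : ∀ g : G, (l (QuotientGroup.mk g) : ℂ) * (C θ : G → ℂ) g =
          (l' (QuotientGroup.mk g) : ℂ) * (C θ' : G → ℂ) g := fun g =>
        congrFun (congrArg (fun z : A => (z.1 : G → ℂ)) h) g
      have e1 : θ = θ' := by
        apply Subtype.ext
        funext n
        have := e0 n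
        rw [(QuotientGroup.eq_one_iff (n : G)).mpr n.2, map_one, map_one, Units.val_one, one_mul,
          one_mul, hC2 θ h1 ((hinv θ).mp h3) h2, hC2 θ' h1' ((hinv θ').mp h3') h2'] at this
        exact this
      subst e1
      have e2 : l = l' := lin_cancel N (C θ).2 (by
        rw [show (fun n : N => (C θ : G → ℂ) n) = (θ : N → ℂ) from
          funext (hC2 θ h1 ((hinv θ).mp h3) h2)]
        exact θ.2) l l' e0
      subst e2
      rfl
    · rintro ⟨χ, h1, h2, h3⟩
      obtain ⟨θ, hθB, hχθ, hθinv, hθd, hθl⟩ := hres χ h1 h2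
      have h5 : ¬ p ∣ charDegree (θ : N → ℂ) := by rw [hθd]; exact h2
      have h6 : ∀ n : N, (θ : N → ℂ) (n ^ k) = (θ : N → ℂ) n := by
        intro n
        rw [← hχθ, ← hχθ, Subgroup.coe_pow, h3]
      obtain ⟨β, hβ⟩ := hθl (C θ) (hC2 θ hθB hθinv h5)
      have h7 : β ^ p = 1 := by
        rw [hlfix]
        have e2 : β ^ k = β := lin_cancel N (C θ).2 (by
          rw [show (fun n : N => (C θ : G → ℂ) n) = (θ : N → ℂ) from
            funext (hC2 θ hθB hθinv h5)]
          exact θ.2) (β ^ k) β (by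
            intro g
            rw [← hβ g, ← h3 g, hβ (g ^ k), hC4 θ hθB hθinv h5 k hkG h6, MonoidHom.pow_apply,
              QuotientGroup.mk_pow, map_pow])
        intro g
        rw [QuotientGroup.mk_pow, map_pow]
        exact congrArg (fun z : (G ⧸ N) →* ℂˣ => z (QuotientGroup.mk g)) e2
      refine ⟨⟨⟨β, h7⟩, ⟨θ, hθB, h5, (hinv θ).mpr hθinv, h6⟩⟩, ?_⟩
      apply Subtype.ext
      apply Subtype.ext
      funext g
      exact (hβ g).symm
  have h1 := Nat.card_congr (Equiv.ofBijective F hF)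
  rw [Nat.card_prod] at h1
  rw [show Nat.card L = p from hcard] at h1
  exact h1.symm

end Count

end Cfsg.Agent.Star
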