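import Cfsg.Agent.BlkC.Sub
import Cfsg.Agent.Blk.Osima

/-!
# Blocks of rank one: all members are proportional on `p`-regular elements
-/

set_option autoImplicit false
set_option linter.unusedSectionVars false
set_option linter.style.haveILetI false

universe u

namespace Cfsg.Agent.Star

open scoped ComplexConjugate
open Cfsg Cfsg.Agent.Blk Cfsg.Agent.CharBase Cfsg.Agent.BlkC

variable {p : ℕ} [hp : Fact p.Prime] {G : Type u} [Group G] [Fintype G]

theorem not_dvd_orderOf_one : ¬ p ∣ orderOf (1 : G) := by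
  rw [orderOf_one]; exact fun h => hp.out.one_lt.ne' (Nat.dvd_one.1 h)

theorem pRegularPart_irr_ne_zero (χ : IrrCharacter G) : pRegularPart p (χ : G → ℂ) ≠ 0 := by
  intro h
  have h2 := congrFun h 1
  rw [pRegularPart_apply_of_reg not_dvd_orderOf_one, Pi.zero_apply] at h2
  exact irr_one_ne_zero χ.2 h2

theorem proportional_of_rank_one {B : Set (IrrCharacter G)} (h : blockRank p B = 1)
    {χ ψ : IrrCharacter G} (hχ : χ ∈ B) (hψ : ψ ∈ B) {x : G} (hx : ¬ p ∣ orderOf x) :
    (ψ : G → ℂ) 1 * (χ : G → ℂ) x = (χ : G → ℂ) 1 * (ψ : G → ℂ) x := by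
  rw [blockRank] at h
  set S := Submodule.span ℂ ((fun χ : IrrCharacter G => pRegularPart p (χ : G → ℂ)) '' B) with hS
  have h1 : pRegularPart p (χ : G → ℂ) ∈ S := Submodule.subset_span ⟨χ, hχ, rfl⟩
  have h2 : pRegularPart p (ψ : G → ℂ) ∈ S := Submodule.subset_span ⟨ψ, hψ, rfl⟩
  have h3 : (⟨_, h1⟩ : S) ≠ 0 := by
    intro h0
    exact pRegularPart_irr_ne_zero χ (congrArg Subtype.val h0)
  obtain ⟨c, hc⟩ := (finrank_eq_one_iff_of_nonzero' _ h3).1 h ⟨_, h2⟩
  have h4 : ∀ y : G, ¬ p ∣ orderOf y → c * (χ : G → ℂ) y = (ψ : G → ℂ) y := by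
    intro y hy
    have h5 := congrFun (congrArg Subtype.val hc) y
    change c * pRegularPart p (χ : G → ℂ) y = pRegularPart p (ψ : G → ℂ) y at h5
    rwa [pRegularPart_apply_of_reg hy, pRegularPart_apply_of_reg hy] at h5
  rw [← h4 x hx, ← h4 1 not_dvd_orderOf_one]
  ring

end Cfsg.Agent.Star
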