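import Mathlib
import Cfsg.Prelude.Def_Solvable
import Cfsg.Agent.Solv.Core
import Cfsg.Agent.H32.Syl

/-!
# Groups with trivial-intersection Sylow subgroups and trivial cores
-/

set_option autoImplicit false
set_option linter.unusedSectionVars false
set_option linter.style.haveILetI false

namespace Cfsg.Agent.Star.TI

open scoped Pointwise
open Cfsg

variable {H : Type*} [Group H] [Finite H] {p : ℕ} [hp : Fact p.Prime]

theorem mem_smul_conj {K : Subgroup H} {g x : H} : x ∈ MulAut.conj g • K ↔ g⁻¹ * x * g ∈ K := by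
  rw [Subgroup.mem_pointwise_smul_iff_inv_smul_mem, ← map_inv]
  simp [MulAut.smul_def, MulAut.conj_apply]

/-- the basic argument -/
theorem centralizer_inf_eq_bot {P : Subgroup H} (hPp : IsPGroup p P) (hPS : ¬ p ∣ P.index)
    (hTI : ∀ g x : H, x ∈ P → g⁻¹ * x * g ∈ P → x ≠ 1 → g ∈ Subgroup.normalizer (P : Set H))
    {N X : Subgroup H} (hN : N.Normal)
    (ha : ∀ Y : Subgroup H, Y ≤ N → N ≤ Subgroup.normalizer (Y : Set H) → IsPGroup p Y → Y = ⊥)
    (hb : ∀ Y : Subgroup H, Y ≤ N → N ≤ Subgroup.normalizer (Y : Set H) → ¬ p ∣ Nat.card Y → Y = ⊥)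
    (hXN : X ≤ N) (hNX : N ≤ Subgroup.normalizer (X : Set H)) (hX : X ≠ ⊥) :
    Subgroup.centralizer (X : Set H) ⊓ N = ⊥ := by
  by_contra hC
  set C := Subgroup.centralizer (X : Set H) ⊓ N with hCdef
  have hidxN : ¬ p ∣ (N ⊓ P).relIndex N := by
    refine H32.not_dvd_relIndex_inf (K := ⊤) le_top ?_ le_top ?_
    · rw [Subgroup.normalizer_eq_top_iff.2 hN]
    · rwa [Subgroup.relIndex_top_right]
  have hsyl : ∀ Y : Subgroup H, Y ≤ N → N ≤ Subgroup.normalizer (Y : Set H) →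
      ¬ p ∣ (Y ⊓ P).relIndex Y := by
    intro Y hY hNY
    have h1 := H32.not_dvd_relIndex_inf (S := N ⊓ P) hY hNY inf_le_left hidxN
    rwa [← inf_assoc, inf_eq_left.2 hY] at h1
  have hne : ∀ Y : Subgroup H, Y ≤ N → N ≤ Subgroup.normalizer (Y : Set H) → Y ≠ ⊥ →
      ∃ x ∈ Y, x ∈ P ∧ x ≠ 1 := by
    intro Y hY hNY hY1
    by_contra hcon
    push Not at hcon
    have h1 : Y ⊓ P = ⊥ := by
      rw [eq_bot_iff]
      rintro x ⟨hx1, hx2⟩
      exact hcon x hx1 hx2
    have h2 := hsyl Y hY hNY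
    rw [h1, Subgroup.relIndex_bot_left] at h2
    exact hY1 (hb Y hY hNY h2)
  have hNC : N ≤ Subgroup.normalizer (C : Set H) := by
    intro n hn
    rw [Subgroup.mem_normalizer_iff]
    have key : ∀ m ∈ N, ∀ c ∈ C, m * c * m⁻¹ ∈ C := by
      rintro m hm c ⟨hc1, hc2⟩
      refine ⟨?_, hN.conj_mem c hc2 m⟩
      change m * c * m⁻¹ ∈ Subgroup.centralizer (X : Set H)
      rw [Subgroup.mem_centralizer_iff]
      intro x hx
      have h1 : m⁻¹ * x * m ∈ X := by
        have := (Subgroup.mem_normalizer_iff.1 (hNX (N.inv_mem hm)) x).1 hx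
        rwa [inv_inv] at this
      have h2 := Subgroup.mem_centralizer_iff.1 hc1 _ h1
      calc x * (m * c * m⁻¹) = m * (m⁻¹ * x * m * c) * m⁻¹ := by group
        _ = m * c * m⁻¹ * x := by rw [h2]; group
    intro c
    constructor
    · exact key n hn c
    · intro h
      have := key n⁻¹ (N.inv_mem hn) _ h
      have h2 : n⁻¹ * (n * c * n⁻¹) * n⁻¹⁻¹ = c := by group
      rwa [h2] at this
  obtain ⟨x₀, hx₀X, hx₀P, hx₀1⟩ := hne X hXN hNX hX
  have hCP : C ≤ Subgroup.normalizer (P : Set H) := by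
    rintro c ⟨hc, -⟩
    refine hTI c x₀ hx₀P ?_ hx₀1
    have h1 := Subgroup.mem_centralizer_iff.1 hc x₀ hx₀X
    have h2 : c⁻¹ * x₀ * c = x₀ := by rw [mul_assoc, h1]; group
    rwa [h2]
  have hSC := hsyl C inf_le_right hNC
  -- `p`-elements of `C` lie in `P`
  have hel : ∀ x ∈ C, IsPGroup p (Subgroup.zpowers x) → x ∈ P := by
    intro x hx hxp
    obtain ⟨c, hc, h1⟩ := H32.exists_conj_le_of_not_dvd_relIndex (T := C ⊓ P) (P := Subgroup.zpowers x)
      inf_le_left (hPp.to_le inf_le_right) hSC (by rwa [Subgroup.zpowers_le]) hxp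
    have h2 := (h1 x (Subgroup.mem_zpowers x)).2
    exact (Subgroup.mem_normalizer_iff.1 (hCP hc) x).2 h2
  have hYN : N ≤ Subgroup.normalizer ((C ⊓ P : Subgroup H) : Set H) := by
    have key : ∀ m ∈ N, ∀ c ∈ C ⊓ P, m * c * m⁻¹ ∈ C ⊓ P := by
      rintro m hm c ⟨hc1, hc2⟩
      have h1 : m * c * m⁻¹ ∈ C := (Subgroup.mem_normalizer_iff.1 (hNC hm) c).1 hc1
      refine ⟨h1, hel _ h1 ?_⟩
      have h3 : IsPGroup p (Subgroup.zpowers c) := hPp.to_le (by rwa [Subgroup.zpowers_le])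
      have h4 := h3.map (MulAut.conj m).toMonoidHom
      rwa [MonoidHom.map_zpowers] at h4
    intro n hn
    rw [Subgroup.mem_normalizer_iff]
    intro c
    constructor
    · exact key n hn c
    · intro h
      have := key n⁻¹ (N.inv_mem hn) _ h
      have h2 : n⁻¹ * (n * c * n⁻¹) * n⁻¹⁻¹ = c := by group
      rwa [h2] at this
  have h1 := ha (C ⊓ P) (inf_le_left.trans inf_le_right) hYN (hPp.to_le inf_le_right)
  rw [h1, Subgroup.relIndex_bot_left] at hSC
  exact hC (hb C inf_le_right hNC hSC)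

end Cfsg.Agent.Star.TI
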