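import Cfsg.Agent.Star.OT3
import Cfsg.Agent.BlkF.Central
import Cfsg.Agent.BlkF.Abel

/-!
# Blocks with abelian defect group whose characters have height zero and equal degrees
-/

set_option autoImplicit false
set_option linter.unusedSectionVars false
set_option linter.style.haveILetI false

universe u

namespace Cfsg.Agent.Star

open scoped ComplexConjugate
open MonoidAlgebra Cfsg Cfsg.Agent.Blk Cfsg.Agent.BlkF Cfsg.Agent.CharBase Cfsg.Agent.BlkC

section V

variable {k : Type*} [Field k] {G : Type u} [Group G] [Fintype G]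

/-- the centre of a block algebra of a subgroup -/
noncomputable def ZH' (H : Subgroup G) (b : MonoidAlgebra k G) : Submodule k (MonoidAlgebra k G) where
  carrier := {z | Supp H z ∧ Fixed H z ∧ b * z = z}
  zero_mem' := ⟨Supp.zero, Fixed.zero, mul_zero b⟩
  add_mem' := fun hx hy => ⟨hx.1.add hy.1, hx.2.1.add hy.2.1, by rw [mul_add, hx.2.2, hy.2.2]⟩
  smul_mem' := fun c _ hx => ⟨hx.1.smul c, hx.2.1.smul c, by rw [mul_smul_comm, hx.2.2]⟩

theorem mem_ZH' {H : Subgroup G} {b z : MonoidAlgebra k G} :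
    z ∈ ZH' H b ↔ Supp H z ∧ Fixed H z ∧ b * z = z := Iff.rfl

theorem incl_smul {H : Subgroup G} (c : k) (x : MonoidAlgebra k H) :
    incl H (c • x) = c • incl H x := by
  apply ga_ext; intro g
  by_cases hg : g ∈ H
  · rw [incl_coeff_of_mem _ hg, coeff_smul_apply, coeff_smul_apply, incl_coeff_of_mem _ hg]
  · rw [incl_coeff_of_notMem _ hg, coeff_smul_apply, incl_coeff_of_notMem _ hg, smul_zero]

/-- inclusion as a linear map -/
noncomputable def inclL (H : Subgroup G) : MonoidAlgebra k H →ₗ[k] MonoidAlgebra k G where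
  toFun := incl H
  map_add' := incl_add
  map_smul' := incl_smul

theorem finrank_ZH' {H : Subgroup G} [Fintype H] (b : MonoidAlgebra k H) :
    Module.finrank k (ZH' H (incl H b)) = Module.finrank k (ZB b) := by
  have h1 : (ZB b).map (inclL H) = ZH' H (incl H b) := by
    ext z
    constructor
    · rintro ⟨x, ⟨h1, h2⟩, rfl⟩
      refine ⟨supp_incl x, (fixed_incl_iff x).2 h1, ?_⟩
      change incl H b * incl H x = incl H x
      rw [← incl_mul, h2]
    · rintro ⟨h1, h2, h3⟩
      refine ⟨res H z, ⟨?_, ?_⟩, incl_res h1⟩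
      · rw [← fixed_incl_iff, incl_res h1]; exact h2
      · apply incl_injective
        rw [incl_mul, incl_res h1, h3]
  rw [← h1]
  exact (Submodule.equivMapOfInjective (inclL H) incl_injective _).finrank_eq.symm

end V

variable {p : ℕ} [hp : Fact p.Prime] {M : Ideal AlgInt} [hMp : M.IsPrime]
  {G : Type u} [Group G] [Fintype G] {B : Set (IrrCharacter G)}
  {D : Subgroup G} {e : MonoidAlgebra (kM M) G}

/-- the centre of a block of `C_G(D)` with central defect group `D` has dimension `|D|` -/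
theorem finrank_central (hM : IsPModular p M) (he : MMax p D e)
    (hab : ∀ x ∈ D, ∀ y ∈ D, x * y = y * x) :
    Module.finrank (kM M) (ZH' (Subgroup.centralizer (D : Set G)) e) = Nat.card D := by
  classical
  have := charP_kM hM
  obtain ⟨C, hC⟩ : ∃ C, C = Subgroup.centralizer (D : Set G) := ⟨_, rfl⟩
  have := Fintype.ofFinite C
  have hDC : D ≤ C := by
    rw [hC]; exact le_centralizer_of_comm hab le_rfl
  have hblk : IsBlk C e := by rw [hC]; exact he.1.blk
  have hie : incl C (res C e) = e := incl_res hblk.supp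
  obtain ⟨B', hB', heB'⟩ := exists_eB (M := M) ((isBlk_incl_iff (res C e)).1 (by rw [hie]; exact hblk))
  have hdef : IsDef p C e D := by
    rw [hC]; exact isDef_centralizer_of_comm he hab (MLe.refl _ _)
  have hmap : (D.subgroupOf C).map C.subtype = D := map_subgroupOf' hDC
  have hdef' : IsDef p ⊤ (eB M B') (D.subgroupOf C) := by
    rw [← isDef_incl_top_iff, hmap, heB', hie]; exact hdef
  have hcen : D.subgroupOf C ≤ Subgroup.center C := by
    intro x hx
    rw [Subgroup.mem_center_iff]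
    intro y
    apply Subtype.ext
    have h1 : (y : G) ∈ Subgroup.centralizer (D : Set G) := by rw [← hC]; exact y.2
    exact (Subgroup.mem_centralizer_iff.1 h1 _ (Subgroup.mem_subgroupOf.1 hx)).symm
  obtain ⟨e', he', hb'⟩ := exists_mmax_on hM hB' hdef'
  have h2 := (nilp_abelian hM hB' he' hb' hdef' (mnilp_of_central hdef' hcen) (fun x hx y hy => by
    have := Subgroup.mem_center_iff.1 (hcen hx) y
    exact this.symm)).2.2.1
  rw [← hC, ← hie, ← heB', finrank_ZH', finrank_ZB hB', ← natCard_eq_Bfin, h2,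
    card_subgroupOf hDC]

/-- the Brauer map at `D` followed by the projection to `e` -/
theorem br_inj (hM : IsPModular p M) (hB : IsPBlock M B) {f : ℕ}
    (hf : ∀ χ ∈ B, charDegree (χ : G → ℂ) = f)
    (h0 : ∀ χ ∈ B, blockHeight p B (χ : G → ℂ) = 0)
    (he : MMax p D e) (hb : MPairOf p (eB M B) D e)
    {z : MonoidAlgebra (kM M) G} (hz : Fixed ⊤ z) (hzb : eB M B * z = z) (hbr : e * br D z = 0) :
    z = 0 := by
  classical
  have := charP_kM hM
  have hD := he.isDef hb
  have hcard : Nat.card D = p ^ blockDefect p B :=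
    BlkInd.card_defectGroup hM hB ((isDefectGroup_iff hM hB D).2 hD)
  have hzb' : z * eB M B = z := by
    rw [mul_comm_of_fixed hz (supp_top _)]; exact hzb
  refine ot_inj hM hB hf h0 hD hcard hz hzb' ?_
  obtain ⟨s, hs, hs1⟩ := exists_all_blks (G := G) (kM M) (Subgroup.centralizer (D : Set G))
  have hbrz : br D z = br D z * br D (eB M B) := by
    rw [← br_mul hD.isPGroup (hz.mono le_top) ((fixed_eB B).mono le_top), hzb']
  have h1 : br D z = ∑ g ∈ s, br D z * g := by
    rw [← Finset.mul_sum, hs1, mul_one]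
  rw [h1]
  refine Finset.sum_eq_zero fun g hg => ?_
  have hgb := (hs g).1 hg
  have hZ : InZ (Subgroup.centralizer (D : Set G)) (br D (eB M B)) :=
    inZ_br (Q := ⊥) bot_le ((isBlk_eB hB).fixed.mono le_top)
  have hbi : br D (eB M B) * br D (eB M B) = br D (eB M B) := by
    rw [← br_mul hD.isPGroup ((fixed_eB B).mono le_top) ((fixed_eB B).mono le_top), eB_idem hB]
  have hcomm : g * br D (eB M B) = br D (eB M B) * g := hgb.inZ.comm hZ.1
  have h3 : g * (br D (eB M B) * g) = br D (eB M B) * g := by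
    rw [← mul_assoc, hcomm, mul_assoc, hgb.idem]
  rcases hgb.prim (br D (eB M B) * g) (hZ.1.mul hgb.supp) (hZ.2.mul hgb.fixed) (by
    calc br D (eB M B) * g * (br D (eB M B) * g)
        = br D (eB M B) * (g * br D (eB M B)) * g := by simp only [mul_assoc]
      _ = br D (eB M B) * br D (eB M B) * (g * g) := by rw [hcomm]; simp only [mul_assoc]
      _ = _ := by rw [hbi, hgb.idem]) with h2 | h2
  rotate_left
  · rw [h3] at h2
    rw [hbrz, mul_assoc, h2, mul_zero]
  · rw [h3] at h2
    obtain ⟨u, hu, hug⟩ := exists_conj_of_mpairOf hD hb (f := g)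
      ⟨⟨hD.isPGroup, hgb⟩, isBlk_eB hB, h2⟩
    have h4 : cj u (br D z) = br D z := by
      rw [cj_br, map_conj_of_mem_normalizer hu, hz u (Subgroup.mem_top u)]
    have h5 : br D z * e = 0 := by
      have h6 : InZ (Subgroup.centralizer (D : Set G)) (br D z) :=
        inZ_br (Q := ⊥) bot_le (hz.mono le_top)
      rw [← he.1.blk.inZ.comm h6.1, hbr]
    rw [← hug, ← h4, ← cj_mul, h5, cj_zero]

theorem blk_coeff_ne_zero (hM : IsPModular p M) {C : Subgroup G} {e : MonoidAlgebra (kM M) G}
    (he : IsBlk C e) {g : G} (hg : e.coeff g ≠ 0) : g ∈ C ∧ ¬ p ∣ orderOf g := by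
  classical
  have := Fintype.ofFinite C
  have hgC : g ∈ C := by
    by_contra h
    exact hg (he.supp g h)
  refine ⟨hgC, fun hpg => hg ?_⟩
  obtain ⟨b, hb, rfl⟩ := exists_EB he
  rw [EB_eq, incl_coeff_of_mem _ hgC]
  change rd M (blockCoeff b ⟨g, hgC⟩) = 0
  rw [blockCoeff_eq_zero_of_dvd hM hb (by rwa [Subgroup.orderOf_mk]), rd_zero]

theorem eq_one_of_single_mul (hM : IsPModular p M) {C : Subgroup G} {e : MonoidAlgebra (kM M) G}
    (he : IsBlk C e) {w : G} (hw : ∃ n : ℕ, orderOf w = p ^ n) (hwC : ∀ g ∈ C, w * g = g * w)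
    (h : MonoidAlgebra.single w 1 * e = e) : w = 1 := by
  classical
  obtain ⟨g, hg⟩ : ∃ g, e.coeff g ≠ 0 := by
    by_contra hcon
    push Not at hcon
    exact he.ne_zero (ga_ext fun g => by rw [hcon g]; rfl)
  obtain ⟨hgC, hgp⟩ := blk_coeff_ne_zero hM he hg
  have h1 : e.coeff (w * g) = e.coeff g := by
    have h2 : (MonoidAlgebra.single w 1 * e).coeff (w * g) = e.coeff g := by
      rw [MonoidAlgebra.coeff_single_mul_eq_mul_coeff g (by
        intro m' _
        exact ⟨fun h => mul_left_cancel h, fun h => by rw [h]⟩), one_mul]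
    rw [← h2, h]
  obtain ⟨-, h2⟩ := blk_coeff_ne_zero hM he (g := w * g) (by rw [h1]; exact hg)
  obtain ⟨n, hn⟩ := hw
  have hco : (orderOf w).Coprime (orderOf g) := by
    rw [hn]
    exact Nat.Coprime.pow_left n ((Nat.Prime.coprime_iff_not_dvd hp.out).2 hgp)
  rw [(show Commute w g from hwC g hgC).orderOf_mul_eq_mul_orderOf_of_coprime hco, hn] at h2
  rw [← orderOf_eq_one_iff, hn]
  rcases Nat.eq_zero_or_pos n with h3 | h3
  · rw [h3, pow_zero]
  · exact absurd ((dvd_pow_self p h3.ne').mul_right _) h2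

/-- the key theorem -/
theorem stab_le_centralizer (hM : IsPModular p M) (hB : IsPBlock M B) {f : ℕ}
    (hf : ∀ χ ∈ B, charDegree (χ : G → ℂ) = f)
    (h0 : ∀ χ ∈ B, blockHeight p B (χ : G → ℂ) = 0)
    (he : MMax p D e) (hb : MPairOf p (eB M B) D e) (hab : ∀ x ∈ D, ∀ y ∈ D, x * y = y * x)
    {t : G} (ht : t ∈ stab (Subgroup.normalizer (D : Set G)) e) :
    t ∈ Subgroup.centralizer (D : Set G) := by
  classical
  have := charP_kM hM
  have hD := he.isDef hb
  have hcard : Nat.card D = p ^ blockDefect p B :=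
    BlkInd.card_defectGroup hM hB ((isDefectGroup_iff hM hB D).2 hD)
  obtain ⟨i₀, -, -, -, hreg⟩ := ot_unique hM hB hf h0
  have hdim1 : Module.finrank (kM M) (ZB (eB M B)) = Nat.card D := by
    rw [finrank_ZB hB, ot_card hM hB (fun χ hχ ψ hψ s hs => by
      rw [hreg χ hχ s hs, hreg ψ hψ s hs]) h0, hcard]
  have hdim2 := finrank_central hM he hab
  let Φ : ZB (eB M B) →ₗ[kM M] ZH' (Subgroup.centralizer (D : Set G)) e :=
    { toFun := fun z => ⟨e * br D z.1, he.1.blk.supp.mul (supp_br _ _),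
        he.1.blk.fixed.mul (inZ_br (Q := ⊥) bot_le (z.2.1.mono le_top)).2, by
          rw [← mul_assoc, he.1.blk.idem]⟩
      map_add' := fun x y => Subtype.ext (by
        change e * br D (x.1 + y.1) = e * br D x.1 + e * br D y.1
        rw [br_add, mul_add])
      map_smul' := fun c x => Subtype.ext (by
        change e * br D (c • x.1) = c • (e * br D x.1)
        rw [br_smul, mul_smul_comm]) }
  have hΦ : ∀ z, ((Φ z : ZH' (Subgroup.centralizer (D : Set G)) e) : MonoidAlgebra (kM M) G) =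
    e * br D z.1 := fun z => rfl
  have hinj : Function.Injective Φ := by
    rw [injective_iff_map_eq_zero]
    intro z hz
    apply Subtype.ext
    refine br_inj hM hB hf h0 he hb z.2.1 z.2.2 ?_
    rw [← hΦ, hz]; rfl
  have hsurj : Function.Surjective Φ :=
    (LinearMap.injective_iff_surjective_of_finrank_eq_finrank (by rw [hdim1, hdim2])).1 hinj
  rw [Subgroup.mem_centralizer_iff]
  intro u hu
  have huC : u ∈ Subgroup.centralizer (D : Set G) := le_centralizer_of_comm hab le_rfl hu
  have hmem : MonoidAlgebra.single u 1 * e ∈ ZH' (Subgroup.centralizer (D : Set G)) e := by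
    have h1 : Supp (Subgroup.centralizer (D : Set G)) (MonoidAlgebra.single u (1 : kM M)) := by
      intro g hg
      rw [coeff_single, Finsupp.single_eq_of_ne]
      rintro rfl
      exact hg huC
    have h2 : Fixed (Subgroup.centralizer (D : Set G)) (MonoidAlgebra.single u (1 : kM M)) := by
      refine fixed_single fun x hx => ?_
      rw [Subgroup.mem_centralizer_singleton_iff]
      exact (Subgroup.mem_centralizer_iff.1 hx u hu).symm
    refine ⟨h1.mul he.1.blk.supp, h2.mul he.1.blk.fixed, ?_⟩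
    rw [← mul_assoc, he.1.blk.inZ.comm h1, mul_assoc, he.1.blk.idem]
  obtain ⟨z, hz⟩ := hsurj ⟨_, hmem⟩
  have hz' : e * br D z.1 = MonoidAlgebra.single u 1 * e := by
    rw [← hΦ, hz]
  have h1 : cj t (e * br D z.1) = e * br D z.1 := by
    rw [cj_mul, ht.2, cj_br, map_conj_of_mem_normalizer ht.1, z.2.1 t (Subgroup.mem_top t)]
  rw [hz', cj_mul, ht.2] at h1
  have h2 : cj t (MonoidAlgebra.single u (1 : kM M)) = MonoidAlgebra.single (t * u * t⁻¹) 1 := by
    rw [cj, single_mul_single, single_mul_single]; simp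
  rw [h2] at h1
  -- `w = u⁻¹ t u t⁻¹`
  have htu : t * u * t⁻¹ ∈ D := (Subgroup.mem_normalizer_iff.1 ht.1 u).1 hu
  have hw : u⁻¹ * (t * u * t⁻¹) ∈ D := D.mul_mem (D.inv_mem hu) htu
  have h3 : MonoidAlgebra.single (u⁻¹ * (t * u * t⁻¹)) 1 * e = e := by
    have h4 : MonoidAlgebra.single (u⁻¹ * (t * u * t⁻¹)) (1 : kM M) =
        MonoidAlgebra.single u⁻¹ 1 * MonoidAlgebra.single (t * u * t⁻¹) 1 := by
      rw [single_mul_single, mul_one]
    rw [h4, mul_assoc, h1, ← mul_assoc, single_mul_single, inv_mul_cancel, mul_one,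
      ← one_def, one_mul]
  have h4 := eq_one_of_single_mul hM he.1.blk (w := u⁻¹ * (t * u * t⁻¹)) (by
    obtain ⟨n, hn⟩ := (IsPGroup.iff_orderOf.1 hD.isPGroup) ⟨_, hw⟩
    exact ⟨n, by rw [← hn, Subgroup.orderOf_mk]⟩) (fun g hg =>
      Subgroup.mem_centralizer_iff.1 hg _ hw) h3
  have h5 : t * u * t⁻¹ = u := by
    rw [inv_mul_eq_one] at h4; exact h4.symm
  calc u * t = t * u * t⁻¹ * t := by rw [h5]
    _ = t * u := by group

/-- **Okuyama–Tsushima.** -/
theorem nilp_of_equal_degrees (hM : IsPModular p M) (hB : IsPBlock M B) {f : ℕ}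
    (hf : ∀ χ ∈ B, charDegree (χ : G → ℂ) = f)
    (h0 : ∀ χ ∈ B, blockHeight p B (χ : G → ℂ) = 0)
    (hD : IsDef p ⊤ (eB M B) D) (hab : ∀ x ∈ D, ∀ y ∈ D, x * y = y * x) :
    MNilp p (eB M B) := by
  have := charP_kM hM
  obtain ⟨e, he, hb⟩ := exists_mmax_on hM hB hD
  have := isAlgClosed_kM hM.2.1
  rw [mnilp_iff_of_comm he hb hab (fun K f hf => splitBlk hf)]
  exact fun x hx => stab_le_centralizer hM hB hf h0 he hb hab hx

end Cfsg.Agent.Star
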