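import Cfsg.Agent.BlkF.Abel
import Cfsg.Agent.BlkF.NilpLocal

/-!
# Blocks with normal defect group: control of fusion
-/

set_option autoImplicit false
set_option linter.unusedSectionVars false
set_option linter.style.haveILetI false

namespace Cfsg.Agent.Star

open MonoidAlgebra Cfsg.Agent.Blk Cfsg.Agent.BlkF

variable {k : Type*} [Field k] {G : Type*} [Group G] [Finite G]
variable {p : ℕ} [Fact p.Prime] [CharP k p]

theorem lt_inf_norm {P Q : Subgroup G} (hP : IsPGroup p P) (hQP : Q < P) :
    Q < P ⊓ Subgroup.normalizer (Q : Set G) := by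
  refine lt_of_le_of_ne (le_inf hQP.le Subgroup.le_normalizer) fun h => hQP.ne ?_
  have hPn : Group.IsNilpotent P := hP.isNilpotent
  have hnc : NormalizerCondition P := Group.normalizerCondition_of_isNilpotent
  have h1 := normalizerCondition_iff_only_full_group_self_normalizing.1 hnc
    (Q.subgroupOf P) (by
      ext x
      rw [Subgroup.mem_normalizer_iff]
      constructor
      · intro hx
        have hx' : (x : G) ∈ P ⊓ Subgroup.normalizer (Q : Set G) := by
          refine ⟨x.2, Subgroup.mem_normalizer_iff.2 ?_⟩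
          intro y
          constructor
          · intro hy
            exact Subgroup.mem_subgroupOf.1 ((hx ⟨y, hQP.le hy⟩).1 hy)
          · intro hy
            have hyP : y ∈ P := by
              have h2 := P.mul_mem (P.mul_mem (P.inv_mem x.2) (hQP.le hy)) x.2
              have h3 : (x : G)⁻¹ * (x * y * (x : G)⁻¹) * x = y := by group
              rwa [h3] at h2
            exact Subgroup.mem_subgroupOf.1 ((hx ⟨y, hyP⟩).2 (by
              rw [Subgroup.mem_subgroupOf]; exact hy))
        rw [Subgroup.mem_subgroupOf, h]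
        exact hx'
      · intro hx y
        rw [Subgroup.mem_subgroupOf] at hx
        rw [Subgroup.mem_subgroupOf, Subgroup.mem_subgroupOf]
        exact (Subgroup.mem_normalizer_iff.1 (Subgroup.le_normalizer hx) y))
  exact le_antisymm hQP.le (Subgroup.subgroupOf_eq_top.1 h1)

theorem exists_conj_in {H Q R : Subgroup G} {f g g' : MonoidAlgebra k G}
    (hCH : Subgroup.centralizer (Q : Set G) ≤ H) (hHN : H ≤ Subgroup.normalizer (Q : Set G))
    (hfix : Fixed H f) (hQH : Q ≤ H) (hRH : R ≤ H)
    (h : MNorm p Q f R g) (h' : MNorm p Q f R g') (hD : IsDef p H f R) :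
    ∃ c ∈ H, c ∈ Subgroup.normalizer (R : Set G) ∧ cj c g = g' := by
  classical
  have hfH : IsBlk H f := h.left.blk.of_centralizer h.left.isPGroup hQH hCH hHN hfix
  have hCR : Subgroup.centralizer (R : Set G) ≤ H := (centralizer_le_of_le h.le).trans hCH
  have hmR : (R.subgroupOf H).map H.subtype = R := map_subgroupOf' hRH
  have hf : incl H (res H f) = f := incl_res hfH.supp
  have hre : incl H (res H g) = g := incl_res (h.right.blk.supp.mono hCR)
  have hre' : incl H (res H g') = g' := incl_res (h'.right.blk.supp.mono hCR)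
  have hb : IsBlk ⊤ (res H f) := by rw [← isBlk_incl_iff, hf]; exact hfH
  have hof : MPairOf p (res H f) (R.subgroupOf H) (res H g) := by
    refine ⟨?_, hb, ?_⟩
    · rw [mpair_incl_iff_of_le (by rw [hmR]; exact hCR), hmR, hre]; exact h.right
    · apply incl_injective
      rw [incl_mul, incl_br, hmR, hf, hre]; exact h.brmul
  have hof' : MPairOf p (res H f) (R.subgroupOf H) (res H g') := by
    refine ⟨?_, hb, ?_⟩
    · rw [mpair_incl_iff_of_le (by rw [hmR]; exact hCR), hmR, hre']; exact h'.right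
    · apply incl_injective
      rw [incl_mul, incl_br, hmR, hf, hre']; exact h'.brmul
  have hdef : IsDef p ⊤ (res H f) (R.subgroupOf H) := by
    rw [← isDef_incl_top_iff, hmR, hf]; exact hD
  obtain ⟨c, hcN, hc⟩ := exists_conj_of_mpairOf hdef hof hof'
  refine ⟨c, c.2, ?_, ?_⟩
  · apply mem_normalizer_of_cjS_eq
    have h1 : (R.subgroupOf H).map (MulAut.conj c).toMonoidHom = R.subgroupOf H :=
      map_conj_of_mem_normalizer hcN
    have h2 := congrArg (Subgroup.map H.subtype) h1
    rw [map_subtype_conj, hmR] at h2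
    exact h2
  · have h1 := congrArg (incl H) hc
    rw [incl_cj, hre, hre'] at h1
    exact h1

theorem conj_centralizer {b : MonoidAlgebra k G} {D : Subgroup G} [hDn : D.Normal]
    (hD : IsDef p ⊤ b D) :
    ∀ (n : ℕ) (Q : Subgroup G) (f e e' : MonoidAlgebra k G), Nat.card D - Nat.card Q = n →
      MPairOf p b D e → MPairOf p b D e' → MLe p Q f D e → MLe p Q f D e' →
      ∃ c ∈ Subgroup.centralizer (Q : Set G), cj c e = e' := by
  classical
  intro n
  induction n using Nat.strong_induction_on with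
  | _ n ih =>
    intro Q f e e' hn he he' hle hle'
    by_cases hQ : Q = D
    · subst hQ
      refine ⟨1, Subgroup.one_mem _, ?_⟩
      rw [cj_one_left, ← hle.eq_of_eq he.1, ← hle'.eq_of_eq he'.1]
    · have hlt : Q < D := lt_of_le_of_ne hle.le hQ
      obtain ⟨g, hg1, hg2⟩ := hle.inf_normalizer he.1
      obtain ⟨g', hg1', hg2'⟩ := hle'.inf_normalizer he'.1
      have hRlt := lt_inf_norm hD.isPGroup hlt
      obtain ⟨R, hR⟩ : ∃ R, R = D ⊓ Subgroup.normalizer (Q : Set G) := ⟨_, rfl⟩
      rw [← hR] at hg1 hg1' hg2 hg2' hRlt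
      obtain ⟨H, hH⟩ : ∃ H, H = R ⊔ Subgroup.centralizer (Q : Set G) := ⟨_, rfl⟩
      have hRH : R ≤ H := by rw [hH]; exact le_sup_left
      have hCH : Subgroup.centralizer (Q : Set G) ≤ H := by rw [hH]; exact le_sup_right
      have hHN : H ≤ Subgroup.normalizer (Q : Set G) := by
        rw [hH, hR]; exact sup_le inf_le_right (centralizer_le_normalizer Q)
      have hQH : Q ≤ H := hRlt.le.trans hRH
      have hfix : Fixed H f := by
        rw [hH]; exact Fixed.sup hg1.fixed hg1.left.blk.fixed
      have hQp := hg1.left.isPGroup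
      have hfH : IsBlk H f := hg1.left.blk.of_centralizer hQp hQH hCH hHN hfix
      have hRp : IsPGroup p R := hg1.right.isPGroup
      have hdef : IsDef p H f R := by
        obtain ⟨E, hE⟩ := hfH.exists_isDef p
        have hQE : Q ≤ E := hfH.normal_le_def hE hQH hHN hQp
        obtain ⟨g0, hg0⟩ := hg1.left.exists_norm_of_br_ne hE.isPGroup hQE
          (fun x hx => ⟨hHN (hE.le hx), hfix x (hE.le hx)⟩) hE.br_ne
        have hof : MPairOf p b E g0 :=
          (hg0.mle.pairOf_iff hg0.right).2 ((hle.pairOf_iff he.1).1 he)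
        obtain ⟨u, hu⟩ := (MPairOf.mmax he hD).exists_conj_le he hof
        have hED : E ≤ D := by
          have h1 := hu.le
          have h2 := map_conj_mono h1 u⁻¹
          rw [map_conj_map_conj, inv_mul_cancel, map_conj_one] at h2
          rwa [map_conj_of_mem_normalizer (by rw [Subgroup.normalizer_eq_top]; trivial)] at h2
        have hER : E ≤ R := by rw [hR]; exact le_inf hED (hE.le.trans hHN)
        exact hE.of_card_le hfix hRH hRp hg1.br_ne (Subgroup.card_le_of_le hER)
      obtain ⟨c, hcH, hcN, hcg⟩ := exists_conj_in hCH hHN hfix hQH hRH hg1 hg1' hdef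
      -- `c = c₀ r`
      obtain ⟨c₀, hc₀, r, hr, hcr⟩ : ∃ c₀ ∈ Subgroup.centralizer (Q : Set G), ∃ r ∈ R,
          c₀ * r = c := by
        have h1 : R ≤ Subgroup.normalizer ((Subgroup.centralizer (Q : Set G) : Subgroup G) : Set G) := by
          rw [hR]; exact inf_le_right.trans (normalizer_le_normalizer_centralizer Q)
        have h2 := Subgroup.coe_mul_of_right_le_normalizer_left
          (Subgroup.centralizer (Q : Set G)) R h1
        have h3 : c ∈ ((Subgroup.centralizer (Q : Set G) ⊔ R : Subgroup G) : Set G) := by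
          rw [sup_comm, ← hH]
          exact hcH
        rw [h2] at h3
        obtain ⟨x, hx, y, hy, hxy⟩ := Set.mem_mul.1 h3
        exact ⟨x, hx, y, hy, hxy⟩
      have hc₀g : cj c₀ g = g' := by
        rw [← hcg, ← hcr, ← cj_cj, hg1.right.blk.supp.fixed_of_centralizer r hr]
      have hc₀N : c₀ ∈ Subgroup.normalizer (R : Set G) := by
        have h1 : c₀ = c * r⁻¹ := by rw [← hcr]; group
        rw [h1]
        exact Subgroup.mul_mem _ hcN (Subgroup.le_normalizer (R.inv_mem hr))
      have hDc : D.map (MulAut.conj c₀).toMonoidHom = D :=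
        map_conj_of_mem_normalizer (by rw [Subgroup.normalizer_eq_top]; trivial)
      have hle2 : MLe p R g' D (cj c₀ e) := by
        have h1 := hg2.cj c₀
        rwa [map_conj_of_mem_normalizer hc₀N, hDc, hc₀g] at h1
      have he2 : MPairOf p b D (cj c₀ e) := by
        have h1 := he.cj c₀
        rwa [hDc] at h1
      have hcards : Nat.card Q < Nat.card R := by
        have h8 : Nat.card Q ≤ Nat.card R := Subgroup.card_le_of_le hRlt.le
        exact lt_of_le_of_ne h8 fun h9 => hRlt.ne (Subgroup.eq_of_le_of_card_ge hRlt.le h9.ge)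
      have hcards2 : Nat.card R ≤ Nat.card D := Subgroup.card_le_of_le hg2.le
      obtain ⟨c₁, hc₁, h1⟩ := ih (Nat.card D - Nat.card R) (by omega) R g' (cj c₀ e) e' rfl
        he2 he' hle2 hg2'
      refine ⟨c₁ * c₀, Subgroup.mul_mem _ (centralizer_le_of_le hRlt.le hc₁) hc₀, ?_⟩
      rw [← cj_cj, h1]

/-- **Control of fusion by the normal defect group.** -/
theorem mnilp_of_normal {b : MonoidAlgebra k G} {D : Subgroup G} [hDn : D.Normal]
    (hD : IsDef p ⊤ b D) {e : MonoidAlgebra k G} (he : MPairOf p b D e)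
    (h : ∀ x : G, cj x e = e → ¬ p ∣ orderOf x → x ∈ Subgroup.centralizer (D : Set G)) :
    MNilp p b := by
  classical
  have hDc : ∀ x : G, D.map (MulAut.conj x).toMonoidHom = D := fun x =>
    map_conj_of_mem_normalizer (by rw [Subgroup.normalizer_eq_top]; trivial)
  rw [mnilp_iff_below (MPairOf.mmax he hD) he]
  intro Q f hf x hx hxp
  have hf' : MLe p Q f D (cj x e) := by
    have h1 := hf.cj x
    rwa [map_conj_of_mem_normalizer hx.1, hx.2, hDc] at h1
  have he' : MPairOf p b D (cj x e) := by
    have h1 := he.cj x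
    rwa [hDc] at h1
  obtain ⟨c, hc, hce⟩ := conj_centralizer hD _ Q f (cj x e) e rfl he' he hf' hf
  obtain ⟨t, ht⟩ : ∃ t, t = c * x := ⟨_, rfl⟩
  have hte : cj t e = e := by rw [ht, ← cj_cj, hce]
  obtain ⟨m, hm⟩ : ∃ m, m = p ^ (orderOf t).factorization p := ⟨_, rfl⟩
  have h1 : ∀ n : ℕ, cj (t ^ n) e = e := by
    intro n
    induction n with
    | zero => rw [pow_zero, cj_one_left]
    | succ n ih => rw [pow_succ, ← cj_cj, hte, ih]
  have h2 : t ^ m ∈ Subgroup.centralizer (D : Set G) :=
    h _ (h1 m) (by rw [hm]; exact not_dvd_orderOf_pow t)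
  have h3 : t ^ m ∈ Subgroup.centralizer (Q : Set G) := centralizer_le_of_le hf.le h2
  have hxN := Subgroup.mem_normalizer_iff.1 hx.1
  have hact : ∀ z ∈ Q, t * z * t⁻¹ = x * z * x⁻¹ := by
    intro z hz
    have h5 := Subgroup.mem_centralizer_iff.1 hc _ ((hxN z).1 hz)
    calc t * z * t⁻¹ = c * (x * z * x⁻¹) * c⁻¹ := by rw [ht]; group
      _ = x * z * x⁻¹ := by rw [← h5]; group
  have hpow : ∀ (n : ℕ), ∀ z ∈ Q, t ^ n * z * (t ^ n)⁻¹ = x ^ n * z * (x ^ n)⁻¹ ∧
      x ^ n * z * (x ^ n)⁻¹ ∈ Q := by
    intro n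
    induction n with
    | zero => intro z hz; simpa using hz
    | succ n ih =>
      intro z hz
      obtain ⟨i1, i2⟩ := ih z hz
      have e1 : x ^ (n + 1) * z * (x ^ (n + 1))⁻¹ = x * (x ^ n * z * (x ^ n)⁻¹) * x⁻¹ := by
        rw [pow_succ']; group
      have e2 : t ^ (n + 1) * z * (t ^ (n + 1))⁻¹ = t * (t ^ n * z * (t ^ n)⁻¹) * t⁻¹ := by
        rw [pow_succ']; group
      rw [e1, e2, i1]
      exact ⟨hact _ i2, (hxN _).1 i2⟩
  have h4 : x ^ m ∈ Subgroup.centralizer (Q : Set G) := by
    rw [Subgroup.mem_centralizer_iff]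
    intro z hz
    have h5 := (hpow m z hz).1
    have h6 := Subgroup.mem_centralizer_iff.1 h3 z hz
    have h7 : t ^ m * z * (t ^ m)⁻¹ = z := by rw [← h6]; group
    rw [h7] at h5
    calc z * x ^ m = x ^ m * z * (x ^ m)⁻¹ * x ^ m := by rw [← h5]
      _ = x ^ m * z := by group
  have hco : Nat.Coprime m (orderOf x) := by
    rw [hm]
    exact Nat.Coprime.pow_left _ ((Nat.Prime.coprime_iff_not_dvd Fact.out).2 hxp)
  obtain ⟨j, hj⟩ := exists_pow_eq_self_of_coprime hco
  rw [← hj]
  exact Subgroup.pow_mem _ h4 j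

end Cfsg.Agent.Star
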