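import Cfsg.Agent.Star.Dom
import Cfsg.Agent.Star.NormDef
import Cfsg.Agent.BlkInd.Reynolds
import Cfsg.Agent.BlkF.CoverDict
import Cfsg.Agent.Cop.MinAct
import Cfsg.Agent.Solv.Frattini

/-!
# Blocks with normal defect group whose height zero characters have equal degrees
-/

set_option autoImplicit false
set_option linter.unusedSectionVars false
set_option linter.style.haveILetI false

universe u

namespace Cfsg.Agent.Star

open scoped ComplexConjugate
open MonoidAlgebra Cfsg Cfsg.Agent.Blk Cfsg.Agent.BlkF Cfsg.Agent.CharBase Cfsg.Agent.BlkC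
open Cfsg.Agent.H76

/-- `p'`-elements acting trivially on `D / D'` centralize `D` -/
theorem reg_centralizer {p : ℕ} [hp : Fact p.Prime] {G : Type u} [Group G] [Finite G]
    {D : Subgroup G} [D.Normal] (hD : IsPGroup p D) {g : G} (hg : ¬ p ∣ orderOf g)
    (h : (g : G ⧸ ⁅D, D⁆) ∈ Subgroup.centralizer
      ((D.map (QuotientGroup.mk' ⁅D, D⁆) : Subgroup (G ⧸ ⁅D, D⁆)) : Set (G ⧸ ⁅D, D⁆))) :
    g ∈ Subgroup.centralizer (D : Set G) := by
  classical
  have h1 : Subgroup.zpowers g ≤ Subgroup.centralizer (D : Set G) := by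
    refine Cop.le_centralizer_of_frattini ?_ ?_ ?_
    · rw [Subgroup.normalizer_eq_top]; exact le_top
    · have h2 : IsPGroup p (frattini D) := hD.to_subgroup _
      obtain ⟨n, hn⟩ := IsPGroup.iff_card.1 h2
      rw [hn, Nat.card_zpowers]
      exact Nat.Coprime.pow_right n ((Nat.Prime.coprime_iff_not_dvd hp.out).mpr hg).symm
    · intro a ha k hk
      have h4 : ⁅D, D⁆ ≤ (frattini D).map D.subtype := by
        have h5 : ⁅D, D⁆ = (commutator D).map D.subtype := by
          rw [map_commutator_eq]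
          congr 1 <;> exact (Subgroup.range_subtype _).symm
        rw [h5]
        exact Subgroup.map_mono (Solv.commutator_le_frattini_of_pGroup hD)
      apply h4
      obtain ⟨n, rfl⟩ := Subgroup.mem_zpowers_iff.mp ha
      have h6 := (Subgroup.zpow_mem _ h n)
      rw [Subgroup.mem_centralizer_iff] at h6
      have h7 := h6 _ ⟨k, hk, rfl⟩
      have h8 : QuotientGroup.mk' ⁅D, D⁆ (g ^ n * k * (g ^ n)⁻¹ * k⁻¹) = 1 := by
        rw [map_mul, map_mul, map_mul, map_inv, map_inv, map_zpow]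
        rw [QuotientGroup.mk'_apply, QuotientGroup.mk'_apply] at *
        rw [← h7]; group
      rw [QuotientGroup.mk'_apply, QuotientGroup.eq_one_iff] at h8
      exact h8
  exact h1 (Subgroup.mem_zpowers g)

section orb

variable {k : Type*} [Field k] {p : ℕ} [Fact p.Prime] [CharP k p] {G : Type*} [Group G] [Finite G]

theorem isBlk_orbSum' {D T : Subgroup G} (hDp : IsPGroup p D) (hDT : D ≤ T)
    (hCT : Subgroup.centralizer (D : Set G) ≤ T) (hTN : T ≤ Subgroup.normalizer (D : Set G))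
    {e : MonoidAlgebra k G} (he : IsBlk (Subgroup.centralizer (D : Set G)) e) :
    IsBlk T (orbSum T e) := by
  have hTC : T ≤ Subgroup.normalizer ((Subgroup.centralizer (D : Set G) : Subgroup G) : Set G) :=
    hTN.trans (normalizer_le_normalizer_centralizer D)
  refine ⟨(supp_orbSum hTC he.supp).mono hCT, fixed_orbSum, orbSum_idem he hTC, ?_, ?_⟩
  · intro h
    have := mul_orbSum he hTC
    rw [h, mul_zero] at this
    exact he.ne_zero this.symm
  · intro f hf1 hf2 hff
    have hbr := br_eq_self_of_normal hDT hTN hDp ⟨hf1, hf2⟩ hff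
    have hfs : Supp (Subgroup.centralizer (D : Set G)) f := by rw [← hbr]; exact supp_br _ _
    rcases he.prim f hfs (hf2.mono hCT) hff with h | h
    · left; rw [orbSum, ← relTr_mul_right hf2, h]
    · right
      rw [orbSum, ← relTr_mul_right hf2, h]
      have := relTr_smul (stab T e) T (0 : k) (0 : MonoidAlgebra k G)
      rwa [zero_smul, zero_smul] at this

theorem cj_orbSum {T : Subgroup G} {e : MonoidAlgebra k G} {x : G}
    (hx : x ∈ Subgroup.normalizer (T : Set G)) (hxe : cj x e = e) :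
    cj x (orbSum T e) = orbSum T e := by
  have h1 := cj_relTr (u := x) (stab T e) T (stab_le T e) (fixed_stab T e)
  rw [stab_map_conj, hxe, map_conj_of_mem_normalizer hx] at h1
  exact h1

end orb

variable {p : ℕ} [hp : Fact p.Prime] {M : Ideal AlgInt} [hMp : M.IsPrime]
  {G : Type u} [Group G] [Fintype G] {B : Set (IrrCharacter G)}
  {D : Subgroup G} [hDn : D.Normal]

theorem nilp_of_normal (hM : IsPModular p M) (hB : IsPBlock M B) {f : ℕ}
    (hf : ∀ χ ∈ B, blockHeight p B (χ : G → ℂ) = 0 → charDegree (χ : G → ℂ) = f)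
    (hD : IsDef p ⊤ (eB M B) D) : MNilp p (eB M B) := by
  classical
  have := charP_kM hM
  obtain ⟨e, he, hb⟩ := exists_mmax_on hM hB hD
  obtain ⟨N, hN⟩ : ∃ N : Subgroup G, N = ⁅D, D⁆ := ⟨_, rfl⟩
  have hNn : N.Normal := by rw [hN]; infer_instance
  have hND : N ≤ D := by rw [hN]; exact Subgroup.commutator_le_self D
  have hNp : IsPGroup p N := hD.isPGroup.to_le hND
  have := Fintype.ofFinite (G ⧸ N)
  obtain ⟨Db, hDb⟩ : ∃ Db : Subgroup (G ⧸ N), Db = D.map (QuotientGroup.mk' N) := ⟨_, rfl⟩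
  have hreg : ∀ g : G, ¬ p ∣ orderOf g → (g : G ⧸ N) ∈ Subgroup.centralizer (Db : Set (G ⧸ N)) →
      g ∈ Subgroup.centralizer (D : Set G) := by
    intro g hg h
    subst hN
    rw [hDb] at h
    exact reg_centralizer hD.isPGroup hg h
  have hDtop : Subgroup.normalizer (D : Set G) = ⊤ := Subgroup.normalizer_eq_top D
  have htop : (⊤ : Subgroup G).map (QuotientGroup.mk' N) = ⊤ :=
    Subgroup.map_top_of_surjective _ (QuotientGroup.mk'_surjective N)
  -- the dominated block
  have hbb : IsBlk ⊤ (pq N (eB M B)) := by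
    rw [← htop]
    refine isBlk_pq N hM hD.isPGroup hND le_top (by rw [hDtop]) ?_ (isBlk_eB hB)
    intro g _ hg h x hx
    have h1 := hreg g hg (by rw [hDb]; exact h)
    exact (Subgroup.mem_centralizer_iff.1 h1 x (hND hx)).symm
  obtain ⟨Bb, hBb, hBbe⟩ := exists_eB hbb
  -- its defect group
  have hDbp : IsPGroup p Db := by rw [hDb]; exact hD.isPGroup.map _
  have hDbn : Db.Normal := by
    rw [hDb]; exact Subgroup.Normal.map hDn _ (QuotientGroup.mk'_surjective N)
  have hDef : IsDef p ⊤ (eB M Bb) Db := by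
    obtain ⟨a, -, ha, hat⟩ := hD.tr
    refine ⟨le_top, hDbp, ⟨pq N a, supp_top _, by rw [hDb]; exact Fixed.pq N ha, ?_⟩, ?_⟩
    · rw [hBbe, ← hat, pq_relTr N hND ha, hDb]
    · rw [hBbe, hDb]
      exact br_pq_ne_zero N hD.isPGroup hND ((fixed_eB B).mono le_top) (eB_idem hB) hD.br_ne
  have hab : ∀ x ∈ Db, ∀ y ∈ Db, x * y = y * x := by
    rw [hDb]
    rintro _ ⟨x, hx, rfl⟩ _ ⟨y, hy, rfl⟩
    rw [← map_mul, ← map_mul, QuotientGroup.mk'_apply, QuotientGroup.mk'_apply, QuotientGroup.eq,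
      hN]
    have h1 := Subgroup.commutator_mem_commutator (D.inv_mem hy) (D.inv_mem hx)
    rw [commutatorElement_def] at h1
    have h2 : (x * y)⁻¹ * (y * x) = y⁻¹ * x⁻¹ * y⁻¹⁻¹ * x⁻¹⁻¹ := by group
    rw [h2]; exact h1
  have hDG := (isDefectGroup_iff hM hB D).2 hD
  have hDGb := (isDefectGroup_iff hM hBb Db).2 hDef
  -- the degrees
  have hdeg : ∀ χ ∈ Bb, blockHeight p Bb (χ : G ⧸ N → ℂ) = 0 ∧
      charDegree (χ : G ⧸ N → ℂ) = f := by
    intro χ hχ
    have h0 := BlkInd.height_zero_of_abelian hM hBb hDGb hab χ hχ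
    refine ⟨h0, ?_⟩
    have hin : infl N χ ∈ B := mem_of_pq_eB_mul_eB N hB hBb (by rw [hBbe]; exact hbb.idem) hχ
    have hd : charDegree (infl N χ : G → ℂ) = charDegree (χ : G ⧸ N → ℂ) := by
      have h1 := charDegree_spec (infl N χ)
      have h2 := charDegree_spec χ
      have h3 : (infl N χ : G → ℂ) 1 = (χ : G ⧸ N → ℂ) 1 := rfl
      rw [h1, h2] at h3
      exact_mod_cast h3
    rw [← hd]
    refine hf _ hin ?_
    rw [height_eq_zero_iff hin]
    rw [height_eq_zero_iff hχ] at h0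
    have e1 := BlkInd.factorization_index_add hM hB hDG
    have e2 := defect_add_nuMin (p := p) (block_nonempty hB)
    have e3 := BlkInd.factorization_index_add hM hBb hDGb
    have e4 := defect_add_nuMin (p := p) (block_nonempty hBb)
    have e5 : Db.index = D.index := by
      rw [hDb, Subgroup.index_map, QuotientGroup.ker_mk', sup_eq_left.2 hND,
        MonoidHom.range_eq_top.2 (QuotientGroup.mk'_surjective N), Subgroup.index_top, mul_one]
    have e6 : nu p (infl N χ) = nu p χ := by rw [nu, nu, hd]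
    rw [e5] at e3
    omega
  have hnb : MNilp p (pq N (eB M B)) := by
    rw [← hBbe]
    exact nilp_of_equal_degrees hM hBb (fun χ hχ => (hdeg χ hχ).2) (fun χ hχ => (hdeg χ hχ).1)
      hDef hab
  refine mnilp_of_normal hD hb fun x hx hxp => hreg x hxp ?_
  -- the preimage of the centralizer
  obtain ⟨C, hC⟩ : ∃ C : Subgroup G,
      C = (Subgroup.centralizer (Db : Set (G ⧸ N))).comap (QuotientGroup.mk' N) := ⟨_, rfl⟩
  have hCmap : C.map (QuotientGroup.mk' N) = Subgroup.centralizer (Db : Set (G ⧸ N)) := by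
    rw [hC, Subgroup.map_comap_eq_self_of_surjective (QuotientGroup.mk'_surjective N)]
  have hDC : D ≤ C := by
    intro y hy
    rw [hC, Subgroup.mem_comap, Subgroup.mem_centralizer_iff]
    intro z hz
    exact hab z hz _ (by rw [hDb]; exact ⟨y, hy, rfl⟩)
  have hCC : Subgroup.centralizer (D : Set G) ≤ C := by
    intro y hy
    rw [hC, Subgroup.mem_comap, Subgroup.mem_centralizer_iff, hDb]
    rintro _ ⟨z, hz, rfl⟩
    rw [← map_mul, ← map_mul, Subgroup.mem_centralizer_iff.1 hy z hz]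
  have hCN : C ≤ Subgroup.normalizer (D : Set G) := by rw [hDtop]; exact le_top
  have hCn : C.Normal := by
    rw [hC]
    have : (Subgroup.centralizer (Db : Set (G ⧸ N))).Normal := inferInstance
    exact this.comap _
  have hblkC : IsBlk C (orbSum C e) := isBlk_orbSum' hD.isPGroup hDC hCC hCN he.1.blk
  have hblkb : IsBlk (Subgroup.centralizer (Db : Set (G ⧸ N))) (pq N (orbSum C e)) := by
    rw [← hCmap]
    refine isBlk_pq N hM hD.isPGroup hND hDC hCN ?_ hblkC
    intro g _ hg h z hz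
    have h1 := hreg g hg (by rw [hDb]; exact h)
    exact (Subgroup.mem_centralizer_iff.1 h1 z (hND hz)).symm
  have hbe : eB M B * e = e := by
    have h1 := hb.2.2
    rwa [br_eq_self_of_normal le_top (by rw [hDtop]) hD.isPGroup (isBlk_eB hB).inZ
      (eB_idem hB)] at h1
  have hbo : eB M B * orbSum C e = orbSum C e := by
    rw [orbSum, ← relTr_mul_left ((fixed_eB B).mono le_top), hbe]
  have hpair : MPairOf p (pq N (eB M B)) Db (pq N (orbSum C e)) := by
    refine ⟨⟨hDbp, hblkb⟩, hbb, ?_⟩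
    have hDbt : Subgroup.normalizer (Db : Set (G ⧸ N)) = ⊤ := Subgroup.normalizer_eq_top Db
    rw [br_eq_self_of_normal le_top (by rw [hDbt]) hDbp hbb.inZ hbb.idem, ← pq_mul, hbo]
  have hfix : cj (x : G ⧸ N) (pq N (orbSum C e)) = pq N (orbSum C e) := by
    rw [← pq_cj, cj_orbSum (by rw [Subgroup.normalizer_eq_top]; trivial) hx]
  refine hnb Db _ hpair (x : G ⧸ N) ⟨by rw [Subgroup.normalizer_eq_top]; trivial, hfix⟩ ?_
  intro h
  exact hxp (h.trans (orderOf_map_dvd (QuotientGroup.mk' N) x))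

/-- height zero characters of nilpotent blocks have equal degrees -/
theorem degree_of_nilp (hM : IsPModular p M) (hB : IsPBlock M B) {D : Subgroup G}
    (hD : IsDef p ⊤ (eB M B) D) (hn : MNilp p (eB M B)) :
    ∃ f : ℕ, ∀ χ ∈ B, blockHeight p B (χ : G → ℂ) = 0 → charDegree (χ : G → ℂ) = f := by
  classical
  obtain ⟨e, he, hb⟩ := exists_mmax_on hM hB hD
  have hfus := innerF_of_mnilp hM he hb hn
  obtain ⟨χ₁, hχ₁, h1⟩ := exists_height_zero hM hB
  obtain ⟨-, Ψ, h2, h3, -, h4⟩ := nilp_structure hM hB he hb hD hn hχ₁ h1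
  refine ⟨charDegree (χ₁ : G → ℂ), fun χ hχ h0 => ?_⟩
  obtain ⟨ζ, rfl⟩ := h4 χ hχ
  rw [height_nilp hM hB he hb hfus hχ₁ h1 hχ (h3 ζ)] at h0
  rw [degree_wt hM hB he hb hfus hχ₁ (h3 ζ)]
  have h5 : charDegree (ζ : D → ℂ) = 1 := by
    have h6 := charDegree_dvd_card ζ
    obtain ⟨n, hn⟩ := IsPGroup.iff_card.1 hD.isPGroup
    rw [hn] at h6
    obtain ⟨j, -, hj⟩ := (Nat.dvd_prime_pow hp.out).1 h6
    rw [hj, Nat.factorization_pow, Finsupp.smul_apply, hp.out.factorization_self, smul_eq_mul,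
      mul_one] at h0
    rw [hj, h0, pow_zero]
  rw [h5, one_mul]

end Cfsg.Agent.Star
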