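import Cfsg.Agent.S4931
import Cfsg.Agent.Glaub.Count
import Cfsg.Agent.Glaub.PGroup
import Cfsg.Agent.H76.PInvariant
import Cfsg.Agent.BlkC.Basic

/-!
# Sums of squares of degrees prime to p in G and in a subgroup of index prime to p (owner: helper77)
-/

set_option autoImplicit false
set_option linter.unusedSectionVars false
set_option linter.style.haveILetI false

namespace Cfsg.Agent.Star

open scoped ComplexConjugate BigOperators
open Cfsg Cfsg.Agent.CharBase Cfsg.Agent.Char Cfsg.Agent.Blk Cfsg.Agent.BlkC Cfsg.Agent.H75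

universe u

section Above

variable {G : Type u} [Group G] [Finite G] (H : Subgroup G) [Fintype H]

theorem exists_above_prime {p : ℕ} [hp : Fact p.Prime] (hidx : ¬ p ∣ H.index) (ψ : IrrCharacter H)
    (hψ : ¬ p ∣ charDegree (ψ : H → ℂ)) :
    ∃ χ : IrrCharacter G, ¬ p ∣ charDegree (χ : G → ℂ) ∧
      classInner (fun n : H => (χ : G → ℂ) n) (ψ : H → ℂ) ≠ 0 := by
  classical
  haveI := Fintype.ofFinite G
  obtain ⟨χ, m, h1, h2, h3⟩ := H76.exists_constituent_not_dvd (p := p)
    (indFun_isCharacter H (ψ : H → ℂ) (irr_isCharacter ψ)) (n := H.index * charDegree (ψ : H → ℂ))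
    (by rw [indFun_one_apply, charDegree_spec]; push_cast; rfl)
    (by rw [hp.out.dvd_mul]; push Not; exact ⟨hidx, hψ⟩)
  refine ⟨χ, h1, fun h => h3 ?_⟩
  rw [frobenius_reciprocity H _ _ (irr_isClassFunction χ)] at h2
  rw [CharBase.classInner_comm_of_isCharacter (isCharacter_restrict (irr_isCharacter χ) H)
    (irr_isCharacter ψ), h2] at h
  have h4 : m = 0 := by exact_mod_cast h
  rw [h4]
  exact dvd_zero p

theorem sum_fiber_le (χ : IrrCharacter G) (S : Finset (IrrCharacter H))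
    (hS : ∀ ψ ∈ S, classInner (fun n : H => (χ : G → ℂ) n) (ψ : H → ℂ) ≠ 0) :
    ∑ ψ ∈ S, charDegree (ψ : H → ℂ) ≤ charDegree (χ : G → ℂ) := by
  classical
  haveI := Fintype.ofFinite (IrrCharacter H)
  obtain ⟨m, hm, hsum⟩ := exists_mult_of_isCharacter (isCharacter_restrict (irr_isCharacter χ) H)
  have h1 : charDegree (χ : G → ℂ) = ∑ ψ : IrrCharacter H, m ψ * charDegree (ψ : H → ℂ) := by
    have h2 := congrFun hsum 1
    rw [Finset.sum_apply] at h2
    have h3 : ∀ c : IrrCharacter H, (m c • (c : H → ℂ)) 1 = ((m c * charDegree (c : H → ℂ) : ℕ) : ℂ) := by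
      intro c
      rw [Pi.smul_apply, charDegree_spec, nsmul_eq_mul, Nat.cast_mul]
    simp only [h3, OneMemClass.coe_one, charDegree_spec] at h2
    exact_mod_cast h2
  rw [h1]
  calc ∑ ψ ∈ S, charDegree (ψ : H → ℂ) ≤ ∑ ψ ∈ S, m ψ * charDegree (ψ : H → ℂ) := by
        refine Finset.sum_le_sum fun ψ hψ => ?_
        have h3 := hS ψ hψ
        rw [hm] at h3
        have h4 : 0 < m ψ := Nat.pos_of_ne_zero (by exact_mod_cast h3)
        exact Nat.le_mul_of_pos_left _ h4
    _ ≤ _ := Finset.sum_le_sum_of_subset (Finset.subset_univ S)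

theorem restrict_eq_of_degree (χ : IrrCharacter G) (ψ : IrrCharacter H)
    (h : classInner (fun n : H => (χ : G → ℂ) n) (ψ : H → ℂ) ≠ 0)
    (hd : charDegree (ψ : H → ℂ) = charDegree (χ : G → ℂ)) (x : H) : (χ : G → ℂ) x = (ψ : H → ℂ) x := by
  classical
  haveI := Fintype.ofFinite (IrrCharacter H)
  obtain ⟨m, hm, hsum⟩ := exists_mult_of_isCharacter (isCharacter_restrict (irr_isCharacter χ) H)
  have h1 : charDegree (χ : G → ℂ) = ∑ ψ : IrrCharacter H, m ψ * charDegree (ψ : H → ℂ) := by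
    have h2 := congrFun hsum 1
    rw [Finset.sum_apply] at h2
    have h3 : ∀ c : IrrCharacter H, (m c • (c : H → ℂ)) 1 = ((m c * charDegree (c : H → ℂ) : ℕ) : ℂ) := by
      intro c
      rw [Pi.smul_apply, charDegree_spec, nsmul_eq_mul, Nat.cast_mul]
    simp only [h3, OneMemClass.coe_one, charDegree_spec] at h2
    exact_mod_cast h2
  have h3 : 0 < m ψ := by
    rw [hm] at h
    exact Nat.pos_of_ne_zero (by exact_mod_cast h)
  rw [← Finset.add_sum_erase _ _ (Finset.mem_univ ψ), ← hd] at h1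
  have h4 : charDegree (ψ : H → ℂ) ≤ m ψ * charDegree (ψ : H → ℂ) := Nat.le_mul_of_pos_left _ h3
  have h5 : ∑ φ ∈ Finset.univ.erase ψ, m φ * charDegree (φ : H → ℂ) = 0 := by omega
  have h6 : m ψ = 1 := by
    have h7 : charDegree (ψ : H → ℂ) = m ψ * charDegree (ψ : H → ℂ) := by omega
    have h8 := charDegree_pos ψ
    nlinarith
  rw [Finset.sum_eq_zero_iff] at h5
  have h7 := congrFun hsum x
  rw [← Finset.add_sum_erase _ _ (Finset.mem_univ ψ), Pi.add_apply, Finset.sum_apply, h6, one_smul] at h7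
  have h8 : ∑ c ∈ Finset.univ.erase ψ, (m c • (c : H → ℂ)) x = 0 := by
    refine Finset.sum_eq_zero fun φ hφ => ?_
    have h9 := h5 φ hφ
    rcases Nat.mul_eq_zero.mp h9 with h10 | h10
    · rw [h10, zero_smul]; rfl
    · exact absurd h10 (charDegree_pos φ).ne'
  rw [h8, add_zero] at h7
  exact h7

end Above

section Chain

variable {G : Type u} [Group G] [Finite G] (H : Subgroup G) {p : ℕ} [hp : Fact p.Prime]

/-- the degrees prime to `p` of a subgroup of index prime to `p`. -/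
theorem sum_sq_le (hidx : ¬ p ∣ H.index) [Fintype {ψ : IrrCharacter H // ¬ p ∣ charDegree (ψ : H → ℂ)}]
    [Fintype {χ : IrrCharacter G // ¬ p ∣ charDegree (χ : G → ℂ)}] :
    ∑ ψ : {ψ : IrrCharacter H // ¬ p ∣ charDegree (ψ : H → ℂ)}, charDegree (ψ.1 : H → ℂ) ^ 2 ≤
      ∑ χ : {χ : IrrCharacter G // ¬ p ∣ charDegree (χ : G → ℂ)}, charDegree (χ.1 : G → ℂ) ^ 2 ∧
    (∑ ψ : {ψ : IrrCharacter H // ¬ p ∣ charDegree (ψ : H → ℂ)}, charDegree (ψ.1 : H → ℂ) ^ 2 =
      ∑ χ : {χ : IrrCharacter G // ¬ p ∣ charDegree (χ : G → ℂ)}, charDegree (χ.1 : G → ℂ) ^ 2 →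
      ∀ ψ : IrrCharacter H, ¬ p ∣ charDegree (ψ : H → ℂ) → ∃ χ : IrrCharacter G,
        ∀ x : H, (χ : G → ℂ) x = (ψ : H → ℂ) x) := by
  classical
  haveI := Fintype.ofFinite H
  have hex : ∀ ψ : {ψ : IrrCharacter H // ¬ p ∣ charDegree (ψ : H → ℂ)},
      ∃ χ : {χ : IrrCharacter G // ¬ p ∣ charDegree (χ : G → ℂ)},
        classInner (fun n : H => (χ.1 : G → ℂ) n) (ψ.1 : H → ℂ) ≠ 0 := by
    intro ψ
    obtain ⟨χ, h1, h2⟩ := exists_above_prime H hidx ψ.1 ψ.2
    exact ⟨⟨χ, h1⟩, h2⟩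
  choose f hf using hex
  have h1 : ∀ ψ, charDegree (ψ.1 : H → ℂ) ≤ charDegree ((f ψ).1 : G → ℂ) := by
    intro ψ
    have := sum_fiber_le H (f ψ).1 {ψ.1} (fun φ hφ => by
      rw [Finset.mem_singleton] at hφ
      rw [hφ]; exact hf ψ)
    rwa [Finset.sum_singleton] at this
  have h2 : ∀ χ : {χ : IrrCharacter G // ¬ p ∣ charDegree (χ : G → ℂ)},
      ∑ ψ ∈ Finset.univ.filter (fun ψ => f ψ = χ), charDegree (ψ.1 : H → ℂ) ≤
        charDegree (χ.1 : G → ℂ) := by
    intro χ
    have := sum_fiber_le H χ.1 ((Finset.univ.filter (fun ψ => f ψ = χ)).map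
      (Function.Embedding.subtype _)) (fun φ hφ => by
        rw [Finset.mem_map] at hφ
        obtain ⟨ψ, hψ, rfl⟩ := hφ
        rw [Finset.mem_filter] at hψ
        rw [← hψ.2]
        exact hf ψ)
    rwa [Finset.sum_map] at this
  have h3 : ∑ ψ : {ψ : IrrCharacter H // ¬ p ∣ charDegree (ψ : H → ℂ)}, charDegree (ψ.1 : H → ℂ) *
      charDegree ((f ψ).1 : G → ℂ) ≤
      ∑ χ : {χ : IrrCharacter G // ¬ p ∣ charDegree (χ : G → ℂ)}, charDegree (χ.1 : G → ℂ) ^ 2 := by
    rw [← Finset.sum_fiberwise_of_maps_to (s := Finset.univ) (t := Finset.univ) (g := f)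
      (fun _ _ => Finset.mem_univ _)]
    refine Finset.sum_le_sum fun χ _ => ?_
    calc ∑ ψ ∈ Finset.univ.filter (fun ψ => f ψ = χ), charDegree (ψ.1 : H → ℂ) *
          charDegree ((f ψ).1 : G → ℂ) =
          ∑ ψ ∈ Finset.univ.filter (fun ψ => f ψ = χ), charDegree (ψ.1 : H → ℂ) *
          charDegree (χ.1 : G → ℂ) := by
            refine Finset.sum_congr rfl fun ψ hψ => ?_
            rw [(Finset.mem_filter.mp hψ).2]
      _ = (∑ ψ ∈ Finset.univ.filter (fun ψ => f ψ = χ), charDegree (ψ.1 : H → ℂ)) *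
          charDegree (χ.1 : G → ℂ) := by rw [Finset.sum_mul]
      _ ≤ charDegree (χ.1 : G → ℂ) * charDegree (χ.1 : G → ℂ) := Nat.mul_le_mul_right _ (h2 χ)
      _ = _ := by ring
  have h4 : ∀ ψ ∈ (Finset.univ : Finset {ψ : IrrCharacter H // ¬ p ∣ charDegree (ψ : H → ℂ)}),
      charDegree (ψ.1 : H → ℂ) ^ 2 ≤ charDegree (ψ.1 : H → ℂ) * charDegree ((f ψ).1 : G → ℂ) := by
    intro ψ _
    rw [sq]
    exact Nat.mul_le_mul_left _ (h1 ψ)
  have h5 := Finset.sum_le_sum h4
  refine ⟨h5.trans h3, fun heq ψ hψ => ?_⟩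
  have h6 := (Finset.sum_eq_sum_iff_of_le h4).mp (le_antisymm h5 (h3.trans heq.symm.le)) ⟨ψ, hψ⟩
    (Finset.mem_univ _)
  refine ⟨(f ⟨ψ, hψ⟩).1, restrict_eq_of_degree H _ ψ (hf ⟨ψ, hψ⟩) ?_⟩
  have h7 := charDegree_pos ψ
  change charDegree (ψ : H → ℂ) ^ 2 = charDegree (ψ : H → ℂ) * _ at h6
  rw [sq] at h6
  exact Nat.eq_of_mul_eq_mul_left h7 h6

end Chain

section NormSyl

variable {N : Type u} [Group N] [Finite N] {p : ℕ} [hp : Fact p.Prime]

theorem lin_ker_commutator {P : Type u} [Group P] [Finite P] {φ : P → ℂ} (h : IsCharacter P φ)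
    (h1 : φ 1 = 1) (x : P) (hx : x ∈ commutator P) : φ x = 1 := by
  have h2 : x ∈ ((linHom h h1).toHomUnits).ker := Abelianization.commutator_subset_ker _ hx
  rw [MonoidHom.mem_ker] at h2
  have h3 : (((linHom h h1).toHomUnits x : ℂˣ) : ℂ) = φ x := rfl
  rw [← h3, h2, Units.val_one]

theorem ker_of_not_dvd (P : Subgroup N) [hPn : P.Normal] (hP : IsPGroup p P) (ψ : IrrCharacter N)
    (hψ : ¬ p ∣ charDegree (ψ : N → ℂ)) (a : N) (ha : a ∈ ⁅P, P⁆) : (ψ : N → ℂ) a = (ψ : N → ℂ) 1 := by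
  classical
  haveI := Fintype.ofFinite N
  haveI := Fintype.ofFinite P
  obtain ⟨l, m, h1, h2, h3⟩ := H76.exists_constituent_not_dvd (p := p)
    (isCharacter_restrict (irr_isCharacter ψ) P) (n := charDegree (ψ : N → ℂ))
    (by rw [OneMemClass.coe_one, charDegree_spec]) hψ
  have hl1 : charDegree (l : P → ℂ) = 1 := by
    obtain ⟨k, hk⟩ := hP.exists_card_eq
    have h4 := charDegree_dvd_card l
    rw [hk] at h4
    obtain ⟨i, -, hi⟩ := (Nat.dvd_prime_pow hp.out).mp h4
    rcases Nat.eq_zero_or_pos i with h5 | h5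
    · rw [hi, h5, pow_zero]
    · exact absurd (hi ▸ dvd_pow_self p h5.ne') h1
  have hl2 : (l : P → ℂ) 1 = 1 := by rw [charDegree_spec, hl1, Nat.cast_one]
  have hm : m ≠ 0 := fun h => h3 (h ▸ dvd_zero p)
  have hne : classInner (fun n : P => (ψ : N → ℂ) n) (l : P → ℂ) ≠ 0 := by
    rw [h2]; exact_mod_cast hm
  have hcl := clifford P ψ.2 l.2 hne
  rw [← Subgroup.map_subtype_commutator] at ha
  obtain ⟨x, hx, rfl⟩ := ha
  have e1 := congrFun hcl x
  have e2 := congrFun hcl 1
  rw [Pi.smul_apply, Finset.sum_apply] at e1 e2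
  have e3 : ∑ φ ∈ orb P (l : P → ℂ), φ x = ∑ φ ∈ orb P (l : P → ℂ), φ 1 := by
    refine Finset.sum_congr rfl fun φ hφ => ?_
    obtain ⟨g, rfl⟩ := (mem_orb P).mp hφ
    have e4 : cj P g (l : P → ℂ) 1 = 1 := by rw [cj_one_apply, hl2]
    rw [e4]
    exact lin_ker_commutator (isCharacter_of_isIrr (isIrrCharacter_cj P g l.2)) e4 x hx
  rw [e3, ← e2] at e1
  exact e1

theorem sum_sq_normal_sylow (P : Subgroup N) [hPn : P.Normal] (hP : IsPGroup p P)
    (hPi : ¬ p ∣ P.index) [Fintype {ψ : IrrCharacter N // ¬ p ∣ charDegree (ψ : N → ℂ)}] :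
    (∑ ψ : {ψ : IrrCharacter N // ¬ p ∣ charDegree (ψ : N → ℂ)}, charDegree (ψ.1 : N → ℂ) ^ 2) *
      Nat.card (commutator P) = Nat.card N := by
  classical
  haveI : Fintype (IrrCharacter (N ⧸ ⁅P, P⁆)) := Fintype.ofFinite _
  let e : IrrCharacter (N ⧸ ⁅P, P⁆) → {ψ : IrrCharacter N // ¬ p ∣ charDegree (ψ : N → ℂ)} :=
    fun θ => ⟨⟨_, isIrrCharacter_inflate ⁅P, P⁆ θ.2⟩, by
      rw [charDegree_eq_deg]
      exact S4931.not_dvd_deg_of_abelian p P hPi _ (inflate_ker ⁅P, P⁆ _)⟩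
  have hbij : Function.Bijective e := by
    constructor
    · intro θ θ' h
      have h1 := congrArg (fun z => ((z : {ψ : IrrCharacter N // ¬ p ∣ charDegree (ψ : N → ℂ)}).1 :
        N → ℂ)) h
      apply Subtype.ext
      funext y
      obtain ⟨g, rfl⟩ := QuotientGroup.mk_surjective y
      exact congrFun h1 g
    · rintro ⟨ψ, hψ⟩
      obtain ⟨ψ', h1, h2⟩ := exists_deflate_irr ⁅P, P⁆ ψ.2 (ker_of_not_dvd P hP ψ hψ)
      refine ⟨⟨ψ', h1⟩, ?_⟩
      apply Subtype.ext
      apply Subtype.ext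
      funext g
      exact h2 g
  have h1 : ∑ θ : IrrCharacter (N ⧸ ⁅P, P⁆), deg θ ^ 2 =
      ∑ ψ : {ψ : IrrCharacter N // ¬ p ∣ charDegree (ψ : N → ℂ)}, charDegree (ψ.1 : N → ℂ) ^ 2 := by
    refine Fintype.sum_bijective e hbij _ _ fun θ => ?_
    congr 1
    have h2 := deg_spec θ
    have h3 := charDegree_spec (e θ).1
    have h4 : ((e θ).1 : N → ℂ) 1 = (θ : N ⧸ ⁅P, P⁆ → ℂ) 1 := rfl
    rw [h4, h2] at h3
    exact_mod_cast h3
  rw [← h1, sum_deg_sq]
  have h5 : Nat.card (commutator P) = Nat.card (⁅P, P⁆ : Subgroup N) := by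
    rw [← Subgroup.map_subtype_commutator]
    exact (Nat.card_congr (Subgroup.equivMapOfInjective _ _ P.subtype_injective).toEquiv)
  rw [h5, ← Subgroup.card_eq_card_quotient_mul_card_subgroup]

end NormSyl

section Compl

variable {G : Type u} [Group G] [Finite G] {p : ℕ} [hp : Fact p.Prime]

/-- If a Sylow subgroup has no fixed points on a normal p'-subgroup `K` then `K` is in the kernel of
every irreducible character of degree prime to `p`. -/
theorem ker_of_fixed_free (P : Sylow p G) (K : Subgroup G) [hKn : K.Normal]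
    (hfix : ∀ k ∈ K, (∀ x ∈ (P : Subgroup G), x * k * x⁻¹ = k) → k = 1) (χ : IrrCharacter G)
    (hχ : ¬ p ∣ charDegree (χ : G → ℂ)) (k : G) (hk : k ∈ K) : (χ : G → ℂ) k = (χ : G → ℂ) 1 := by
  classical
  haveI := Fintype.ofFinite G
  haveI := Fintype.ofFinite K
  obtain ⟨M, hM⟩ := Glaub.exists_isPModular hp.out
  haveI := isPrime_of_isPModular hM
  have hne : classInner (fun n : K => (χ : G → ℂ) n) (fun _ : K => (1 : ℂ)) ≠ 0 := by
    intro h0
    letI : MulAction (P : Subgroup G) K := MulAction.compHom K ((MulAut.conjNormal (H := K)).comp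
      (P : Subgroup G).subtype)
    have hsm : ∀ (a : (P : Subgroup G)) (x : K), ((a • x : K) : G) = a * x * (a : G)⁻¹ := fun a x =>
      MulAut.conjNormal_apply (a : G) x
    have h1 := Glaub.mli_sum_sub_sum_fixed (A := (P : Subgroup G)) (X := K) hM P.isPGroup'
      (fun x : K => (χ : G → ℂ) x) (by
        intro a x
        rw [hsm]
        exact irr_isClassFunction χ _ _) (fun x => mlr_of_isIntegral (irr_isIntegral χ _))
    have h2 : ∑ x : K, (χ : G → ℂ) x = 0 := by
      unfold classInner at h0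
      simp only [map_one, mul_one] at h0
      rcases mul_eq_zero.mp h0 with h3 | h3
      · exfalso
        rw [inv_eq_zero] at h3
        have : (Nat.card K : ℂ) ≠ 0 := by exact_mod_cast Nat.card_pos.ne'
        exact this h3
      · exact h3
    have h3 : ∀ x : K, (∀ a : (P : Subgroup G), a • x = x) ↔ x = 1 := by
      intro x
      constructor
      · intro h
        apply Subtype.ext
        refine hfix x x.2 fun y hy => ?_
        have := congrArg Subtype.val (h ⟨y, hy⟩)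
        rw [hsm] at this
        exact this
      · rintro rfl a
        apply Subtype.ext
        rw [hsm, OneMemClass.coe_one, mul_one, mul_inv_cancel]
    have h5 : ∀ s : Finset K, (∀ x, x ∈ s ↔ ∀ a : (P : Subgroup G), a • x = x) →
        ∑ x ∈ s, (χ : G → ℂ) x = (charDegree (χ : G → ℂ) : ℂ) := by
      intro s hs
      have h6 : s = {1} := by
        ext x
        rw [hs, h3, Finset.mem_singleton]
      rw [h6, Finset.sum_singleton, OneMemClass.coe_one, charDegree_spec]
    rw [h2, h5 _ (fun x => by simp), zero_sub] at h1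
    have h4 := mli_neg h1
    rw [neg_neg, mli_natCast_iff hM] at h4
    exact hχ h4
  have hcl := clifford K χ.2 Char.isIrrCharacter_one hne
  have e1 := congrFun hcl ⟨k, hk⟩
  have e2 := congrFun hcl 1
  rw [Pi.smul_apply, Finset.sum_apply] at e1 e2
  have e3 : ∑ φ ∈ orb K (fun _ : K => (1 : ℂ)), φ ⟨k, hk⟩ = ∑ φ ∈ orb K (fun _ : K => (1 : ℂ)), φ 1 := by
    refine Finset.sum_congr rfl fun φ hφ => ?_
    obtain ⟨g, rfl⟩ := (mem_orb K).mp hφ
    rfl
  rw [e3, ← e2] at e1
  exact e1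

end Compl

section Final

variable {G : Type u} [Group G] [Finite G] {p : ℕ} [hp : Fact p.Prime]

theorem finsum_sq [Fintype {χ : IrrCharacter G // ¬ p ∣ charDegree (χ : G → ℂ)}] :
    (∑ᶠ χ : {χ : Cfsg.IrrCharacter G // ¬ p ∣ Cfsg.charDegree (χ : G → ℂ)},
      Cfsg.charDegree (χ.1 : G → ℂ) ^ 2) =
    ∑ χ : {χ : IrrCharacter G // ¬ p ∣ charDegree (χ : G → ℂ)}, charDegree (χ.1 : G → ℂ) ^ 2 :=
  finsum_eq_sum_of_fintype _

theorem sum_sq_normalizer (P : Sylow p G) [Fintype {ψ : IrrCharacter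
    ↥(Subgroup.normalizer ((P : Subgroup G) : Set G)) //
    ¬ p ∣ charDegree (ψ : ↥(Subgroup.normalizer ((P : Subgroup G) : Set G)) → ℂ)}] :
    (∑ ψ : {ψ : IrrCharacter ↥(Subgroup.normalizer ((P : Subgroup G) : Set G)) //
    ¬ p ∣ charDegree (ψ : ↥(Subgroup.normalizer ((P : Subgroup G) : Set G)) → ℂ)},
      charDegree (ψ.1 : ↥(Subgroup.normalizer ((P : Subgroup G) : Set G)) → ℂ) ^ 2) *
      Nat.card (commutator P) = Nat.card (Subgroup.normalizer ((P : Subgroup G) : Set G)) := by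
  classical
  have hPN : (P : Subgroup G) ≤ Subgroup.normalizer ((P : Subgroup G) : Set G) :=
    Subgroup.le_normalizer
  have hPn : ((P : Subgroup G).subgroupOf (Subgroup.normalizer ((P : Subgroup G) : Set G))).Normal :=
    Subgroup.normal_in_normalizer
  have hPi : ¬ p ∣ ((P : Subgroup G).subgroupOf
      (Subgroup.normalizer ((P : Subgroup G) : Set G))).index := by
    intro h
    exact P.not_dvd_index (h.trans (Subgroup.relIndex_dvd_index_of_le hPN))
  have h1 := sum_sq_normal_sylow (p := p) ((P : Subgroup G).subgroupOf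
    (Subgroup.normalizer ((P : Subgroup G) : Set G))) (P.isPGroup'.of_equiv
      (Subgroup.subgroupOfEquivOfLe hPN).symm) hPi
  have h2 : Nat.card (commutator ((P : Subgroup G).subgroupOf
      (Subgroup.normalizer ((P : Subgroup G) : Set G)))) = Nat.card (commutator P) := by
    let e : ((P : Subgroup G).subgroupOf
      (Subgroup.normalizer ((P : Subgroup G) : Set G))) ≃* (P : Subgroup G) :=
      Subgroup.subgroupOfEquivOfLe hPN
    have h3 : (commutator ((P : Subgroup G).subgroupOf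
      (Subgroup.normalizer ((P : Subgroup G) : Set G)))).map e.toMonoidHom =
        commutator (P : Subgroup G) := by
      rw [map_commutator_eq, MonoidHom.range_eq_top.mpr e.surjective]
      rfl
    rw [← h3]
    exact Nat.card_congr (Subgroup.equivMapOfInjective _ _ e.injective).toEquiv
  rw [h2] at h1
  exact h1

theorem card_normalizer_le (P : Sylow p G) :
    Nat.card (Subgroup.normalizer ((P : Subgroup G) : Set G)) ≤ Nat.card (commutator ↥P) * (∑ᶠ χ : {χ : Cfsg.IrrCharacter G // ¬ p ∣ Cfsg.charDegree (χ : G → ℂ)}, Cfsg.charDegree (χ.1 : G → ℂ) ^ 2) ∧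
    (Nat.card (Subgroup.normalizer ((P : Subgroup G) : Set G)) = Nat.card (commutator ↥P) * (∑ᶠ χ : {χ : Cfsg.IrrCharacter G // ¬ p ∣ Cfsg.charDegree (χ : G → ℂ)}, Cfsg.charDegree (χ.1 : G → ℂ) ^ 2) ↔
      ∃ K : Subgroup G, K.Normal ∧ K ⊓ Subgroup.normalizer ((P : Subgroup G) : Set G) = ⊥ ∧ K ⊔ Subgroup.normalizer ((P : Subgroup G) : Set G) = ⊤) := by
  classical
  set N : Subgroup G := Subgroup.normalizer ((P : Subgroup G) : Set G) with hN
  haveI : Fintype {χ : IrrCharacter G // ¬ p ∣ charDegree (χ : G → ℂ)} := Fintype.ofFinite _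
  haveI : Fintype {ψ : IrrCharacter N // ¬ p ∣ charDegree (ψ : N → ℂ)} := Fintype.ofFinite _
  have hPN : (P : Subgroup G) ≤ N := Subgroup.le_normalizer
  have hidx : ¬ p ∣ N.index := fun h => P.not_dvd_index (h.trans (Subgroup.index_dvd_of_le hPN))
  rw [finsum_sq]
  have h1 : (∑ ψ : {ψ : IrrCharacter N // ¬ p ∣ charDegree (ψ : N → ℂ)},
      charDegree (ψ.1 : N → ℂ) ^ 2) * Nat.card (commutator P) = Nat.card N := sum_sq_normalizer P
  obtain ⟨h2, h3⟩ := sum_sq_le N (p := p) hidx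
  have hc : 0 < Nat.card (commutator P) := Nat.card_pos
  refine ⟨?_, ?_, ?_⟩
  · rw [← h1, mul_comm]
    exact Nat.mul_le_mul_left _ h2
  · intro h4
    rw [← h1, mul_comm] at h4
    have h5 := h3 (Nat.eq_of_mul_eq_mul_left hc h4)
    obtain ⟨K, hK, ha, hb⟩ := (S4931.result p P).mp h5
    exact ⟨K, hK, hb, ha⟩
  · rintro ⟨K, hKn, hKI, hKN⟩
    rw [← h1, mul_comm]
    congr 1
    refine le_antisymm h2 ?_
    have hker : ∀ χ : IrrCharacter G, ¬ p ∣ charDegree (χ : G → ℂ) → ∀ k ∈ K,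
        (χ : G → ℂ) k = (χ : G → ℂ) 1 := fun χ hχ => ker_of_fixed_free P K (by
      intro k hk hx
      have h4 : k ∈ K ⊓ N := by
        refine ⟨hk, ?_⟩
        change k ∈ Subgroup.normalizer ((P : Subgroup G) : Set G)
        rw [Subgroup.mem_normalizer_iff]
        intro y
        constructor
        · intro hy
          have h5 := hx y hy
          have h6 : k * y * k⁻¹ = y := by
            have : y * k = k * y := by
              calc y * k = y * k * y⁻¹ * y := by group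
                _ = k * y := by rw [h5]
            rw [← this]; group
          rw [h6]; exact hy
        · intro hy
          have h5 := hx _ hy
          have h6 : k * y * k⁻¹ = y := by
            have h7 : k * y * k⁻¹ * k = k * (k * y * k⁻¹) := by
              calc k * y * k⁻¹ * k = k * y * k⁻¹ * k * (k * y * k⁻¹)⁻¹ * (k * y * k⁻¹) := by group
                _ = _ := by rw [h5]
            have h8 : k * y = k * (k * y * k⁻¹) := by
              rw [← h7]; group
            exact (mul_left_cancel h8).symm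
          rw [h6] at hy; exact hy
      rw [hKI, Subgroup.mem_bot] at h4
      exact h4) χ hχ
    let f : N →* G ⧸ K := (QuotientGroup.mk' K).comp N.subtype
    have hf : Function.Surjective f := by
      intro y
      obtain ⟨g, rfl⟩ := QuotientGroup.mk'_surjective K y
      have hg : g ∈ K ⊔ N := by rw [hKN]; trivial
      rw [Subgroup.mem_sup_of_normal_left] at hg
      obtain ⟨k, hk, n, hn, rfl⟩ := hg
      refine ⟨⟨n, hn⟩, ?_⟩
      change QuotientGroup.mk' K n = _
      rw [map_mul]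
      have : QuotientGroup.mk' K k = 1 := by
        rw [QuotientGroup.mk'_apply, QuotientGroup.eq_one_iff]; exact hk
      rw [this, one_mul]
    have hres : ∀ χ : {χ : IrrCharacter G // ¬ p ∣ charDegree (χ : G → ℂ)},
        ∃ ψ : {ψ : IrrCharacter N // ¬ p ∣ charDegree (ψ : N → ℂ)},
          ∀ x : N, (ψ.1 : N → ℂ) x = (χ.1 : G → ℂ) x := by
      rintro ⟨χ, hχ⟩
      obtain ⟨χ', h4, h5⟩ := exists_deflate_irr K χ.2 (hker χ hχ)
      refine ⟨⟨⟨_, isIrrCharacter_comp_surjective h4 f hf⟩, ?_⟩, fun x => h5 x⟩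
      have h6 : charDegree (χ' ∘ f) = charDegree (χ : G → ℂ) := by
        unfold charDegree
        rw [← h5 1]
        simp
      change ¬ p ∣ charDegree (χ' ∘ f)
      rw [h6]
      exact hχ
    choose r hr using hres
    have hrinj : Function.Injective r := by
      intro χ χ' h
      apply Subtype.ext
      apply Subtype.ext
      obtain ⟨χ1, h4, h5⟩ := exists_deflate_irr K χ.1.2 (hker χ.1 χ.2)
      obtain ⟨χ2, h6, h7⟩ := exists_deflate_irr K χ'.1.2 (hker χ'.1 χ'.2)
      have h8 : χ1 = χ2 := by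
        funext y
        obtain ⟨x, rfl⟩ := hf y
        change χ1 (QuotientGroup.mk (x : G)) = χ2 (QuotientGroup.mk (x : G))
        rw [h5, h7, ← hr χ x, ← hr χ' x, h]
      funext g
      rw [← h5 g, ← h7 g, h8]
    have hrd : ∀ χ, charDegree ((r χ).1 : N → ℂ) = charDegree (χ.1 : G → ℂ) := by
      intro χ
      unfold charDegree
      rw [hr χ 1]
      simp
    calc ∑ χ : {χ : IrrCharacter G // ¬ p ∣ charDegree (χ : G → ℂ)}, charDegree (χ.1 : G → ℂ) ^ 2
        = ∑ χ : {χ : IrrCharacter G // ¬ p ∣ charDegree (χ : G → ℂ)},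
          charDegree ((r χ).1 : N → ℂ) ^ 2 := Finset.sum_congr rfl fun χ _ => by rw [hrd]
      _ = ∑ ψ ∈ Finset.univ.image r, charDegree (ψ.1 : N → ℂ) ^ 2 := by
        rw [Finset.sum_image fun _ _ _ _ h => hrinj h]
      _ ≤ _ := Finset.sum_le_sum_of_subset (Finset.subset_univ _)

end Final

end Cfsg.Agent.Star
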