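import Cfsg.Agent.Star.AWPieces
import Cfsg.Agent.H9.AW7
import Cfsg.Agent.Cop.Basic
import Cfsg.Agent.Solv.Core

namespace Cfsg.Agent.Star.AW

open Subgroup

universe u v
section
variable {G : Type u} [Group G] [Finite G] {W : Type v} [AddCommGroup W] [Module (ZMod 3) W]
  [Finite W] {σ : Representation (ZMod 3) G W} {N : Subgroup G} {b x y : G}

theorem main (D : Dat σ N b x y) :
    ((∀ n ∈ N, n * n = 1) ∧ Nat.card N = 4) ∨
    (Cfsg.IsExtraspecial 2 ↥N ∧ Nat.card ↥N = 32 ∧
      ∃ A : Subgroup G, A ≤ N ∧ Cfsg.IsElementaryAbelian 2 A ∧ Nat.card ↥A = 8) := by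
  by_cases hβ : ∀ A : Subgroup G, A.Normal → A ≤ N → (∀ a ∈ A, a * a = 1) → A ≤ Subgroup.center G
  · exact Or.inr (H9.AW7.case4b D hβ (beta_dim D hβ))
  · push Not at hβ
    obtain ⟨A, hAn, hAN, hel, hnc⟩ := hβ
    have h1 := alpha_dim D A hel hnc
    have h2 := fix_dim D.toQB
    have h3 : Module.finrank (ZMod 3) W = 3 ∨ Module.finrank (ZMod 3) W = 4 := by omega
    rcases h3 with h3 | h4
    · exact Or.inl (case3 D A hAN hel hnc h3)
    · exact Or.inr (case4a D A hAN hel hnc h4)

end

/-! ### choosing `x, y` in a four-group -/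

theorem exists_xy {S : Type u} [Group S] {b : S} (hb3 : b ^ 3 = 1) (Q : Subgroup S)
    (hQ : Cfsg.IsElementaryAbelian 2 Q) (hQ4 : Nat.card ↥Q = 4)
    (hbQ : ∀ q ∈ Q, b * q * b⁻¹ ∈ Q) (hne : ∃ q ∈ Q, b * q * b⁻¹ ≠ q) :
    ∃ x y : S, x ∈ Q ∧ y ∈ Q ∧ x ≠ 1 ∧ x * x = 1 ∧ x * y = y * x ∧ b * x * b⁻¹ = y ∧
      b * y * b⁻¹ = x * y := by
  obtain ⟨x, hx, hxb⟩ := hne
  obtain ⟨hcomm, hsq⟩ := hQ
  have hc : ∀ u ∈ Q, ∀ v ∈ Q, u * v = v * u := by
    intro u hu v hv
    have := hcomm.is_comm.comm (⟨u, hu⟩ : Q) ⟨v, hv⟩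
    simpa using congrArg Subtype.val this
  have hs : ∀ u ∈ Q, u * u = 1 := by
    intro u hu
    have := hsq u hu
    rwa [pow_two] at this
  have hx1 : x ≠ 1 := by
    rintro rfl
    apply hxb
    group
  set y := b * x * b⁻¹ with hy
  have hyQ : y ∈ Q := hbQ x hx
  have hy1 : y ≠ 1 := by
    intro h
    apply hx1
    have : x = b⁻¹ * y * b := by rw [hy]; group
    rw [this, h]; group
  set z := b * y * b⁻¹ with hz
  have hzQ : z ∈ Q := hbQ y hyQ
  have hz1 : z ≠ 1 := by
    intro h
    apply hy1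
    have : y = b⁻¹ * z * b := by rw [hz]; group
    rw [this, h]; group
  have hzy : z ≠ y := by
    intro h
    apply hxb
    have h1 : b * y * b⁻¹ = b * x * b⁻¹ := by rw [← hz, h, hy]
    exact mul_left_cancel (mul_right_cancel h1)
  have hbz : b * z * b⁻¹ = x := by
    rw [hz, hy]
    have h3 : b * b * b = 1 := by rw [← hb3]; simp [pow_succ]
    calc b * (b * (b * x * b⁻¹) * b⁻¹) * b⁻¹ = (b * b * b) * x * (b * b * b)⁻¹ := by group
      _ = x := by rw [h3]; group
  have hzx : z ≠ x := by
    intro h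
    apply hxb
    rw [h] at hbz
    exact hbz
  -- the four elements 1, x, y, xy
  have hxy1 : x * y ≠ 1 := by
    intro h
    apply hxb
    have : y = x := by
      calc y = (x * x) * y := by rw [hs x hx, one_mul]
        _ = x * (x * y) := by group
        _ = x := by rw [h, mul_one]
    exact this
  have hcard : z = x * y := by
    by_contra hne
    have : ({1, x, y, x * y, z} : Set S) ⊆ (Q : Set S) := by
      intro t ht
      rcases ht with rfl | rfl | rfl | rfl | rfl
      · exact one_mem Q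
      · exact hx
      · exact hyQ
      · exact mul_mem hx hyQ
      · exact hzQ
    have hfin : (Q : Set S).Finite := Nat.finite_of_card_ne_zero (by
      show Nat.card ↥Q ≠ 0
      rw [hQ4]; norm_num)
    have h5 : ({1, x, y, x * y, z} : Set S).ncard = 5 := by
      rw [Set.ncard_insert_of_notMem, Set.ncard_insert_of_notMem, Set.ncard_insert_of_notMem,
        Set.ncard_pair]
      · exact fun h => hne h.symm
      · simp only [Set.mem_insert_iff, Set.mem_singleton_iff, not_or]
        refine ⟨?_, fun h => hzy h.symm⟩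
        intro h
        apply hx1
        have : x * y = 1 * y := by rw [one_mul]; exact h.symm
        exact mul_right_cancel this
      · simp only [Set.mem_insert_iff, Set.mem_singleton_iff, not_or]
        refine ⟨fun h => hxb h.symm, ?_, fun h => hzx h.symm⟩
        intro h
        apply hy1
        have : x * y = x * 1 := by rw [mul_one]; exact h.symm
        exact mul_left_cancel this
      · simp only [Set.mem_insert_iff, Set.mem_singleton_iff, not_or]
        exact ⟨fun h => hx1 h.symm, fun h => hy1 h.symm, fun h => hxy1 h.symm,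
          fun h => hz1 h.symm⟩
    have h4 := Set.ncard_le_ncard this hfin
    have h6 : (Q : Set S).ncard = 4 := hQ4
    omega
  exact ⟨x, y, hx, hyQ, hx1, hs x hx, hc x hx y hyQ, rfl, by rw [← hz]; exact hcard⟩

end Cfsg.Agent.Star.AW
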