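import Cfsg.Agent.Star.AWDef
import Cfsg.Agent.H43.AWP1
import Cfsg.Agent.H9.AW2
import Cfsg.Agent.H49.AW.Alpha
import Cfsg.Agent.H98.AW4
import Cfsg.Agent.H65.AW5
import Cfsg.Agent.H79.AW.QLe
import Cfsg.Agent.H79.AW.Case4b

namespace Cfsg.Agent.Star.AW

universe u v
variable {G : Type u} [Group G] [Finite G] {W : Type v} [AddCommGroup W] [Module (ZMod 3) W]
  [Finite W] {σ : Representation (ZMod 3) G W} {N : Subgroup G} {b x y : G}

theorem weights (h : QB σ b x y) : ∃ v : W, v ≠ 0 ∧ σ x v = v ∧ σ y v = -v ∧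
    (∀ w, σ x w = w → σ y w = -w → ∃ c : ZMod 3, w = c • v) ∧
    (∀ w, σ x w = w → σ y w = w → σ b w = w) := H43.AWP1.weights h

theorem rank_x (h : QB σ b x y) :
    Module.finrank (ZMod 3) (LinearMap.range (σ x - 1)) = 2 := H43.AWP1.rank_x h

theorem fix_dim (h : QB σ b x y) :
    Module.finrank (ZMod 3) ((LinearMap.ker (σ x - 1) ⊓ LinearMap.ker (σ y - 1) :
      Submodule (ZMod 3) W)) + 3 = Module.finrank (ZMod 3) W := H43.AWP1.fix_dim h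

theorem comm_cent (h : QB σ b x y) {c : G} (hx : c * x = x * c) (hy : c * y = y * c) :
    c * b * c⁻¹ * b⁻¹ = 1 ∨ c * b * c⁻¹ * b⁻¹ = x ∨ c * b * c⁻¹ * b⁻¹ = y ∨
      c * b * c⁻¹ * b⁻¹ = x * y := H43.AWP1.comm_cent h hx hy

theorem central (h : QB σ b x y)
    (irr : ∀ U : Submodule (ZMod 3) W, (∀ g : G, ∀ v ∈ U, σ g v ∈ U) → U = ⊥ ∨ U = ⊤)
    {z : G} (hz : ∀ g, z * g = g * z) : σ z = 1 ∨ σ z = -1 := H43.AWP1.central h irr hz

theorem no_odd (D : Dat σ N b x y) {p : ℕ} (hp : p.Prime) (h5 : 5 ≤ p) (L : Subgroup G)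
    [L.Normal] (hLN : L ≤ N) (hL : IsPGroup p L) : L = ⊥ :=
  H9.AW.no_odd_aux (fun _ _ h => weights h) (fun _ _ h => rank_x h)
    (fun _ _ h _ h1 h2 => comm_cent h h1 h2) (fun _ _ h irr _ hz => central h irr hz) D hp h5 L hLN hL

theorem alpha_dim (D : Dat σ N b x y) (A : Subgroup G) [A.Normal]
    (hel : ∀ a ∈ A, a * a = 1) (hnc : ¬ A ≤ Subgroup.center G) :
    Module.finrank (ZMod 3) W ≤ 4 := H49.AW.alpha_dim' D (fun _ _ h => weights h) A hel hnc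

theorem beta_dim (D : Dat σ N b x y) (hβ : ∀ A : Subgroup G, A.Normal → A ≤ N →
    (∀ a ∈ A, a * a = 1) → A ≤ Subgroup.center G) :
    Module.finrank (ZMod 3) W = 4 := H98.AW4.beta_dim D hβ

theorem fix4 (D : Dat σ N b x y) (h4 : Module.finrank (ZMod 3) W = 4) {c : G} (hc : c ∈ N)
    (hcb : c * b = b * c) : σ c = 1 ∨ σ c = -1 :=
  H65.AW5.fix4 D h4 (weights D.toQB) (fix_dim D.toQB) hc hcb

theorem two_group (D : Dat σ N b x y) (h4 : Module.finrank (ZMod 3) W = 4) :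
    IsPGroup 2 N :=
  H65.AW5.two_group D (fun _ hc hcb => fix4 D h4 hc hcb)
    (fun _ hp h5 L hLn hLN hL => no_odd D hp h5 L hLN hL)

theorem case3 (D : Dat σ N b x y) (A : Subgroup G) [A.Normal] (hAN : A ≤ N)
    (hel : ∀ a ∈ A, a * a = 1) (hnc : ¬ A ≤ Subgroup.center G)
    (h3 : Module.finrank (ZMod 3) W = 3) :
    (∀ n ∈ N, n * n = 1) ∧ Nat.card N = 4 :=
  H79.AW.case3' (fun _ _ _ h hx hy => comm_cent h hx hy) (fun _ _ h => fix_dim h)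
    (fun _ _ h => by obtain ⟨v, h0, h1, h2, h3, -⟩ := weights h; exact ⟨v, h0, h1, h2, h3⟩)
    D A hAN hel hnc h3

theorem case4a (D : Dat σ N b x y) (A : Subgroup G) [A.Normal] (hAN : A ≤ N)
    (hel : ∀ a ∈ A, a * a = 1) (hnc : ¬ A ≤ Subgroup.center G)
    (h4 : Module.finrank (ZMod 3) W = 4) :
    Cfsg.IsExtraspecial 2 ↥N ∧ Nat.card ↥N = 32 ∧
      ∃ A : Subgroup G, A ≤ N ∧ Cfsg.IsElementaryAbelian 2 A ∧ Nat.card ↥A = 8 :=
  H79.AW.case4a' (fun _ _ _ h hx hy => comm_cent h hx hy) (fun _ _ h => fix_dim h) D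
    (fun _ hc hcb => fix4 D h4 hc hcb) A hAN hel hnc h4

end Cfsg.Agent.Star.AW
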