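import Cfsg.Agent.Star.AWMain

namespace Cfsg.Agent.Star.AW

open Subgroup

universe u v

/-! ### averaging: `E = C_E(R) ⊕ [E,R]` -/

section Avg
variable {S : Type u} [Group S] [Finite S] {E : Type v} [AddCommGroup E] [Module (ZMod 3) E]
  (ρ : Representation (ZMod 3) S E)

/-- `[E,R]` -/
def br (R : Subgroup S) : Submodule (ZMod 3) E :=
  ⨆ r : R, LinearMap.range (ρ (r : S) - 1)

/-- `C_E(R)` -/
def fx (R : Subgroup S) : Submodule (ZMod 3) E :=
  ⨅ r : R, LinearMap.ker (ρ (r : S) - 1)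

theorem mem_fx {R : Subgroup S} {v : E} : v ∈ fx ρ R ↔ ∀ r ∈ R, ρ r v = v := by
  unfold fx
  simp only [Submodule.mem_iInf, LinearMap.mem_ker, LinearMap.sub_apply, Module.End.one_apply,
    sub_eq_zero, Subtype.forall]

theorem sub_mem_br {R : Subgroup S} {r : S} (hr : r ∈ R) (v : E) : ρ r v - v ∈ br ρ R := by
  have : LinearMap.range (ρ r - 1) ≤ br ρ R :=
    le_iSup (fun r : R => LinearMap.range (ρ (r : S) - 1)) ⟨r, hr⟩
  exact this ⟨v, by simp⟩

theorem br_le {R : Subgroup S} {U : Submodule (ZMod 3) E} (h : ∀ r ∈ R, ∀ v, ρ r v - v ∈ U) :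
    br ρ R ≤ U := by
  unfold br
  refine iSup_le ?_
  rintro ⟨r, hr⟩ w ⟨v, rfl⟩
  simpa using h r hr v

open Classical in
/-- the averaging operator -/
noncomputable def avg (R : Subgroup S) : E →ₗ[ZMod 3] E :=
  ((Nat.card R : ZMod 3)⁻¹) • ∑ᶠ r : R, ρ (r : S)

theorem avg_mem (R : Subgroup S) (v : E) : avg ρ R v ∈ fx ρ R := by
  classical
  haveI := Fintype.ofFinite R
  rw [mem_fx]
  intro r hr
  unfold avg
  rw [finsum_eq_sum_of_fintype]
  simp only [LinearMap.smul_apply, map_smul, LinearMap.sum_apply, map_sum]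
  congr 1
  refine Fintype.sum_equiv (Equiv.mulLeft (⟨r, hr⟩ : R)) _ _ ?_
  intro s
  simp [map_mul]

theorem avg_sub_mem {R : Subgroup S} (hR : (Nat.card R).Coprime 3) (v : E) :
    v - avg ρ R v ∈ br ρ R := by
  classical
  haveI := Fintype.ofFinite R
  have hne : (Nat.card R : ZMod 3) ≠ 0 := by
    intro h
    rw [ZMod.natCast_eq_zero_iff] at h
    have := Nat.Coprime.eq_one_of_dvd hR.symm h
    omega
  have key : v - avg ρ R v = ((Nat.card R : ZMod 3)⁻¹) • ∑ r : R, -(ρ (r : S) v - v) := by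
    unfold avg
    rw [finsum_eq_sum_of_fintype]
    simp only [LinearMap.smul_apply, LinearMap.sum_apply, neg_sub, Finset.sum_sub_distrib,
      Finset.sum_const, smul_sub]
    congr 1
    rw [Finset.card_univ, ← Nat.card_eq_fintype_card]
    rw [← Nat.cast_smul_eq_nsmul (ZMod 3), smul_smul, inv_mul_cancel₀ hne, one_smul]
  rw [key]
  refine Submodule.smul_mem _ _ (Submodule.sum_mem _ ?_)
  intro r _
  exact Submodule.neg_mem _ (sub_mem_br ρ r.2 v)

theorem sup_eq_top {R : Subgroup S} (hR : (Nat.card R).Coprime 3) : br ρ R ⊔ fx ρ R = ⊤ := by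
  rw [eq_top_iff]
  intro v _
  have : v = (v - avg ρ R v) + avg ρ R v := by abel
  rw [this]
  exact Submodule.add_mem_sup (avg_sub_mem ρ hR v) (avg_mem ρ R v)

theorem avg_br {R : Subgroup S} {v : E} (hv : v ∈ br ρ R) : avg ρ R v = 0 := by
  classical
  haveI := Fintype.ofFinite R
  have : br ρ R ≤ LinearMap.ker (avg ρ R) := by
    refine br_le ρ ?_
    intro r hr w
    rw [LinearMap.mem_ker, map_sub, sub_eq_zero]
    unfold avg
    rw [finsum_eq_sum_of_fintype]
    simp only [LinearMap.smul_apply, LinearMap.sum_apply]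
    congr 1
    refine Fintype.sum_equiv (Equiv.mulRight (⟨r, hr⟩ : R)) _ _ ?_
    intro s
    simp [map_mul]
  exact this hv

theorem avg_fx {R : Subgroup S} (hR : (Nat.card R).Coprime 3) {v : E} (hv : v ∈ fx ρ R) :
    avg ρ R v = v := by
  classical
  haveI := Fintype.ofFinite R
  have hne : (Nat.card R : ZMod 3) ≠ 0 := by
    intro h
    rw [ZMod.natCast_eq_zero_iff] at h
    have := Nat.Coprime.eq_one_of_dvd hR.symm h
    omega
  rw [mem_fx] at hv
  unfold avg
  rw [finsum_eq_sum_of_fintype]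
  simp only [LinearMap.smul_apply, LinearMap.sum_apply]
  rw [Finset.sum_congr rfl (fun (r : R) _ => hv r r.2)]
  rw [Finset.sum_const, Finset.card_univ, ← Nat.card_eq_fintype_card,
    ← Nat.cast_smul_eq_nsmul (ZMod 3), smul_smul, inv_mul_cancel₀ hne, one_smul]

theorem inf_eq_bot {R : Subgroup S} (hR : (Nat.card R).Coprime 3) : br ρ R ⊓ fx ρ R = ⊥ := by
  rw [eq_bot_iff]
  intro v hv
  have h1 := avg_br ρ hv.1
  have h2 := avg_fx ρ hR hv.2
  rw [Submodule.mem_bot, ← h2, h1]

/-- `[E,R]` is invariant under the normalizer of `R`. -/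
theorem br_inv {R : Subgroup S} {g : S} (hg : g ∈ normalizer (R : Set S)) {v : E}
    (hv : v ∈ br ρ R) : ρ g v ∈ br ρ R := by
  have : br ρ R ≤ (br ρ R).comap (ρ g) := by
    refine br_le ρ ?_
    intro r hr w
    rw [Submodule.mem_comap, map_sub]
    have h1 : g * r * g⁻¹ ∈ R := (mem_normalizer_iff.1 hg r).1 hr
    have h2 := sub_mem_br ρ h1 (ρ g w)
    have h3 : ρ (g * r * g⁻¹) (ρ g w) = ρ g (ρ r w) := by
      rw [← Module.End.mul_apply, ← map_mul, ← Module.End.mul_apply, ← map_mul]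
      congr 2
      group
    rwa [h3] at h2
  exact this hv

end Avg

end Cfsg.Agent.Star.AW
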