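import Cfsg.Agent.Star.AWRed

namespace Cfsg.Agent.Star.AW

open Subgroup

universe u v

section Dec
variable {G : Type u} [Group G] [Finite G] {W : Type v} [AddCommGroup W] [Module (ZMod 3) W]
  [Finite W] {σ : Representation (ZMod 3) G W} {b x y : G}

theorem three_nsmul_zero (w : W) : w + w + w = 0 := by
  have h : ((3 : ℕ) : ZMod 3) • w = 0 := by
    rw [show ((3 : ℕ) : ZMod 3) = 0 from by decide, zero_smul]
  rw [Nat.cast_smul_eq_nsmul] at h
  rw [← h]; abel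

theorem mul_act (g h : G) (w : W) : σ (g * h) w = σ g (σ h w) := by
  rw [map_mul]; rfl

theorem QB.y2 (h : QB σ b x y) : y * y = 1 := by
  rw [← h.bx]
  calc b * x * b⁻¹ * (b * x * b⁻¹) = b * (x * x) * b⁻¹ := by group
    _ = 1 := by rw [h.x2]; group

theorem decomp (h : QB σ b x y) : ∃ v : W, v ≠ 0 ∧ σ x v = v ∧ σ y v = -v ∧
    (∀ w, σ x w = w → σ y w = w → σ b w = w) ∧
    ∀ u : W, ∃ w₀ : W, ∃ c₁ c₂ c₃ : ZMod 3, u = w₀ + c₁ • v + c₂ • σ b v + c₃ • σ b (σ b v) ∧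
      σ x w₀ = w₀ ∧ σ y w₀ = w₀ ∧ c₁ • v = u + σ x u - σ y u - σ x (σ y u) ∧
      c₂ • σ b v = u - σ x u + σ y u - σ x (σ y u) ∧
      c₃ • σ b (σ b v) = u - σ x u - σ y u + σ x (σ y u) := by
  obtain ⟨v, hv0, hxv, hyv, huniq, hfix⟩ := weights h
  refine ⟨v, hv0, hxv, hyv, hfix, ?_⟩
  intro u
  have hxx : ∀ w, σ x (σ x w) = w := by
    intro w; rw [← mul_act, h.x2, map_one]; rfl
  have hyy : ∀ w, σ y (σ y w) = w := by
    intro w; rw [← mul_act, h.y2, map_one]; rfl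
  have hyx : ∀ w, σ y (σ x w) = σ x (σ y w) := by
    intro w; rw [← mul_act, ← h.xy, mul_act]
  -- b⁻¹
  have hbinv : ∀ w, σ b (σ b⁻¹ w) = w := by
    intro w; rw [← mul_act, mul_inv_cancel, map_one]; rfl
  have hx' : ∀ w, σ x (σ b⁻¹ w) = σ b⁻¹ (σ y w) := by
    intro w
    rw [← mul_act, ← mul_act]
    congr 2
    rw [← h.bx]; group
  have hy' : ∀ w, σ y (σ b⁻¹ w) = σ b⁻¹ (σ x (σ y w)) := by
    intro w
    rw [← mul_act, ← mul_act x y, ← mul_act]
    congr 2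
    rw [← h.bby]; group
  set X := σ x u with hX
  set Y := σ y u with hY
  set Z := σ x (σ y u) with hZ
  -- components
  have e1 : ∃ c : ZMod 3, u + X - Y - Z = c • v := by
    apply huniq
    · simp only [map_sub, map_add, hX, hY, hZ, hxx]
      abel
    · simp only [map_sub, map_add, hX, hY, hZ, hyx, hyy]
      abel
  have e2 : ∀ w, σ x w = -w → σ y w = w → ∃ c : ZMod 3, w = c • σ b v := by
    intro w h1 h2
    obtain ⟨c, hc⟩ := huniq (σ b⁻¹ w) (by rw [hx', h2]) (by rw [hy', h2, h1, map_neg])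
    refine ⟨c, ?_⟩
    rw [← hbinv w, hc, map_smul]
  have e3 : ∀ w, σ x w = -w → σ y w = -w → ∃ c : ZMod 3, w = c • σ b (σ b v) := by
    intro w h1 h2
    obtain ⟨c, hc⟩ := e2 (σ b⁻¹ w) (by rw [hx', h2, map_neg])
      (by rw [hy', h2, map_neg, h1, neg_neg])
    refine ⟨c, ?_⟩
    rw [← hbinv w, hc, map_smul]
  obtain ⟨c₁, h₁⟩ := e1
  obtain ⟨c₂, h₂⟩ := e2 (u - X + Y - Z)
    (by simp only [map_sub, map_add, hX, hY, hZ, hxx]; abel)
    (by simp only [map_sub, map_add, hX, hY, hZ, hyx, hyy]; abel)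
  obtain ⟨c₃, h₃⟩ := e3 (u - X - Y + Z)
    (by simp only [map_sub, map_add, hX, hY, hZ, hxx]; abel)
    (by simp only [map_sub, map_add, hX, hY, hZ, hyx, hyy]; abel)
  refine ⟨u + X + Y + Z, c₁, c₂, c₃, ?_, ?_, ?_, h₁.symm, h₂.symm, h₃.symm⟩
  · rw [← h₁, ← h₂, ← h₃]
    have := three_nsmul_zero u
    calc u = u + (u + u + u) := by rw [this, add_zero]
      _ = _ := by abel
  · simp only [map_add, hX, hY, hZ, hxx]; abel
  · simp only [map_add, hX, hY, hZ, hyx, hyy]; abel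

end Dec

end Cfsg.Agent.Star.AW
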