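import Cfsg.Agent.Star.AWRed2

namespace Cfsg.Agent.Star.AW

open Subgroup

universe u v

section Red
variable {S : Type u} [Group S] [Finite S] {E : Type v} [AddCommGroup E] [Module (ZMod 3) E]
  [Finite E] {ρ : Representation (ZMod 3) S E} {R : Subgroup S} {b x y : S}

/-- elements acting trivially on an invariant quotient/submodule contain `[R,b]` -/
theorem act_triv_quot {T : Subgroup S} (hbT : b ∈ T) (hRT : R ≤ T)
    (hRb : ⁅R, zpowers b⁆ = R) (U : Submodule (ZMod 3) E) (hU : ∀ t ∈ T, ∀ v ∈ U, ρ t v ∈ U)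
    (hb : ∀ w : E, ρ b w - w ∈ U) : ∀ r ∈ R, ∀ w, ρ r w - w ∈ U := by
  -- the subgroup of `T` acting trivially on `E/U`
  let C : Subgroup S :=
    { carrier := {t | t ∈ T ∧ ∀ w, ρ t w - w ∈ U}
      mul_mem' := by
        rintro s t ⟨hs, hs'⟩ ⟨ht, ht'⟩
        refine ⟨mul_mem hs ht, fun w => ?_⟩
        have : ρ (s * t) w - w = (ρ s (ρ t w) - ρ t w) + (ρ t w - w) := by
          rw [mul_act]; abel
        rw [this]
        exact U.add_mem (hs' _) (ht' _)
      one_mem' := ⟨one_mem T, fun w => by simp⟩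
      inv_mem' := by
        rintro s ⟨hs, hs'⟩
        refine ⟨inv_mem hs, fun w => ?_⟩
        have h1 := hU s⁻¹ (inv_mem hs) _ (hs' (ρ s⁻¹ w))
        have h2 : ρ s (ρ s⁻¹ w) = w := by
          rw [← mul_act, mul_inv_cancel, map_one]; rfl
        rw [h2] at h1
        rw [map_sub] at h1
        have h3 := hU s⁻¹ (inv_mem hs) _ (hs' w)
        rw [map_sub] at h3
        have h4 : ρ s⁻¹ (ρ s w) = w := by
          rw [← mul_act, inv_mul_cancel, map_one]; rfl
        rw [h4] at h3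
        have := U.neg_mem h3
        rwa [neg_sub] at this }
  have hbC : b ∈ C := ⟨hbT, hb⟩
  have hconj : ∀ r ∈ T, ∀ c ∈ C, r * c * r⁻¹ ∈ C := by
    rintro r hr c ⟨hc, hc'⟩
    refine ⟨mul_mem (mul_mem hr hc) (inv_mem hr), fun w => ?_⟩
    have h1 := hU r hr _ (hc' (ρ r⁻¹ w))
    rw [map_sub] at h1
    have h2 : ρ r (ρ r⁻¹ w) = w := by
      rw [← mul_act, mul_inv_cancel, map_one]; rfl
    rw [h2] at h1
    rw [mul_act, mul_act]
    exact h1
  have hle : ⁅R, zpowers b⁆ ≤ C := by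
    rw [commutator_le]
    intro r hr z hz
    have hzC : z ∈ C := (zpowers_le.2 hbC) hz
    rw [commutatorElement_def]
    exact mul_mem (hconj r (hRT hr) z hzC) (inv_mem hzC)
  intro r hr w
  exact (hle (hRb.symm ▸ hr)).2 w

theorem act_triv_sub {T : Subgroup S} (hbT : b ∈ T) (hRT : R ≤ T)
    (hRb : ⁅R, zpowers b⁆ = R) (U : Submodule (ZMod 3) E) (hU : ∀ t ∈ T, ∀ v ∈ U, ρ t v ∈ U)
    (hb : ∀ w ∈ U, ρ b w = w) : ∀ r ∈ R, ∀ w ∈ U, ρ r w = w := by
  let C : Subgroup S :=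
    { carrier := {t | t ∈ T ∧ ∀ w ∈ U, ρ t w = w}
      mul_mem' := by
        rintro s t ⟨hs, hs'⟩ ⟨ht, ht'⟩
        refine ⟨mul_mem hs ht, fun w hw => ?_⟩
        rw [mul_act, ht' w hw, hs' w hw]
      one_mem' := ⟨one_mem T, fun w _ => by simp⟩
      inv_mem' := by
        rintro s ⟨hs, hs'⟩
        refine ⟨inv_mem hs, fun w hw => ?_⟩
        have h4 : ρ s⁻¹ (ρ s w) = w := by
          rw [← mul_act, inv_mul_cancel, map_one]; rfl
        rw [hs' w hw] at h4
        exact h4 }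
  have hbC : b ∈ C := ⟨hbT, hb⟩
  have hconj : ∀ r ∈ T, ∀ c ∈ C, r * c * r⁻¹ ∈ C := by
    rintro r hr c ⟨hc, hc'⟩
    refine ⟨mul_mem (mul_mem hr hc) (inv_mem hr), fun w hw => ?_⟩
    rw [mul_act, mul_act, hc' _ (hU _ (inv_mem hr) w hw), ← mul_act, mul_inv_cancel, map_one]
    rfl
  have hle : ⁅R, zpowers b⁆ ≤ C := by
    rw [commutator_le]
    intro r hr z hz
    have hzC : z ∈ C := (zpowers_le.2 hbC) hz
    rw [commutatorElement_def]
    exact mul_mem (hconj r (hRT hr) z hzC) (inv_mem hzC)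
  intro r hr w
  exact (hle (hRb.symm ▸ hr)).2 w

theorem fx_triv (h : QB ρ b x y) (hx : x ∈ R) (hy : y ∈ R) {w : E} (hw : w ∈ fx ρ R) :
    ρ b w = w := by
  obtain ⟨v, -, -, -, hfix, -⟩ := decomp h
  rw [mem_fx] at hw
  exact hfix w (hw x hx) (hw y hy)

/-- irreducibility of `[E,R]` -/
theorem irr_br (h : QB ρ b x y) (hR : (Nat.card R).Coprime 3) (hx : x ∈ R) (hy : y ∈ R)
    {T : Subgroup S} (hbT : b ∈ T) (hRT : R ≤ T) (hRb : ⁅R, zpowers b⁆ = R)
    (U : Submodule (ZMod 3) E) (hU : ∀ t ∈ T, ∀ v ∈ U, ρ t v ∈ U) (hle : U ≤ br ρ R) :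
    U = ⊥ ∨ U = br ρ R := by
  obtain ⟨v, hv0, hxv, hyv, hfix, hdec⟩ := decomp h
  by_cases hvU : v ∈ U
  · right
    apply le_antisymm hle
    apply br_le
    apply act_triv_quot hbT hRT hRb U hU
    intro w
    obtain ⟨w₀, c₁, c₂, c₃, hw, hx0, hy0, -⟩ := hdec w
    have hb0 := hfix w₀ hx0 hy0
    have hbv : ρ b v ∈ U := hU b hbT v hvU
    have hbbv : ρ b (ρ b v) ∈ U := hU b hbT _ hbv
    have hs : c₁ • v + c₂ • ρ b v + c₃ • ρ b (ρ b v) ∈ U :=
      U.add_mem (U.add_mem (U.smul_mem _ hvU) (U.smul_mem _ hbv)) (U.smul_mem _ hbbv)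
    have h1 := U.sub_mem (hU b hbT _ hs) hs
    have : ρ b w - w = ρ b (c₁ • v + c₂ • ρ b v + c₃ • ρ b (ρ b v)) -
        (c₁ • v + c₂ • ρ b v + c₃ • ρ b (ρ b v)) := by
      conv_lhs => rw [hw]
      simp only [map_add, hb0]
      abel
    rw [this]
    exact h1
  · left
    have hbi : ∀ w ∈ U, ρ b⁻¹ w ∈ U := fun w hw => hU _ (inv_mem hbT) w hw
    have hbinv : ∀ w, ρ b⁻¹ (ρ b w) = w := by
      intro w; rw [← mul_act, inv_mul_cancel, map_one]; rfl
    have hxU : ∀ w ∈ U, ρ x w ∈ U := fun w hw => hU _ (hRT hx) w hw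
    have hyU : ∀ w ∈ U, ρ y w ∈ U := fun w hw => hU _ (hRT hy) w hw
    have key : ∀ c : ZMod 3, c • v ∈ U → c = 0 := by
      intro c hc
      by_contra hc0
      apply hvU
      have := U.smul_mem c⁻¹ hc
      rwa [smul_smul, inv_mul_cancel₀ hc0, one_smul] at this
    have hbU : ∀ u ∈ U, ρ b u = u := by
      intro u hu
      obtain ⟨w₀, c₁, c₂, c₃, hw, hx0, hy0, h1, h2, h3⟩ := hdec u
      have m1 : c₁ • v ∈ U := by
        rw [h1]
        exact U.sub_mem (U.sub_mem (U.add_mem hu (hxU u hu)) (hyU u hu)) (hxU _ (hyU u hu))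
      have m2 : c₂ • ρ b v ∈ U := by
        rw [h2]
        exact U.sub_mem (U.add_mem (U.sub_mem hu (hxU u hu)) (hyU u hu)) (hxU _ (hyU u hu))
      have m3 : c₃ • ρ b (ρ b v) ∈ U := by
        rw [h3]
        exact U.add_mem (U.sub_mem (U.sub_mem hu (hxU u hu)) (hyU u hu)) (hxU _ (hyU u hu))
      have z1 := key _ m1
      have z2 : c₂ = 0 := by
        apply key
        have := hbi _ m2
        rwa [map_smul, hbinv] at this
      have z3 : c₃ = 0 := by
        apply key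
        have := hbi _ (hbi _ m3)
        rwa [map_smul, map_smul, hbinv, hbinv] at this
      rw [z1, z2, z3, zero_smul, zero_smul, zero_smul, add_zero, add_zero, add_zero] at hw
      rw [hw]
      exact hfix w₀ hx0 hy0
    have hRU := act_triv_sub hbT hRT hRb U hU hbU
    rw [eq_bot_iff, ← inf_eq_bot ρ hR]
    refine le_inf hle ?_
    intro u hu
    rw [mem_fx]
    intro r hr
    exact hRU r hr u hu

/-- faithfulness of `R ⊔ ⟨b⟩` on `[E,R]` -/
theorem faith_br (h : QB ρ b x y) (hR : (Nat.card R).Coprime 3) (hx : x ∈ R) (hy : y ∈ R)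
    (hbR : b ∈ normalizer (R : Set S)) {t : S} (ht : t ∈ R ⊔ zpowers b)
    (htr : ∀ v ∈ br ρ R, ρ t v = v) : t = 1 := by
  -- elements of `R`
  have hRone : ∀ r ∈ R, (∀ v ∈ br ρ R, ρ r v = v) → r = 1 := by
    intro r hr hrv
    apply h.faith
    rw [map_one]
    ext w
    have hw : w ∈ br ρ R ⊔ fx ρ R := by rw [sup_eq_top ρ hR]; trivial
    obtain ⟨u, hu, f, hf, rfl⟩ := Submodule.mem_sup.1 hw
    rw [mem_fx] at hf
    rw [map_add, hrv u hu, hf r hr]
    rfl
  -- `T = R ⊔ ⟨b⟩` normalizes `R`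
  have hTn : R ⊔ zpowers b ≤ normalizer (R : Set S) :=
    sup_le le_normalizer (zpowers_le.2 hbR)
  have htn := hTn ht
  -- `t` centralizes `R`
  have hcent : ∀ r ∈ R, t * r = r * t := by
    intro r hr
    have h1 : t * r * t⁻¹ ∈ R := (mem_normalizer_iff.1 htn r).1 hr
    have h2 : t * r * t⁻¹ * r⁻¹ = 1 := by
      apply hRone _ (mul_mem h1 (inv_mem hr))
      intro v hv
      have e1 : ρ r⁻¹ v ∈ br ρ R := br_inv ρ (le_normalizer (inv_mem hr)) hv
      have e2 : ρ t⁻¹ (ρ r⁻¹ v) = ρ r⁻¹ v := by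
        conv_lhs => rw [← htr _ e1]
        rw [← mul_act, inv_mul_cancel, map_one]; rfl
      have e3 : ρ r (ρ r⁻¹ v) = v := by rw [← mul_act, mul_inv_cancel, map_one]; rfl
      rw [mul_act, mul_act, mul_act, e2, e3, htr v hv]
    have h3 : t * r * t⁻¹ = r := by
      have := mul_eq_one_iff_eq_inv.1 h2
      rw [this, inv_inv]
    calc t * r = (t * r * t⁻¹) * t := by group
      _ = r * t := by rw [h3]
  -- `t = n * b ^ i`
  have hprod : ∃ n ∈ R, ∃ z ∈ zpowers b, t = n * z := by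
    have h1 := Subgroup.coe_mul_of_right_le_normalizer_left R (zpowers b) (zpowers_le.2 hbR)
    have h2 : t ∈ (↑(R ⊔ zpowers b) : Set S) := ht
    rw [h1] at h2
    obtain ⟨n, hn, z, hz, rfl⟩ := Set.mem_mul.1 h2
    exact ⟨n, hn, z, hz, rfl⟩
  obtain ⟨n, hn, z, hz, rfl⟩ := hprod
  -- `z` acts on `R` as `n⁻¹`
  have hact : ∀ r ∈ R, z * r * z⁻¹ = n⁻¹ * r * n := by
    intro r hr
    have h1 := hcent r hr
    calc z * r * z⁻¹ = n⁻¹ * (n * z * r) * z⁻¹ := by group
      _ = n⁻¹ * (r * (n * z)) * z⁻¹ := by rw [h1]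
      _ = n⁻¹ * r * n := by group
  have hz3 : z * z * z = 1 := by
    obtain ⟨k, rfl⟩ := mem_zpowers_iff.1 hz
    have : b ^ k * b ^ k * b ^ k = (b ^ 3) ^ k := by
      rw [← zpow_natCast, ← zpow_mul, ← zpow_add, ← zpow_add]
      congr 1
      push_cast; ring
    rw [this, h.b3, one_zpow]
  have hzR : ∀ r ∈ R, z * r * z⁻¹ ∈ R := by
    intro r hr
    rw [hact r hr]
    exact mul_mem (mul_mem (inv_mem hn) hr) hn
  have h3 : n * n * n * x = x * (n * n * n) := by
    have e1 : z * (z * (z * x * z⁻¹) * z⁻¹) * z⁻¹ = x := by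
      calc z * (z * (z * x * z⁻¹) * z⁻¹) * z⁻¹ = (z * z * z) * x * (z * z * z)⁻¹ := by group
        _ = x := by rw [hz3]; group
    rw [hact _ (hzR _ (hzR _ hx)), hact _ (hzR _ hx), hact _ hx] at e1
    calc n * n * n * x = n * n * n * (n⁻¹ * (n⁻¹ * (n⁻¹ * x * n) * n) * n) := by rw [e1]
      _ = x * (n * n * n) := by group
  have hn3 : n ^ 3 * x = x * n ^ 3 := by
    have : n ^ 3 = n * n * n := by simp [pow_succ]
    rw [this]; exact h3
  have hco : (3 : ℕ).Coprime (orderOf n) := by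
    have h1 : orderOf n ∣ Nat.card R := by
      have := orderOf_dvd_natCard (⟨n, hn⟩ : R)
      rwa [Subgroup.orderOf_mk] at this
    exact (Nat.Coprime.coprime_dvd_left h1 hR).symm
  obtain ⟨m, hm⟩ := exists_pow_eq_self_of_coprime hco
  have hnx : n * x = x * n := by
    have h1 : Commute (n ^ 3) x := hn3
    have h2 := h1.pow_left m
    rw [hm] at h2
    exact h2
  have hzx : z * x * z⁻¹ = x := by
    rw [hact x hx, mul_assoc, ← hnx, ← mul_assoc, inv_mul_cancel, one_mul]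
  -- `z = 1`
  have hy1 : y ≠ 1 := by
    intro h0
    have := h.bx
    rw [h0] at this
    apply h.x1
    calc x = b⁻¹ * (b * x * b⁻¹) * b := by group
      _ = 1 := by rw [this]; group
  have hyx : y ≠ x := by
    intro h0
    have h1 := h.bby
    rw [h0, h.x2] at h1
    have h2 := h.bx
    rw [h0] at h2
    apply h.x1
    rw [← h2, h1]
  have hz1 : z = 1 := by
    have hmem := hz
    obtain ⟨k, hk⟩ := mem_zpowers_iff.1 hz
    have hfin : k % 3 = 0 ∨ k % 3 = 1 ∨ k % 3 = 2 := by omega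
    have hbz : ∀ j : ℤ, b ^ (3 * j) = 1 := by
      intro j
      rw [zpow_mul]
      have : b ^ (3 : ℤ) = 1 := by exact_mod_cast h.b3
      rw [this, one_zpow]
    have hsplit : b ^ k = b ^ (k % 3) := by
      conv_lhs => rw [← Int.mul_ediv_add_emod k 3, zpow_add, hbz, one_mul]
    rcases hfin with h0 | h0 | h0
    · rw [h0, zpow_zero] at hsplit
      rw [← hk, hsplit]
    · exfalso
      rw [h0, zpow_one] at hsplit
      rw [← hk, hsplit, h.bx] at hzx
      exact hyx hzx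
    · exfalso
      rw [h0] at hsplit
      have h2 : z = b * b := by
        rw [← hk, hsplit]
        have : (2 : ℤ) = 1 + 1 := by norm_num
        rw [this, zpow_add, zpow_one]
      rw [h2] at hzx
      have h4 : b * b * x * (b * b)⁻¹ = x * y := by
        calc b * b * x * (b * b)⁻¹ = b * (b * x * b⁻¹) * b⁻¹ := by group
          _ = x * y := by rw [h.bx, h.bby]
      rw [h4] at hzx
      apply hy1
      calc y = x⁻¹ * (x * y) := by group
        _ = 1 := by rw [hzx]; group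
  rw [hz1, mul_one]
  apply hRone n hn
  intro v hv
  have := htr v hv
  rwa [hz1, mul_one] at this

end Red

end Cfsg.Agent.Star.AW
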