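import Cfsg.Agent.Star.AWRed3

namespace Cfsg.Agent.Star.AW

open Subgroup

universe u v

section Rk
variable {S : Type u} [Group S] [Finite S] {E : Type v} [AddCommGroup E] [Module (ZMod 3) E]
  [Finite E] {ρ : Representation (ZMod 3) S E} {b : S}

theorem sub_one_cube (hb3 : b ^ 3 = 1) (w : E) :
    (ρ b - 1) ((ρ b - 1) ((ρ b - 1) w)) = 0 := by
  simp only [LinearMap.sub_apply, Module.End.one_apply, map_sub]
  have h3 : ρ b (ρ b (ρ b w)) = w := by
    rw [← mul_act, ← mul_act]
    have : b * b * b = 1 := by rw [← hb3]; simp [pow_succ]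
    rw [this, map_one]; rfl
  rw [h3]
  have t1 := three_nsmul_zero (ρ b w)
  have t2 := three_nsmul_zero (ρ b (ρ b w))
  calc w - ρ b (ρ b w) - (ρ b (ρ b w) - ρ b w) - (ρ b (ρ b w) - ρ b w - (ρ b w - w))
      = (ρ b w + ρ b w + ρ b w) - (ρ b (ρ b w) + ρ b (ρ b w) + ρ b (ρ b w)) := by abel
    _ = 0 := by rw [t1, t2, sub_zero]

theorem rk_le (hb3 : b ^ 3 = 1) (E₀ E₁ : Submodule (ZMod 3) E) (hE01' : E₀ ⊔ E₁ = ⊤)
    (hE1 : ∀ v ∈ E₁, ρ b v = v) (hE0inv : ∀ v ∈ E₀, ρ b v ∈ E₀) (hE0 : Nat.card ↥E₀ = 27) :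
    Module.finrank (ZMod 3) (LinearMap.range (ρ b - 1)) ≤ 2 := by
  have hf3 : Module.finrank (ZMod 3) E₀ = 3 := by
    have h1 := Module.natCard_eq_pow_finrank (K := ZMod 3) (V := E₀)
    rw [hE0, Nat.card_zmod] at h1
    have h2 : (3 : ℕ) ^ 3 = 3 ^ Module.finrank (ZMod 3) E₀ := by rw [← h1]; norm_num
    exact (Nat.pow_right_injective (le_refl 2 |>.trans (by norm_num)) h2).symm
  have hmap : LinearMap.range (ρ b - 1) = E₀.map (ρ b - 1) := by
    apply le_antisymm
    · rintro _ ⟨w, rfl⟩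
      have hw : w ∈ E₀ ⊔ E₁ := by rw [hE01']; trivial
      obtain ⟨u, hu, f, hf, rfl⟩ := Submodule.mem_sup.1 hw
      refine ⟨u, hu, ?_⟩
      rw [map_add, LinearMap.sub_apply (ρ b) 1 f, hE1 f hf]
      simp
    · rintro _ ⟨w, _, rfl⟩
      exact ⟨w, rfl⟩
  have hle : E₀.map (ρ b - 1) ≤ E₀ := by
    rintro _ ⟨w, hw, rfl⟩
    exact E₀.sub_mem (hE0inv w hw) hw
  have hlt : E₀.map (ρ b - 1) < E₀ := by
    refine lt_of_le_of_ne hle ?_
    intro heq
    have h3 : E₀ ≤ ⊥ := by
      intro w hw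
      rw [← heq] at hw
      obtain ⟨w1, hw1, rfl⟩ := hw
      have hw1' : w1 ∈ E₀ := hw1
      rw [← heq] at hw1'
      obtain ⟨w2, hw2, rfl⟩ := hw1'
      have hw2' : w2 ∈ E₀ := hw2
      rw [← heq] at hw2'
      obtain ⟨w3, hw3, rfl⟩ := hw2'
      rw [sub_one_cube hb3]
      exact Submodule.zero_mem _
    have h4 : E₀ = ⊥ := le_bot_iff.1 h3
    rw [h4, finrank_bot] at hf3
    omega
  have := Submodule.finrank_lt_finrank_of_lt hlt
  rw [hmap]
  omega

end Rk

section Fin
variable {S : Type u} [Group S] [Finite S] {E : Type v} [AddCommGroup E] [Module (ZMod 3) E]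
  [Finite E] {ρ : Representation (ZMod 3) S E} {R : Subgroup S} {b x y : S}

/-- the representation of `T` on `[E,R]` -/
def resRep (ρ : Representation (ZMod 3) S E) (R T : Subgroup S)
    (hT : T ≤ normalizer (R : Set S)) : Representation (ZMod 3) T (br ρ R) where
  toFun t := (ρ (t : S)).restrict (fun _ hv => br_inv ρ (hT t.2) hv)
  map_one' := by
    ext v; simp
  map_mul' s t := by
    ext v; simp

theorem resRep_apply (hT : (R ⊔ zpowers b) ≤ normalizer (R : Set S)) (t : ↥(R ⊔ zpowers b))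
    (v : br ρ R) : ((resRep ρ R _ hT t v : br ρ R) : E) = ρ (t : S) (v : E) := rfl

theorem dat (h : QB ρ b x y) [Group.IsSolvable S] (hR : (Nat.card R).Coprime 3) (hx : x ∈ R)
    (hy : y ∈ R) (hbR : b ∈ normalizer (R : Set S)) (hRb : ⁅R, zpowers b⁆ = R)
    (hT : (R ⊔ zpowers b) ≤ normalizer (R : Set S)) :
    Dat (resRep ρ R (R ⊔ zpowers b) hT) (R.subgroupOf (R ⊔ zpowers b))
      ⟨b, mem_sup_right (mem_zpowers b)⟩ ⟨x, mem_sup_left hx⟩ ⟨y, mem_sup_left hy⟩ := by
  have hRT : R ≤ R ⊔ zpowers b := le_sup_left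
  have hbT : b ∈ R ⊔ zpowers b := mem_sup_right (mem_zpowers b)
  refine
    { faith := ?_
      b3 := ?_
      rk := ?_
      x1 := ?_
      x2 := ?_
      xy := ?_
      bx := ?_
      bby := ?_
      irr := ?_
      normal := ?_
      cop := ?_
      sol := ?_
      gen := ?_
      comm := ?_
      xN := ?_ }
  · rw [injective_iff_map_eq_one]
    intro t ht
    apply Subtype.ext
    apply faith_br h hR hx hy hbR t.2
    intro v hv
    have := congrArg (fun f : Module.End (ZMod 3) (br ρ R) => ((f ⟨v, hv⟩ : br ρ R) : E)) ht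
    exact this
  · exact Subtype.ext (by simpa using h.b3)
  · have h1 : (LinearMap.range (resRep ρ R (R ⊔ zpowers b) hT ⟨b, hbT⟩ - 1)).map
        (br ρ R).subtype ≤ LinearMap.range (ρ b - 1) := by
      rintro _ ⟨_, ⟨v, rfl⟩, rfl⟩
      exact ⟨v, by simp [resRep_apply]⟩
    have h2 := Submodule.finrank_mono h1
    rw [Submodule.finrank_map_subtype_eq] at h2
    exact h2.trans h.rk
  · intro h0
    exact h.x1 (congrArg Subtype.val h0)
  · exact Subtype.ext h.x2
  · exact Subtype.ext h.xy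
  · exact Subtype.ext h.bx
  · exact Subtype.ext h.bby
  · intro U hU
    have h1 := irr_br h hR hx hy hbT hRT hRb (U.map (br ρ R).subtype) (by
      rintro t ht _ ⟨v, hv, rfl⟩
      exact ⟨_, hU ⟨t, ht⟩ v hv, rfl⟩) (Submodule.map_subtype_le _ _)
    rcases h1 with h1 | h1
    · left
      apply Submodule.map_injective_of_injective (Submodule.injective_subtype (br ρ R))
      rw [h1, Submodule.map_bot]
    · right
      apply Submodule.map_injective_of_injective (Submodule.injective_subtype (br ρ R))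
      rw [h1, Submodule.map_top, Submodule.range_subtype]
  · exact Subgroup.normal_subgroupOf_of_le_normalizer hT
  · rw [Nat.card_congr (Subgroup.subgroupOfEquivOfLe hRT).toEquiv]
    exact hR
  · infer_instance
  · apply Subgroup.map_injective (Subgroup.subtype_injective (R ⊔ zpowers b))
    rw [Subgroup.map_sup, Subgroup.subgroupOf_map_subtype, inf_eq_left.2 hRT,
      MonoidHom.map_zpowers, ← MonoidHom.range_eq_map, Subgroup.range_subtype]
    rfl
  · apply Subgroup.map_injective (Subgroup.subtype_injective (R ⊔ zpowers b))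
    rw [Subgroup.map_commutator, Subgroup.subgroupOf_map_subtype, inf_eq_left.2 hRT,
      MonoidHom.map_zpowers]
    exact hRb
  · exact Subgroup.mem_subgroupOf.2 hx

end Fin

end Cfsg.Agent.Star.AW
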