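import Cfsg.Agent.Star.OT4
import Cfsg.Agent.H76.QuotBlk2
import Cfsg.Agent.H4.BlkQuot

/-!
# Unique domination of blocks
-/

set_option autoImplicit false
set_option linter.unusedSectionVars false
set_option linter.style.haveILetI false

universe u

namespace Cfsg.Agent.Star

open scoped ComplexConjugate
open MonoidAlgebra Cfsg Cfsg.Agent.Blk Cfsg.Agent.BlkF Cfsg.Agent.CharBase Cfsg.Agent.BlkC
open Cfsg.Agent.H76

variable {p : ℕ} [hp : Fact p.Prime] {M : Ideal AlgInt} [hMp : M.IsPrime]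
  {G : Type u} [Group G] [Fintype G] (N : Subgroup G) [hN : N.Normal]

theorem supp_pq {k : Type*} [Field k] {H : Subgroup G} {x : MonoidAlgebra k G} (hx : Supp H x) :
    Supp (H.map (QuotientGroup.mk' N)) (pq N x) := by
  classical
  intro q hq
  rw [pq_coeff]
  refine Finset.sum_eq_zero fun g _ => ?_
  split_ifs with h
  · refine hx g fun hg => hq ⟨g, hg, h⟩
  · rfl

theorem pq_ne_zero {k : Type*} [Field k] [CharP k p] (hNp : IsPGroup p N) {f : MonoidAlgebra k G}
    (hf : Fixed N f) (hff : f * f = f) (h0 : f ≠ 0) : pq N f ≠ 0 := by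
  intro h
  obtain ⟨w, hw0, hw1, hw2⟩ := exists_invariant_vector hNp hf hff h0
  rw [mul_eq_zero_of_pq_eq_zero N h hw2] at hw1
  exact hw0 hw1.symm

theorem pq_pow {k : Type*} [Field k] (x : MonoidAlgebra k G) (n : ℕ) :
    pq N (x ^ (n + 1)) = pq N x ^ (n + 1) := by
  induction n with
  | zero => rw [zero_add, pow_one, pow_one]
  | succ n ih => rw [pow_succ, pq_mul, ih, ← pow_succ]

theorem isNilpotent_pq {k : Type*} [Field k] {x : MonoidAlgebra k G} (h : IsNilpotent x) :
    IsNilpotent (pq N x) := by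
  obtain ⟨n, hn⟩ := h
  exact ⟨n + 1, by rw [← pq_pow, pow_succ, hn, zero_mul, pq_zero]⟩

theorem map_le_normalizer {D H : Subgroup G} (hHN : H ≤ Subgroup.normalizer (D : Set G)) :
    H.map (QuotientGroup.mk' N) ≤
      Subgroup.normalizer ((D.map (QuotientGroup.mk' N) : Subgroup (G ⧸ N)) : Set (G ⧸ N)) := by
  rintro _ ⟨h, hh, rfl⟩
  have := Fintype.ofFinite (G ⧸ N)
  apply mem_normalizer_of_cjS_eq
  change (D.map (QuotientGroup.mk' N)).map (MulAut.conj (QuotientGroup.mk' N h)).toMonoidHom = _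
  rw [← map_mk'_conj, map_conj_of_mem_normalizer (hHN hh)]

theorem idem_coeff (hM : IsPModular p M) {C : Subgroup G} {x : MonoidAlgebra (kM M) G}
    (hx : InZ C x) (hxx : x * x = x) {g : G} (hg : x.coeff g ≠ 0) : ¬ p ∣ orderOf g := by
  obtain ⟨s, hs, hs1⟩ := exists_blk_decomp C x hx hxx
  intro hpg
  apply hg
  rw [← hs1, coeff_sum, Finsupp.finsetSum_apply]
  refine Finset.sum_eq_zero fun f hf => ?_
  by_contra h
  exact (blk_coeff_ne_zero hM (hs f hf) h).2 hpg

/-- **Unique domination.** -/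
theorem isBlk_pq (hM : IsPModular p M) {D H : Subgroup G} (hDp : IsPGroup p D) (hND : N ≤ D)
    (hDH : D ≤ H) (hHN : H ≤ Subgroup.normalizer (D : Set G))
    (hreg : ∀ g ∈ H, ¬ p ∣ orderOf g → (g : G ⧸ N) ∈ Subgroup.centralizer
      ((D.map (QuotientGroup.mk' N) : Subgroup (G ⧸ N)) : Set (G ⧸ N)) → ∀ x ∈ N, g * x = x * g)
    {f : MonoidAlgebra (kM M) G} (hf : IsBlk H f) :
    IsBlk (H.map (QuotientGroup.mk' N)) (pq N f) where
  supp := supp_pq N hf.supp
  fixed := Fixed.pq N hf.fixed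
  idem := by rw [← pq_mul, hf.idem]
  ne_zero := by
    have := charP_kM hM
    exact pq_ne_zero N (hDp.to_le hND) (hf.fixed.mono (hND.trans hDH)) hf.idem hf.ne_zero
  prim := by
    classical
    have := charP_kM hM
    have := Fintype.ofFinite (G ⧸ N)
    intro x hx1 hx2 hxx
    have hDbp : IsPGroup p (D.map (QuotientGroup.mk' N)) := hDp.map _
    have hHNb : H.map (QuotientGroup.mk' N) ≤
        Subgroup.normalizer ((D.map (QuotientGroup.mk' N) : Subgroup (G ⧸ N)) : Set (G ⧸ N)) :=
      map_le_normalizer N hHN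
    have hbr := br_eq_self_of_normal (Subgroup.map_mono hDH) hHNb hDbp ⟨hx1, hx2⟩ hxx
    have hxC : ∀ q, x.coeff q ≠ 0 → q ∈ Subgroup.centralizer
        ((D.map (QuotientGroup.mk' N) : Subgroup (G ⧸ N)) : Set (G ⧸ N)) := by
      intro q hq
      by_contra h
      apply hq
      rw [← hbr, br_coeff_of_notMem _ h]
    have hxr : ∀ q, x.coeff q ≠ 0 → ¬ p ∣ orderOf q := fun q hq => idem_coeff hM ⟨hx1, hx2⟩ hxx hq
    -- the lift
    obtain ⟨z, hz⟩ : ∃ z : MonoidAlgebra (kM M) G, ∀ g, z.coeff g =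
      if g ∈ H ∧ ¬ p ∣ orderOf g then x.coeff (g : G ⧸ N) else 0 :=
      ⟨ofFun fun g => if g ∈ H ∧ ¬ p ∣ orderOf g then x.coeff (g : G ⧸ N) else 0, fun _ => rfl⟩
    have hzH : Supp H z := by
      intro g hg
      rw [hz, if_neg fun h => hg h.1]
    have hzF : Fixed H z := by
      rw [fixed_iff]
      intro u hu g
      rw [hz, hz]
      have h1 : (u * g * u⁻¹ ∈ H ∧ ¬ p ∣ orderOf (u * g * u⁻¹)) ↔ (g ∈ H ∧ ¬ p ∣ orderOf g) := by
        rw [orderOf_conj', H.mul_mem_cancel_right (H.inv_mem hu), H.mul_mem_cancel_left hu]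
      have h2 : x.coeff ((u * g * u⁻¹ : G) : G ⧸ N) = x.coeff (g : G ⧸ N) :=
        hx2.coeff_conj (u := (u : G ⧸ N)) ⟨u, hu, rfl⟩ (g : G ⧸ N)
      simp only [h1, h2]
    have hpz : pq N z = x := by
      apply ga_ext; intro q
      rw [pq_coeff]
      by_cases hq : x.coeff q = 0
      · rw [hq]
        refine Finset.sum_eq_zero fun g _ => ?_
        split_ifs with h
        · rw [hz, h, hq]; simp
        · rfl
      · obtain ⟨g₀, hg₀, hg₀q⟩ := H4.exists_regular_lift q (hxr q hq)
        have hg₀H : g₀ ∈ H := by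
          have h1 : q ∈ H.map (QuotientGroup.mk' N) := by
            by_contra h
            exact hq (hx1 q h)
          obtain ⟨h, hh, hhq⟩ := h1
          have h2 : (h : G ⧸ N) = (g₀ : G ⧸ N) := by rw [hg₀q]; exact hhq
          rw [QuotientGroup.eq] at h2
          have h3 := H.mul_mem hh (hDH (hND h2))
          rwa [mul_inv_cancel_left] at h3
        have hcomm : ∀ x ∈ N, g₀ * x = x * g₀ := hreg g₀ hg₀H hg₀ (by rw [hg₀q]; exact hxC q hq)
        rw [Finset.sum_eq_single g₀]
        · rw [if_pos hg₀q, hz, if_pos ⟨hg₀H, hg₀⟩, hg₀q]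
        · intro g _ hg
          split_ifs with h
          · rw [hz, if_neg]
            rintro ⟨hgH, hgr⟩
            have h2 : (g₀ : G ⧸ N) = (g : G ⧸ N) := by rw [hg₀q, h]
            rw [QuotientGroup.eq] at h2
            have h3 : g = g₀ * (g₀⁻¹ * g) := by group
            have h4 : Commute g₀ (g₀⁻¹ * g) := hcomm _ h2
            obtain ⟨m, hm⟩ := IsPGroup.iff_orderOf.1 (hDp.to_le hND) ⟨_, h2⟩
            rw [Subgroup.orderOf_mk] at hm
            have hco : (orderOf g₀).Coprime (orderOf (g₀⁻¹ * g)) := by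
              rw [hm]
              exact (Nat.Coprime.pow_left m ((Nat.Prime.coprime_iff_not_dvd hp.out).2 hg₀)).symm
            rw [h3, h4.orderOf_mul_eq_mul_orderOf_of_coprime hco, hm] at hgr
            rcases Nat.eq_zero_or_pos m with h5 | h5
            · rw [h5, pow_zero, orderOf_eq_one_iff, inv_mul_eq_one] at hm
              exact hg hm.symm
            · exact hgr ((dvd_pow_self p h5.ne').mul_left _)
          · rfl
        · intro h; exact absurd (Finset.mem_univ _) h
    have hfb : Fixed (H.map (QuotientGroup.mk' N)) (pq N f) := Fixed.pq N hf.fixed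
    have hcom : pq N f * x = x * pq N f := mul_comm_of_fixed hfb hx1
    have hff : pq N f * pq N f = pq N f := by rw [← pq_mul, hf.idem]
    rcases hf.nilpotent_or_unit ⟨hzH, hzF⟩ with h | ⟨w, hw, hzw⟩
    · right
      have h1 := isNilpotent_pq N h
      rw [pq_mul, hpz] at h1
      rw [hcom]
      refine eq_zero_of_idem_nilpotent ?_ h1
      calc x * pq N f * (x * pq N f) = x * (pq N f * x) * pq N f := by simp only [mul_assoc]
        _ = (x * x) * (pq N f * pq N f) := by rw [hcom]; simp only [mul_assoc]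
        _ = _ := by rw [hxx, hff]
    · left
      have h1 : x * pq N w = pq N f := by rw [← hpz, ← pq_mul, hzw]
      rw [hcom, ← h1, ← mul_assoc, hxx]

end Cfsg.Agent.Star
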