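import Cfsg.Agent.Star.Dec3
import Cfsg.Agent.Star.NilApp
import Cfsg.Agent.BlkC.Principal

/-!
# Blocks all of whose characters have height zero and the same degree (Okuyama–Tsushima), I
-/

set_option autoImplicit false
set_option linter.unusedSectionVars false
set_option linter.style.haveILetI false

universe u

namespace Cfsg.Agent.Star

open scoped ComplexConjugate
open MonoidAlgebra Cfsg Cfsg.Agent.Blk Cfsg.Agent.CharBase Cfsg.Agent.BlkC

variable {p : ℕ} [hp : Fact p.Prime] {M : Ideal AlgInt} [hMp : M.IsPrime]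
  {G : Type u} [Group G] [Fintype G] {B : Set (IrrCharacter G)}

theorem classInner_Pe (e : MonoidAlgebra (kM M) G) (ψ : IrrCharacter G) :
    classInner (Pe e) (ψ : G → ℂ) = tz M (ψ : G → ℂ) e := by
  classical
  have h1 : classInner (Pe e) (ψ : G → ℂ) =
      ∑ χ : IrrCharacter G, tz M (χ : G → ℂ) e * classInner (χ : G → ℂ) (ψ : G → ℂ) := by
    unfold classInner Pe
    simp_rw [Finset.sum_mul, Finset.mul_sum]
    rw [Finset.sum_comm]
    refine Finset.sum_congr rfl fun χ _ => Finset.sum_congr rfl fun g _ => ?_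
    ring
  rw [h1, Finset.sum_eq_single ψ]
  · rw [classInner_irr, if_pos rfl, mul_one]
  · intro χ _ hχ
    rw [classInner_irr, if_neg hχ, mul_zero]
  · intro h; exact absurd (Finset.mem_univ _) h

theorem pRegularPart_Pe (hM : IsPModular p M) {e : MonoidAlgebra (kM M) G} (hee : e * e = e) :
    pRegularPart p (Pe e) = (Pe e : G → ℂ) := by
  funext g
  by_cases hg : p ∣ orderOf g
  · rw [pRegularPart_apply_of_sing hg, Pe_sing hM hee hg]
  · rw [pRegularPart_apply_of_reg hg]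

theorem regInner_Pe (hM : IsPModular p M) {e : MonoidAlgebra (kM M) G} (hee : e * e = e)
    (ψ : IrrCharacter G) : regInner p (Pe e) (ψ : G → ℂ) = tz M (ψ : G → ℂ) e := by
  rw [regInner_eq_classInner, pRegularPart_Pe hM hee, classInner_Pe]

/-- **All characters of `B` lift the same irreducible Brauer character.** -/
theorem ot_unique (hM : IsPModular p M) (hB : IsPBlock M B) {f : ℕ}
    (hf : ∀ χ ∈ B, charDegree (χ : G → ℂ) = f)
    (h0 : ∀ χ ∈ B, blockHeight p B (χ : G → ℂ) = 0) :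
    ∃ i₀ : PI (MonoidAlgebra (kM M) G), InB B i₀ ∧ (∀ i, InB B i → i = i₀) ∧
      (∀ χ ∈ B, tz M (χ : G → ℂ) (pj i₀) = 1) ∧
      ∀ χ ∈ B, ∀ s : G, ¬ p ∣ orderOf s → (χ : G → ℂ) s = phi hM i₀ s := by
  classical
  obtain ⟨χ₀, hχ₀⟩ := block_nonempty hB
  have hf0 : 0 < f := by rw [← hf χ₀ hχ₀]; exact charDegree_pos χ₀
  have h1r : ¬ p ∣ orderOf (1 : G) := by rw [orderOf_one]; exact hp.out.one_lt.ne' ∘ Nat.dvd_one.1
  let I := Finset.univ.filter (InB (M := M) B)
  have hmu : ∀ i ∈ I, ∃ m, mu (1 : MonoidAlgebra (kM M) G) i = f * m ∧ 0 < m := by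
    intro i hi
    obtain ⟨m, hm⟩ := dvd_mu hM hB (Finset.mem_filter.1 hi).2 (fun χ hχ => by rw [hf χ hχ])
    refine ⟨m, hm, Nat.pos_of_ne_zero fun h => ?_⟩
    have := (phi_one hM i).2
    rw [hm, h, mul_zero] at this
    exact lt_irrefl _ this
  choose! m hm using hmu
  have htz : ∀ (χ : IrrCharacter G) (i : PI (MonoidAlgebra (kM M) G)), ∃ n : ℕ,
      tz M (χ : G → ℂ) (pj i) = n := fun χ i => tz_nat (irr_isCharacter χ) (prim_pj i).idem
  choose n hn using htz
  have hsum : ∀ χ ∈ B, ∑ i ∈ I, n χ i * m i = 1 := by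
    intro χ hχ
    have h2 := irr_expand hM hB (irr_isClassFunction χ) h1r
    rw [blockPart_mem hχ, charDegree_spec, hf χ hχ] at h2
    have h3 : (f : ℂ) = ((f * ∑ i ∈ I, n χ i * m i : ℕ) : ℂ) := by
      rw [h2]
      push_cast
      rw [Finset.mul_sum]
      refine Finset.sum_congr rfl fun i hi => ?_
      rw [hn, (phi_one hM i).1, (hm i hi).1]
      push_cast; ring
    have h4 : f = f * ∑ i ∈ I, n χ i * m i := by exact_mod_cast h3
    exact Nat.eq_of_mul_eq_mul_left hf0 (by rw [← h4, mul_one])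
  -- the unique index of `χ`
  have hidx : ∀ χ ∈ B, ∃ i ∈ I, n χ i = 1 ∧ ∀ j ∈ I, j ≠ i → n χ j = 0 := by
    intro χ hχ
    have h2 := hsum χ hχ
    obtain ⟨i, hi, h3⟩ : ∃ i ∈ I, n χ i * m i ≠ 0 := by
      by_contra hcon
      push Not at hcon
      rw [Finset.sum_eq_zero hcon] at h2
      exact zero_ne_one h2
    rw [← Finset.add_sum_erase I _ hi] at h2
    have h4 : n χ i * m i = 1 := by omega
    refine ⟨i, hi, Nat.eq_one_of_mul_eq_one_right h4, fun j hj hji => ?_⟩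
    have h5 : ∑ j ∈ I.erase i, n χ j * m j = 0 := by omega
    rw [Finset.sum_eq_zero_iff] at h5
    have h6 := h5 j (Finset.mem_erase.2 ⟨hji, hj⟩)
    rcases Nat.mul_eq_zero.1 h6 with h7 | h7
    · exact h7
    · exact absurd h7 (hm j hj).2.ne'
  have hval : ∀ χ ∈ B, ∀ i ∈ I, n χ i = 1 → ∀ s : G, ¬ p ∣ orderOf s →
      (χ : G → ℂ) s = phi hM i s := by
    intro χ hχ i hi h1 s hs
    obtain ⟨i', hi', h2, h3⟩ := hidx χ hχ
    have hii : i = i' := by
      by_contra hne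
      rw [h3 i hi hne] at h1
      exact zero_ne_one h1
    have h4 := irr_expand hM hB (irr_isClassFunction χ) hs
    rw [blockPart_mem hχ] at h4
    rw [h4, Finset.sum_eq_single i]
    · rw [hn, h1, Nat.cast_one, one_mul]
    · intro j hj hji
      rw [hn, h3 j hj (hii ▸ hji), Nat.cast_zero, zero_mul]
    · intro h; exact absurd hi h
  have hhit : ∀ i ∈ I, ∃ χ ∈ B, n χ i = 1 := by
    intro i hi
    obtain ⟨χ, hχ⟩ := exists_tz_ne hM i
    have hχB : χ ∈ B := by
      by_contra h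
      exact hχ (tz_pj_eq_zero' hB h (Finset.mem_filter.1 hi).2)
    obtain ⟨i', hi', h2, h3⟩ := hidx χ hχB
    refine ⟨χ, hχB, ?_⟩
    by_cases hii : i = i'
    · rw [hii, h2]
    · exfalso
      apply hχ
      rw [hn, h3 i hi hii, Nat.cast_zero]
  -- linking
  have hlink : ∀ i ∈ I, ∀ j ∈ I, i = j := by
    intro i hi j hj
    by_contra hij
    obtain ⟨χi, hχi, hni⟩ := hhit i hi
    obtain ⟨χj, hχj, hnj⟩ := hhit j hj
    have h1 := regInner_Pe hM (prim_pj i).idem χj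
    obtain ⟨j', hj', h2, h3⟩ := hidx χj hχj
    have hjj : j = j' := by
      by_contra hne
      rw [h3 j hj hne] at hnj
      exact zero_ne_one hnj
    rw [hn, h3 i hi (fun h => hij (h.trans hjj.symm)), Nat.cast_zero] at h1
    have h4 : regInner p (Pe (pj i)) (χj : G → ℂ) =
        ∑ χ : IrrCharacter G, tz M (χ : G → ℂ) (pj i) * regInner p (χ : G → ℂ) (χj : G → ℂ) := by
      unfold regInner Pe
      simp_rw [Finset.sum_mul, Finset.mul_sum]
      rw [Finset.sum_comm]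
      refine Finset.sum_congr rfl fun χ _ => Finset.sum_congr rfl fun g _ => ?_
      ring
    have h5 : ∀ χ : IrrCharacter G, tz M (χ : G → ℂ) (pj i) *
        regInner p (χ : G → ℂ) (χj : G → ℂ) =
        (n χ i : ℂ) * regInner p (χi : G → ℂ) (χj : G → ℂ) := by
      intro χ
      rw [hn]
      by_cases hχB : χ ∈ B
      · by_cases hχn : n χ i = 0
        · rw [hχn, Nat.cast_zero, zero_mul, zero_mul]
        · have hχ1 : n χ i = 1 := by
            obtain ⟨i', hi', k2, k3⟩ := hidx χ hχB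
            by_cases hii : i = i'
            · rw [hii, k2]
            · exact absurd (k3 i hi hii) hχn
          congr 1
          exact regInner_congr_reg (fun x hx => by
            rw [hval χ hχB i hi hχ1 x hx, hval χi hχi i hi hni x hx]) (fun x _ => rfl)
      · have := tz_pj_eq_zero' hB hχB (Finset.mem_filter.1 hi).2
        rw [hn] at this
        rw [this, zero_mul, zero_mul]
    rw [h4, Finset.sum_congr rfl fun χ _ => h5 χ, ← Finset.sum_mul] at h1
    rcases mul_eq_zero.1 h1 with h6 | h6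
    · have h7 : ∑ χ : IrrCharacter G, n χ i = 0 := by exact_mod_cast h6
      rw [Finset.sum_eq_zero_iff] at h7
      have := h7 χi (Finset.mem_univ _)
      rw [hni] at this
      exact one_ne_zero this
    · exact regInner_ne_zero_of_height hM hB hχi hχj (h0 χj hχj) h6
  obtain ⟨i₀, hi₀, -⟩ := hidx χ₀ hχ₀
  have hone : ∀ χ ∈ B, n χ i₀ = 1 := by
    intro χ hχ
    obtain ⟨i, hi, h1, -⟩ := hidx χ hχ
    rw [← hlink i hi i₀ hi₀]; exact h1
  refine ⟨i₀, (Finset.mem_filter.1 hi₀).2, fun i hi =>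
    hlink i (Finset.mem_filter.2 ⟨Finset.mem_univ _, hi⟩) i₀ hi₀, fun χ hχ => ?_, fun χ hχ =>
      hval χ hχ i₀ hi₀ (hone χ hχ)⟩
  rw [hn, hone χ hχ, Nat.cast_one]

/-- `k(B) = p^d` -/
theorem ot_card (hM : IsPModular p M) (hB : IsPBlock M B)
    (hreg : ∀ χ ∈ B, ∀ ψ ∈ B, ∀ s : G, ¬ p ∣ orderOf s → (χ : G → ℂ) s = (ψ : G → ℂ) s)
    (h0 : ∀ χ ∈ B, blockHeight p B (χ : G → ℂ) = 0) :
    (Bfin B).card = p ^ blockDefect p B := by
  classical
  obtain ⟨χ₀, hχ₀⟩ := block_nonempty hB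
  obtain ⟨c, hc⟩ : ∃ c, c = regInner p (χ₀ : G → ℂ) (χ₀ : G → ℂ) := ⟨_, rfl⟩
  have hall : ∀ χ ∈ B, ∀ ψ ∈ B, regInner p (χ : G → ℂ) (ψ : G → ℂ) = c := by
    intro χ hχ ψ hψ
    rw [hc]
    exact regInner_congr_reg (hreg χ hχ χ₀ hχ₀) (hreg ψ hψ χ₀ hχ₀)
  have hc0 : c ≠ 0 := by
    rw [hc]; exact regInner_ne_zero_of_height hM hB hχ₀ hχ₀ (h0 χ₀ hχ₀)
  have h1 := sum_regInner hM hB hχ₀ χ₀
  rw [Finset.sum_congr rfl fun ψ hψ => by
    rw [hall χ₀ hχ₀ ψ (mem_Bfin.1 hψ), hall ψ (mem_Bfin.1 hψ) χ₀ hχ₀], hall χ₀ hχ₀ χ₀ hχ₀,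
    Finset.sum_const, nsmul_eq_mul] at h1
  have h2 : ((Bfin B).card : ℂ) * c = 1 := by
    have h3 : (((Bfin B).card : ℂ) * c - 1) * c = 0 := by rw [sub_mul, one_mul, mul_assoc, h1, sub_self]
    rcases mul_eq_zero.1 h3 with h4 | h4
    · exact sub_eq_zero.1 h4
    · exact absurd h4 hc0
  have h3 := contrib_regInner (p := p) hχ₀ χ₀
  rw [← hc] at h3
  have h4 : (p : ℤ) ^ blockDefect p B = contrib p B χ₀ χ₀ * (Bfin B).card := by
    have : ((p : ℂ) ^ blockDefect p B) = (contrib p B χ₀ χ₀ : ℂ) * (Bfin B).card := by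
      rw [← h3, mul_assoc, mul_comm c, h2, mul_one]
    exact_mod_cast this
  have h5 := not_dvd_contrib hM hB hχ₀ hχ₀ (h0 χ₀ hχ₀)
  rw [h0 χ₀ hχ₀, zero_add, pow_one] at h5
  have h6 : contrib p B χ₀ χ₀ ∣ (p : ℤ) ^ blockDefect p B := Dvd.intro _ h4.symm
  have h7 : IsUnit (contrib p B χ₀ χ₀) := by
    have hpz : Prime (p : ℤ) := Nat.prime_iff_prime_int.1 hp.out
    obtain ⟨j, -, hj⟩ := (dvd_prime_pow hpz _).1 h6
    rcases Nat.eq_zero_or_pos j with hj0 | hj0
    · rw [hj0, pow_zero] at hj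
      exact (associated_one_iff_isUnit).1 hj
    · exfalso
      exact h5 ((dvd_pow_self (p : ℤ) hj0.ne').trans hj.symm.dvd)
  rcases Int.isUnit_iff.1 h7 with h8 | h8
  · rw [h8, one_mul] at h4
    exact_mod_cast h4.symm
  · exfalso
    rw [h8] at h4
    have : (0 : ℤ) < (p : ℤ) ^ blockDefect p B := pow_pos (by exact_mod_cast hp.out.pos) _
    have h9 : (0 : ℤ) ≤ (Bfin B).card := by positivity
    omega

end Cfsg.Agent.Star
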