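import Cfsg.Agent.Star.OT1
import Cfsg.Agent.BlkF.Index

/-!
# Okuyama–Tsushima, II: the centre valued trace
-/

set_option autoImplicit false
set_option linter.unusedSectionVars false
set_option linter.style.haveILetI false

universe u

namespace Cfsg.Agent.Star

open scoped ComplexConjugate
open MonoidAlgebra Cfsg Cfsg.Agent.Blk Cfsg.Agent.CharBase Cfsg.Agent.BlkC

section linear

variable {V : Type*} [AddCommGroup V] [Module ℂ V] [FiniteDimensional ℂ V]

/-- rank one idempotents -/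
theorem rank_one {E : Module.End ℂ V} (hE : E * E = E) (ht : LinearMap.trace ℂ V E = 1)
    (A : Module.End ℂ V) : ∃ c : ℂ, E * A * E = c • E := by
  have hEE : ∀ z, E (E z) = E z := fun z => congrArg (fun f : Module.End ℂ V => f z) hE
  have hproj : LinearMap.IsProj (LinearMap.range E) E := by
    refine ⟨fun z => ⟨z, rfl⟩, ?_⟩
    rintro _ ⟨z, rfl⟩
    exact hEE z
  have h1 := hproj.trace
  rw [ht] at h1
  have h2 : Module.finrank ℂ (LinearMap.range E) = 1 := by exact_mod_cast h1.symm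
  obtain ⟨v, hv0, hv⟩ := finrank_eq_one_iff'.1 h2
  obtain ⟨c, hc⟩ := hv ⟨E (A v), ⟨A v, rfl⟩⟩
  have hc' : c • (v : V) = E (A v) := congrArg Subtype.val hc
  refine ⟨c, ?_⟩
  apply LinearMap.ext
  intro w
  obtain ⟨μ, hμ⟩ := hv ⟨E w, ⟨w, rfl⟩⟩
  have hμ' : μ • (v : V) = E w := congrArg Subtype.val hμ
  rw [Module.End.mul_apply, Module.End.mul_apply, LinearMap.smul_apply, ← hμ', map_smul, map_smul,
    ← hc', smul_comm]

end linear

section Tc

variable {G : Type u} [Group G] [Fintype G]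

theorem Tc_rank_one {χ : G → ℂ} (hχ : IsCharacter G χ) {J : MonoidAlgebra ℂ G} (hJ : J * J = J)
    (h1 : Tc χ J = 1) (a c : MonoidAlgebra ℂ G) :
    Tc χ (J * a * J * c) = Tc χ (J * a * J) * Tc χ (J * c * J) := by
  obtain ⟨n, ρ, rfl⟩ := hχ
  obtain ⟨E, hE⟩ : ∃ E : Module.End ℂ (Fin n → ℂ), E = ρ.asAlgebraHom J := ⟨_, rfl⟩
  have hEE : E * E = E := by rw [hE, ← map_mul, hJ]
  have ht : LinearMap.trace ℂ _ E = 1 := by rw [hE, trace_asAlgebraHom, h1]
  obtain ⟨α, hα⟩ := rank_one hEE ht (ρ.asAlgebraHom a)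
  rw [← trace_asAlgebraHom, ← trace_asAlgebraHom, ← trace_asAlgebraHom]
  simp only [map_mul]
  rw [← hE, hα, smul_mul_assoc, map_smul, map_smul, ht, smul_eq_mul, smul_eq_mul, mul_one]
  congr 1
  rw [LinearMap.trace_mul_comm ℂ (E * ρ.asAlgebraHom c) E, ← mul_assoc, hEE]

/-- elements of `ℂ[G]` are determined by the characters -/
theorem coeff_eq_Tc (x : MonoidAlgebra ℂ G) (g : G) :
    x.coeff g = (Nat.card G : ℂ)⁻¹ * ∑ χ : IrrCharacter G, (χ : G → ℂ) 1 *
      Tc (χ : G → ℂ) (x * MonoidAlgebra.single g⁻¹ 1) := by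
  classical
  have hG : (Nat.card G : ℂ) ≠ 0 := by exact_mod_cast Nat.card_pos.ne'
  have h1 : ∀ χ : IrrCharacter G, Tc (χ : G → ℂ) (x * MonoidAlgebra.single g⁻¹ 1) =
      ∑ h : G, x.coeff h * (χ : G → ℂ) (h * g⁻¹) := by
    intro χ
    rw [Tc_mul]
    refine Finset.sum_congr rfl fun h _ => ?_
    rw [Finset.sum_eq_single g⁻¹]
    · rw [coeff_single, Finsupp.single_eq_same, mul_one]
    · intro y _ hy
      rw [coeff_single, Finsupp.single_eq_of_ne hy, mul_zero, zero_mul]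
    · intro h; exact absurd (Finset.mem_univ _) h
  simp_rw [h1, Finset.mul_sum]
  rw [Finset.sum_comm]
  have h2 : ∀ h : G, ∑ χ : IrrCharacter G, (Nat.card G : ℂ)⁻¹ * ((χ : G → ℂ) 1 *
      (x.coeff h * (χ : G → ℂ) (h * g⁻¹))) = if h = g then x.coeff g else 0 := by
    intro h
    have h3 : ∑ χ : IrrCharacter G, (Nat.card G : ℂ)⁻¹ * ((χ : G → ℂ) 1 *
      (x.coeff h * (χ : G → ℂ) (h * g⁻¹))) = (Nat.card G : ℂ)⁻¹ * x.coeff h *
        ∑ χ : IrrCharacter G, (χ : G → ℂ) (h * g⁻¹) * conj ((χ : G → ℂ) 1) := by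
      rw [Finset.mul_sum]
      refine Finset.sum_congr rfl fun χ _ => ?_
      rw [charDegree_spec, map_natCast]; ring
    rw [h3]
    by_cases hh : h = g
    · rw [if_pos hh, hh, mul_inv_cancel,
        column_orthogonality_of_isConj (G := G) (g := (1 : G)) (h := 1) (IsConj.refl 1)]
      have h5 : Nat.card (Subgroup.centralizer ({(1 : G)} : Set G)) = Nat.card G := by
        rw [Subgroup.centralizer_eq_top_iff_subset.2 (by
          rintro _ rfl; exact Subgroup.one_mem _), Subgroup.card_top]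
      rw [h5]
      field_simp
    · rw [if_neg hh, column_orthogonality_of_not_isConj, mul_zero]
      intro hc
      exact hh (mul_inv_eq_one.1 (isConj_one_right.1 hc.symm))
  rw [Finset.sum_congr rfl fun h _ => h2 h, Finset.sum_ite_eq' Finset.univ g, if_pos (Finset.mem_univ _)]

theorem eq_of_Tc {x y : MonoidAlgebra ℂ G}
    (h : ∀ (χ : IrrCharacter G) (g : G), Tc (χ : G → ℂ) (x * MonoidAlgebra.single g 1) =
      Tc (χ : G → ℂ) (y * MonoidAlgebra.single g 1)) : x = y := by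
  apply ga_ext; intro g
  rw [coeff_eq_Tc x, coeff_eq_Tc y]
  congr 1
  exact Finset.sum_congr rfl fun χ _ => by rw [h χ g⁻¹]

theorem Tc_cj_sum (χ : IrrCharacter G) (a : MonoidAlgebra ℂ G) (g : G) :
    Tc (χ : G → ℂ) ((∑ u : G, cj u a) * MonoidAlgebra.single g 1) =
      (Nat.card G : ℂ) * Tc (χ : G → ℂ) a * (χ : G → ℂ) g / (χ : G → ℂ) 1 := by
  classical
  rw [Finset.sum_mul, Tc_sum]
  have h1 : ∀ u : G, Tc (χ : G → ℂ) (cj u a * MonoidAlgebra.single g 1) =
      ∑ h : G, a.coeff h * (χ : G → ℂ) (g * (u * h * u⁻¹)) := by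
    intro u
    rw [Tc_mul]
    have h2 : ∀ x : G, ∑ y : G, (cj u a).coeff x * (MonoidAlgebra.single g (1 : ℂ)).coeff y *
        (χ : G → ℂ) (x * y) = a.coeff (u⁻¹ * x * u) * (χ : G → ℂ) (x * g) := by
      intro x
      rw [Finset.sum_eq_single g]
      · rw [coeff_single, Finsupp.single_eq_same, mul_one, cj_coeff]
      · intro y _ hy
        rw [coeff_single, Finsupp.single_eq_of_ne hy, mul_zero, zero_mul]
      · intro h; exact absurd (Finset.mem_univ _) h
    rw [Finset.sum_congr rfl fun x _ => h2 x]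
    refine Fintype.sum_equiv (MulAut.conj u⁻¹).toEquiv _ _ fun x => ?_
    have h3 : (MulAut.conj u⁻¹).toEquiv x = u⁻¹ * x * u := by simp
    rw [h3, classFun_mul_comm (irr_isClassFunction χ) x g]
    congr 2
    group
  rw [Finset.sum_congr rfl fun u _ => h1 u, Finset.sum_comm]
  have h4 : ∀ h : G, ∑ u : G, a.coeff h * (χ : G → ℂ) (g * (u * h * u⁻¹)) =
      a.coeff h * ((Nat.card G : ℂ) * (χ : G → ℂ) g * (χ : G → ℂ) h / (χ : G → ℂ) 1) := by
    intro h
    rw [← Finset.mul_sum, sum_conj_mul χ.2]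
  rw [Finset.sum_congr rfl fun h _ => h4 h, Tc_eq, Finset.mul_sum, Finset.sum_mul, Finset.sum_div]
  exact Finset.sum_congr rfl fun h _ => by ring

end Tc

section span

variable {k : Type*} [Field k] {G : Type*} [Group G] [Finite G]

/-- the two-sided span of `J` with coefficients satisfying `P` -/
noncomputable def TS (P : MonoidAlgebra k G → Prop) (J : MonoidAlgebra k G) : AddSubmonoid (MonoidAlgebra k G) :=
  AddSubmonoid.closure {z | ∃ u v, P u ∧ P v ∧ z = u * J * v}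

theorem TS_mul {P : MonoidAlgebra k G → Prop} (hP : ∀ x y, P x → P y → P (x * y))
    {J z : MonoidAlgebra k G} (hz : z ∈ TS P J) {a : MonoidAlgebra k G} (ha : P a) :
    a * z ∈ TS P J ∧ z * a ∈ TS P J := by
  unfold TS at hz ⊢
  induction hz using AddSubmonoid.closure_induction with
  | zero => rw [mul_zero, zero_mul]; exact ⟨AddSubmonoid.zero_mem _, AddSubmonoid.zero_mem _⟩
  | add x y _ _ hx hy =>
    rw [mul_add, add_mul]
    exact ⟨AddSubmonoid.add_mem _ hx.1 hy.1, AddSubmonoid.add_mem _ hx.2 hy.2⟩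
  | mem x hx =>
    obtain ⟨u, v, hu, hv, rfl⟩ := hx
    exact ⟨AddSubmonoid.subset_closure ⟨a * u, v, hP _ _ ha hu, hv, by simp only [mul_assoc]⟩,
      AddSubmonoid.subset_closure ⟨u, v * a, hu, hP _ _ hv ha, by simp only [mul_assoc]⟩⟩

end span

section lr

variable {p : ℕ} [hp : Fact p.Prime] {M : Ideal AlgInt} [hMp : M.IsPrime]
  {G : Type u} [Group G] [Fintype G] {B : Set (IrrCharacter G)}

theorem lr_relTr {D H : Subgroup G} {x : MonoidAlgebra ℂ G} (hx : LR M x) : LR M (relTr D H x) := by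
  have := Fintype.ofFinite (G ⧸ D)
  rw [relTr_eq]
  refine lr_sum _ _ fun q _ => ?_
  unfold trTerm
  split_ifs
  · exact lr_cj hx _
  · exact lr_zero

theorem red_relTr {D H : Subgroup G} {x : MonoidAlgebra ℂ G} (hx : LR M x) :
    red M (relTr D H x) = relTr D H (red M x) := by
  have := Fintype.ofFinite (G ⧸ D)
  rw [relTr_eq, relTr_eq, red_sum]
  · refine Finset.sum_congr rfl fun q _ => ?_
    unfold trTerm
    split_ifs
    · exact red_cj _ _
    · exact red_zero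
  · intro q _
    unfold trTerm
    split_ifs
    · exact lr_cj hx _
    · exact lr_zero

/-- all idempotents of a block with one simple module lie in the ideal of that module -/
theorem mem_TS (hB : IsPBlock M B) {i₀ : PI (MonoidAlgebra (kM M) G)}
    (hu : ∀ i, InB B i → i = i₀) : eB M B ∈ TS (fun _ => True) (pj i₀) := by
  classical
  have key : ∀ e : MonoidAlgebra (kM M) G, e * e = e → eB M B * e = e →
      e ∈ TS (fun _ => True) (pj i₀) := by
    intro e hee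
    refine idem_induction (kM M) (fun e => eB M B * e = e → e ∈ TS (fun _ => True) (pj i₀))
      ?_ ?_ ?_ e hee
    · intro _; exact AddSubmonoid.zero_mem _
    · intro c hc hbc
      obtain ⟨i, hi⟩ := exists_pj hc
      obtain ⟨a, b, h1, h2, h3, h4, h5, h6⟩ := hi
      have hiB : InB B i := by
        have hcomm : eB M B * b = b * eB M B := mul_comm_of_fixed (fixed_eB B) (supp_top b)
        have h7 : eB M B * a = a := by rw [← h3, ← mul_assoc, hbc]
        rw [InB, ← h2, ← mul_assoc, hcomm, mul_assoc, h7]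
      have hii := hu i hiB
      subst hii
      refine AddSubmonoid.subset_closure ⟨a, b, trivial, trivial, ?_⟩
      rw [h4, h1]
    · intro a c ha hc hac hca iha ihc hb
      have h1 : eB M B * a = a := by
        have : eB M B * (a + c) * a = (a + c) * a := by rw [hb]
        rwa [mul_assoc, add_mul, ha, hca, add_zero] at this
      have h2 : eB M B * c = c := by
        have : eB M B * (a + c) * c = (a + c) * c := by rw [hb]
        rwa [mul_assoc, add_mul, hc, hac, zero_add] at this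
      exact AddSubmonoid.add_mem _ (iha h1) (ihc h2)
  exact key _ (eB_idem hB) (eB_idem hB)

theorem exists_lift_TS {J : MonoidAlgebra ℂ G} (hJ : LR M J) {z : MonoidAlgebra (kM M) G}
    (hz : z ∈ TS (fun _ => True) (red M J)) : ∃ Z ∈ TS (LR M) J, LR M Z ∧ red M Z = z := by
  unfold TS at hz
  induction hz using AddSubmonoid.closure_induction with
  | zero => exact ⟨0, AddSubmonoid.zero_mem _, lr_zero, red_zero⟩
  | add x y _ _ hx hy =>
    obtain ⟨X, hX1, hX2, hX3⟩ := hx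
    obtain ⟨Y, hY1, hY2, hY3⟩ := hy
    exact ⟨X + Y, AddSubmonoid.add_mem _ hX1 hY1, lr_add hX2 hY2, by rw [red_add hX2 hY2, hX3, hY3]⟩
  | mem x hx =>
    obtain ⟨u, v, -, -, rfl⟩ := hx
    have h1 : LR M (lf u * J) := lr_mul (lr_lf u) hJ
    refine ⟨lf u * J * lf v, AddSubmonoid.subset_closure ⟨lf u, lf v, lr_lf u, lr_lf v, rfl⟩,
      lr_mul h1 (lr_lf v), ?_⟩
    rw [red_mul h1 (lr_lf v), red_mul (lr_lf u) hJ, red_lf, red_lf]

/-- (C) the lift of the block idempotent lies in the ideal generated by `J` -/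
theorem mem_TS_lift (hB : IsPBlock M B) {i₀ : PI (MonoidAlgebra (kM M) G)}
    (hu : ∀ i, InB B i → i = i₀) {J : MonoidAlgebra ℂ G} (hJ : IsL M (pj i₀) J) :
    ofFun (blockCoeff B) ∈ TS (LR M) J := by
  have hb := isL_iff.1 (isL_block (M := M) hB)
  have hJ' := isL_iff.1 hJ
  obtain ⟨Z, hZ1, hZ2, hZ3⟩ := exists_lift_TS hJ'.1 (z := eB M B) (by
    rw [hJ'.2.2]; exact mem_TS hB hu)
  obtain ⟨b, hbdef⟩ : ∃ b : MonoidAlgebra ℂ G, b = ofFun (blockCoeff B) := ⟨_, rfl⟩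
  rw [← hbdef] at hb ⊢
  have hTS : ∀ {z a : MonoidAlgebra ℂ G}, z ∈ TS (LR M) J → LR M a →
      a * z ∈ TS (LR M) J ∧ z * a ∈ TS (LR M) J := fun hz ha => TS_mul (fun x y => lr_mul) hz ha
  obtain ⟨C, hC, -, -, h1, -⟩ := exists_corner_inv (M := M) hb.1 hb.2.1
    (x := b * Z * b) (lr_mul (lr_mul hb.1 hZ2) hb.1) (by rw [← mul_assoc, ← mul_assoc, hb.2.1])
    (by rw [mul_assoc, hb.2.1]) (by
      rw [red_mul (lr_mul hb.1 hZ2) hb.1, red_mul hb.1 hZ2, hZ3, hb.2.2, eB_idem hB, eB_idem hB])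
  rw [← h1]
  exact (hTS (hTS (hTS hZ1 hb.1).1 hb.1).2 hC).2

theorem exists_W1 {J : MonoidAlgebra ℂ G} (hJ : LR M J) (hJJ : J * J = J)
    (hone : ∀ χ ∈ B, Tc (χ : G → ℂ) J = 1) {y : MonoidAlgebra ℂ G} (hy : LR M y)
    {Z : MonoidAlgebra ℂ G} (hZ : Z ∈ TS (LR M) J) : ∃ W, LR M W ∧
      ∀ χ ∈ B, ∀ c, Tc (χ : G → ℂ) (W * c) =
        Tc (χ : G → ℂ) (J * y * J) * Tc (χ : G → ℂ) (Z * c) := by
  have hcy : ∀ (χ : IrrCharacter G) (x y : MonoidAlgebra ℂ G), Tc (χ : G → ℂ) (x * y) =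
      Tc (χ : G → ℂ) (y * x) := fun χ x y => Tc_mul_comm (irr_isClassFunction χ) x y
  unfold TS at hZ
  induction hZ using AddSubmonoid.closure_induction with
  | zero => exact ⟨0, lr_zero, fun χ _ c => by rw [zero_mul, Tc_zero, mul_zero]⟩
  | add u v _ _ hu hv =>
    obtain ⟨U, hU1, hU2⟩ := hu
    obtain ⟨V, hV1, hV2⟩ := hv
    exact ⟨U + V, lr_add hU1 hV1, fun χ hχ c => by
      rw [add_mul, Tc_add, hU2 χ hχ, hV2 χ hχ, add_mul, Tc_add]; ring⟩
  | mem z hz =>
    obtain ⟨u, v, hu, hv, rfl⟩ := hz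
    refine ⟨u * (J * y * J) * v, lr_mul (lr_mul hu (lr_mul (lr_mul hJ hy) hJ)) hv,
      fun χ hχ c => ?_⟩
    have e1 : Tc (χ : G → ℂ) (u * (J * y * J) * v * c) =
        Tc (χ : G → ℂ) (J * y * J * (v * c * u)) := by
      have : u * (J * y * J) * v * c = u * (J * y * J * (v * c)) := by simp only [mul_assoc]
      rw [this, hcy, mul_assoc (J * y * J)]
    have e2 : Tc (χ : G → ℂ) (u * J * v * c) = Tc (χ : G → ℂ) (J * (v * c * u) * J) := by
      have : u * J * v * c = u * (J * (v * c)) := by simp only [mul_assoc]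
      rw [hcy χ (J * (v * c * u)) J, ← mul_assoc J J, hJJ, this, hcy, mul_assoc J]
    rw [e1, e2, Tc_rank_one (irr_isCharacter χ) hJJ (hone χ hχ)]

theorem exists_W2 {J : MonoidAlgebra ℂ G} (hJ : LR M J) (hJJ : J * J = J)
    (hone : ∀ χ ∈ B, Tc (χ : G → ℂ) J = 1) {b : MonoidAlgebra ℂ G} (hb : b ∈ TS (LR M) J)
    (hbc : ∀ χ ∈ B, ∀ c, Tc (χ : G → ℂ) (b * c) = Tc (χ : G → ℂ) c)
    {Z : MonoidAlgebra ℂ G} (hZ : Z ∈ TS (LR M) J) : ∃ W, LR M W ∧
      ∀ χ ∈ B, ∀ c, Tc (χ : G → ℂ) (W * c) = Tc (χ : G → ℂ) Z * Tc (χ : G → ℂ) c := by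
  have hcy : ∀ (χ : IrrCharacter G) (x y : MonoidAlgebra ℂ G), Tc (χ : G → ℂ) (x * y) =
      Tc (χ : G → ℂ) (y * x) := fun χ x y => Tc_mul_comm (irr_isClassFunction χ) x y
  unfold TS at hZ
  induction hZ using AddSubmonoid.closure_induction with
  | zero => exact ⟨0, lr_zero, fun χ _ c => by rw [zero_mul, Tc_zero, zero_mul]⟩
  | add u v _ _ hu hv =>
    obtain ⟨U, hU1, hU2⟩ := hu
    obtain ⟨V, hV1, hV2⟩ := hv
    exact ⟨U + V, lr_add hU1 hV1, fun χ hχ c => by
      rw [add_mul, Tc_add, hU2 χ hχ, hV2 χ hχ, Tc_add]; ring⟩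
  | mem z hz =>
    obtain ⟨u, v, hu, hv, rfl⟩ := hz
    obtain ⟨W, hW1, hW2⟩ := exists_W1 (B := B) hJ hJJ hone (y := v * u) (lr_mul hv hu) (Z := b) hb
    refine ⟨W, hW1, fun χ hχ c => ?_⟩
    have h1 : u * J * v = u * (J * v) := mul_assoc _ _ _
    have h2 : Tc (χ : G → ℂ) (J * (v * u) * J) = Tc (χ : G → ℂ) (u * J * v) := by
      rw [hcy χ (J * (v * u)) J, ← mul_assoc J J, hJJ, h1, hcy χ u, mul_assoc]
    rw [hW2 χ hχ c, hbc χ hχ, h2]

theorem Tc_blk_mem {χ : IrrCharacter G} (hχ : χ ∈ B) (c : MonoidAlgebra ℂ G) :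
    Tc (χ : G → ℂ) (ofFun (blockCoeff B) * c) = Tc (χ : G → ℂ) c := by
  rw [Tc_block B (irr_isClassFunction χ), blockPart_mem hχ]

theorem Tc_blk_notMem {χ : IrrCharacter G} (hχ : χ ∉ B) (c : MonoidAlgebra ℂ G) :
    Tc (χ : G → ℂ) (ofFun (blockCoeff B) * c) = 0 := by
  rw [Tc_block B (irr_isClassFunction χ), blockPart_notMem hχ, Tc_eq]
  exact Finset.sum_eq_zero fun g _ => mul_zero _

/-- (D) -/
theorem exists_W (hB : IsPBlock M B) {i₀ : PI (MonoidAlgebra (kM M) G)}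
    (hu : ∀ i, InB B i → i = i₀)
    (h1 : ∀ χ ∈ B, tz M (χ : G → ℂ) (pj i₀) = 1) {a : MonoidAlgebra ℂ G} (ha : LR M a) :
    ∃ W, LR M W ∧ (∀ χ ∈ B, ∀ c, Tc (χ : G → ℂ) (W * c) =
      Tc (χ : G → ℂ) a * Tc (χ : G → ℂ) c) ∧ ∀ χ : IrrCharacter G, χ ∉ B → ∀ c,
      Tc (χ : G → ℂ) (W * c) = 0 := by
  obtain ⟨J, hJ⟩ := exists_L (M := M) (prim_pj i₀).idem
  have hJ' := isL_iff.1 hJ
  have hb := isL_iff.1 (isL_block (M := M) hB)
  have hTSb := mem_TS_lift hB hu hJ
  have hone : ∀ χ ∈ B, Tc (χ : G → ℂ) J = 1 := fun χ hχ => by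
    rw [← tz_eq (irr_isClassFunction χ) hJ, h1 χ hχ]
  obtain ⟨W, hW1, hW2⟩ := exists_W2 hJ'.1 hJ'.2.1 hone hTSb (fun χ hχ c => Tc_blk_mem hχ c)
    (TS_mul (fun x y => lr_mul) hTSb ha).2
  refine ⟨ofFun (blockCoeff B) * W, lr_mul hb.1 hW1, fun χ hχ c => ?_, fun χ hχ c => ?_⟩
  · rw [mul_assoc, Tc_blk_mem hχ, hW2 χ hχ, Tc_blk_mem hχ]
  · rw [mul_assoc, Tc_blk_notMem hχ]

theorem sum_cj_eq {k : Type*} [Field k] {Q : Subgroup G} {a : MonoidAlgebra k G}
    (ha : Fixed Q a) : ∑ u : G, cj u a = (Nat.card Q : k) • relTr Q ⊤ a := by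
  classical
  have := Fintype.ofFinite (G ⧸ (⊥ : Subgroup G))
  have hbot : Fixed ⊥ a := ha.mono bot_le
  have h1 : relTr ⊥ ⊤ a = (Nat.card Q : k) • relTr Q ⊤ a := by
    rw [← BlkF.relTr_relTr (bot_le : (⊥ : Subgroup G) ≤ Q) le_top hbot,
      BlkF.relTr_of_fixed bot_le ha, relTr_smul, Subgroup.relIndex_bot_left]
  rw [← h1, relTr_eq]
  refine Fintype.sum_bijective (fun u : G => (u : G ⧸ (⊥ : Subgroup G))) ⟨?_, ?_⟩ _ _ ?_
  · intro u v h
    have h2 := QuotientGroup.eq.1 h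
    rw [Subgroup.mem_bot, inv_mul_eq_one] at h2
    exact h2
  · exact QuotientGroup.mk_surjective
  · intro u
    rw [trTerm_of_mem le_top hbot (Subgroup.mem_top u)]

/-- (E) traces from small subgroups vanish on the block -/
theorem relTr_mul_block (hM : IsPModular p M) (hB : IsPBlock M B) {f : ℕ}
    (hf : ∀ χ ∈ B, charDegree (χ : G → ℂ) = f)
    (hW : ∀ a : MonoidAlgebra ℂ G, LR M a → ∃ W, LR M W ∧ (∀ χ ∈ B, ∀ c,
      Tc (χ : G → ℂ) (W * c) = Tc (χ : G → ℂ) a * Tc (χ : G → ℂ) c) ∧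
      ∀ χ : IrrCharacter G, χ ∉ B → ∀ c, Tc (χ : G → ℂ) (W * c) = 0)
    {Q : Subgroup G} {q : ℕ} (hq : Nat.card Q = p ^ q) (hqd : q < blockDefect p B)
    {a : MonoidAlgebra (kM M) G} (ha : Fixed Q a) : relTr Q ⊤ a * eB M B = 0 := by
  classical
  obtain ⟨χ₀, hχ₀⟩ := block_nonempty hB
  have hf0 : 0 < f := by rw [← hf χ₀ hχ₀]; exact charDegree_pos χ₀
  obtain ⟨W, hW1, hW2, hW3⟩ := hW (lf a) (lr_lf a)
  have hb := isL_iff.1 (isL_block (M := M) hB)
  have hfl : Fixed Q (lf a) := fixed_lf ha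
  have hR : LR M (relTr Q ⊤ (lf a)) := lr_relTr (lr_lf a)
  have hfix : Fixed ⊤ (ofFun (blockCoeff B) : MonoidAlgebra ℂ G) := (isCL_blockCoeff hB).fixed
  -- the constant
  obtain ⟨c, hc⟩ : ∃ c : ℂ, c = (Nat.card G : ℂ) / (Nat.card Q * f) := ⟨_, rfl⟩
  have hQ0 : (Nat.card Q : ℂ) ≠ 0 := by exact_mod_cast Nat.card_pos.ne'
  have hfC : (f : ℂ) ≠ 0 := by exact_mod_cast hf0.ne'
  have hmain : relTr Q ⊤ (lf a) * ofFun (blockCoeff B) = c • W := by
    apply eq_of_Tc
    intro χ g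
    have h1 : (∑ u : G, cj u (lf a)) = (Nat.card Q : ℂ) • relTr Q ⊤ (lf a) := sum_cj_eq hfl
    have h2 : Tc (χ : G → ℂ) ((∑ u : G, cj u (lf a)) * (ofFun (blockCoeff B)) *
        MonoidAlgebra.single g 1) = Nat.card Q * Tc (χ : G → ℂ) (relTr Q ⊤ (lf a) *
        ofFun (blockCoeff B) * MonoidAlgebra.single g 1) := by
      rw [h1, smul_mul_assoc, smul_mul_assoc, Tc_smul]
    have hcomm : (∑ u : G, cj u (lf a)) * (ofFun (blockCoeff B)) =
        ofFun (blockCoeff B) * (∑ u : G, cj u (lf a)) :=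
      (mul_comm_of_fixed hfix (supp_top _)).symm
    rw [hcomm, mul_assoc] at h2
    rw [smul_mul_assoc, Tc_smul]
    apply mul_left_cancel₀ hQ0
    rw [← h2]
    by_cases hχ : χ ∈ B
    · rw [Tc_blk_mem hχ, Tc_cj_sum, hW2 χ hχ, Tc_single, charDegree_spec, hf χ hχ, hc]
      field_simp
    · rw [Tc_blk_notMem hχ, hW3 χ hχ, mul_zero, mul_zero]
  have hcI : MemLocalIdeal M c := by
    have hd := defect_add_nuMin (p := p) (block_nonempty hB)
    have hm : nuMin p B = f.factorization p := by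
      obtain ⟨χ, hχ, h⟩ := exists_nuMin (p := p) (block_nonempty hB)
      rw [← h, nu, hf χ hχ]
    have hG0 : Nat.card G ≠ 0 := Nat.card_pos.ne'
    have hg : Nat.card G = p ^ (Nat.card G).factorization p *
        (Nat.card G / p ^ (Nat.card G).factorization p) := (Nat.ordProj_mul_ordCompl_eq_self _ p).symm
    have hf' : f = p ^ f.factorization p * (f / p ^ f.factorization p) :=
      (Nat.ordProj_mul_ordCompl_eq_self _ p).symm
    have hpf' : ¬ p ∣ f / p ^ f.factorization p := Nat.not_dvd_ordCompl hp.out hf0.ne'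
    obtain ⟨g', hg'⟩ : ∃ g', g' = Nat.card G / p ^ (Nat.card G).factorization p := ⟨_, rfl⟩
    obtain ⟨f', hf''⟩ : ∃ f', f' = f / p ^ f.factorization p := ⟨_, rfl⟩
    rw [← hg'] at hg
    rw [← hf''] at hf' hpf'
    rw [← hm] at hf'
    have hf'0 : (f' : ℂ) ≠ 0 := by
      intro h
      apply hpf'
      rw [Nat.cast_eq_zero.1 h]; exact dvd_zero _
    have hp0 : (p : ℂ) ≠ 0 := by exact_mod_cast hp.out.ne_zero
    have hcc : c = (p : ℂ) ^ (blockDefect p B - q) * (g' * (f' : ℂ)⁻¹) := by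
      have e1 : (Nat.card G : ℂ) = (p : ℂ) ^ (blockDefect p B - q) * (p : ℂ) ^ q *
          (p : ℂ) ^ nuMin p B * g' := by
        rw [← pow_add, ← pow_add, Nat.sub_add_cancel hqd.le, hd]
        exact_mod_cast hg
      have e2 : (f : ℂ) = (p : ℂ) ^ nuMin p B * f' := by exact_mod_cast hf'
      have e3 : (Nat.card Q : ℂ) = (p : ℂ) ^ q := by exact_mod_cast hq
      rw [hc, e1, e2, e3]
      field_simp
    rw [hcc]
    refine mli_mul_right ?_ (mlr_mul (mlr_natCast _) (mlr_natCast_inv hM hpf'))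
    have : ((p : ℂ) ^ (blockDefect p B - q)) = ((p ^ (blockDefect p B - q) : ℕ) : ℂ) := by
      push_cast; rfl
    rw [this, mli_natCast_iff hM]
    exact dvd_pow_self p (by omega)
  have h1 : relTr Q ⊤ a * eB M B = red M (relTr Q ⊤ (lf a) * ofFun (blockCoeff B)) := by
    rw [red_mul hR hb.1, red_relTr (lr_lf a), red_lf, hb.2.2]
  rw [h1, hmain, red_smul (mlr_of_mli hcI) hW1, (rd_eq_zero_iff (mlr_of_mli hcI)).2 hcI, zero_smul]

/-- (F) the Brauer map at the defect group is injective on the centre of the block -/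
theorem eq_zero_of_br (hM : IsPModular p M) (hB : IsPBlock M B)
    (hE : ∀ (Q : Subgroup G) (q : ℕ), Nat.card Q = p ^ q → q < blockDefect p B →
      ∀ a : MonoidAlgebra (kM M) G, Fixed Q a → relTr Q ⊤ a * eB M B = 0)
    {D : Subgroup G} (hD : IsDef p ⊤ (eB M B) D) (hcard : Nat.card D = p ^ blockDefect p B)
    {z : MonoidAlgebra (kM M) G} (hz : Fixed ⊤ z) (hzb : z * eB M B = z) (hbr : br D z = 0) :
    z = 0 := by
  have := charP_kM hM
  obtain ⟨a, -, ha, hat⟩ := hD.tr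
  have h1 : z = relTr D ⊤ (z * a) := by
    rw [relTr_mul_left hz, hat, hzb]
  have hzD : Fixed D z := hz.mono le_top
  have h2 : br D (z * a) = 0 := by rw [br_mul hD.isPGroup hzD ha, hbr, zero_mul]
  obtain ⟨l, hl, hla⟩ := inTr_of_br_eq_zero (hzD.mul ha) h2
  have h3 : ∀ l : List (Subgroup G × MonoidAlgebra (kM M) G), (∀ t ∈ l, t.1 < D ∧ Fixed t.1 t.2) →
      relTr D ⊤ (l.map fun t => relTr t.1 D t.2).sum * eB M B = 0 := by
    intro l
    induction l with
    | nil =>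
      intro _
      rw [List.map_nil, List.sum_nil]
      have : relTr D ⊤ (0 : MonoidAlgebra (kM M) G) = 0 := by
        have := relTr_smul D ⊤ (0 : kM M) (0 : MonoidAlgebra (kM M) G)
        rwa [zero_smul, zero_smul] at this
      rw [this, zero_mul]
    | cons t l ih =>
      intro h
      rw [List.map_cons, List.sum_cons, relTr_add, add_mul,
        ih (fun s hs => h s (List.mem_cons_of_mem _ hs)), add_zero]
      obtain ⟨h4, h5⟩ := h t List.mem_cons_self
      rw [BlkF.relTr_relTr h4.le le_top h5]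
      have h6 : IsPGroup p t.1 := hD.isPGroup.to_le h4.le
      obtain ⟨q, hq⟩ := h6.exists_card_eq
      refine hE t.1 q hq ?_ t.2 h5
      have h7 : Nat.card t.1 < Nat.card D := by
        have h8 : Nat.card t.1 ≤ Nat.card D := Subgroup.card_le_of_le h4.le
        refine lt_of_le_of_ne h8 fun h9 => h4.ne ?_
        exact Subgroup.eq_of_le_of_card_ge h4.le h9.ge
      rw [hq, hcard] at h7
      exact (Nat.pow_lt_pow_iff_right hp.out.one_lt).1 h7
  have h4 := h3 l hl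
  rw [← hla, ← h1, hzb] at h4
  exact h4

/-- Summary: the hypotheses of the theorem give (F). -/
theorem ot_inj (hM : IsPModular p M) (hB : IsPBlock M B) {f : ℕ}
    (hf : ∀ χ ∈ B, charDegree (χ : G → ℂ) = f)
    (h0 : ∀ χ ∈ B, blockHeight p B (χ : G → ℂ) = 0)
    {D : Subgroup G} (hD : IsDef p ⊤ (eB M B) D) (hcard : Nat.card D = p ^ blockDefect p B)
    {z : MonoidAlgebra (kM M) G} (hz : Fixed ⊤ z) (hzb : z * eB M B = z) (hbr : br D z = 0) :
    z = 0 := by
  obtain ⟨i₀, -, hu, h1, -⟩ := ot_unique hM hB hf h0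
  refine eq_zero_of_br hM hB (fun Q q hq hqd a ha => ?_) hD hcard hz hzb hbr
  exact relTr_mul_block hM hB hf (fun a ha => exists_W hB hu h1 ha) hq hqd ha

end lr

end Cfsg.Agent.Star
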