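import Cfsg.Agent.Star.OT2
import Cfsg.Agent.Blk.Count

/-!
# Idempotent matrices over a local ring; the dimension of the centre of a block
-/

set_option autoImplicit false
set_option linter.unusedSectionVars false
set_option linter.style.haveILetI false

universe u

namespace Cfsg.Agent.Star

open scoped ComplexConjugate Matrix
open MonoidAlgebra Cfsg Cfsg.Agent.Blk Cfsg.Agent.CharBase Cfsg.Agent.BlkC

section local_

/-- **Lemma R**: an idempotent matrix over a local ring. -/
theorem idem_matrix {O : Type*} [CommRing O] [IsLocalRing O] {n : Type*} [Fintype n]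
    [DecidableEq n] {E : Matrix n n O} (hE : E * E = E) {k : Type*} [Field k] (φ : O →+* k) :
    ∃ r : ℕ, E.trace = r ∧ (E.map φ).rank = r := by
  obtain ⟨f, hf⟩ : ∃ f : (n → O) →ₗ[O] (n → O), f = Matrix.toLin' E := ⟨_, rfl⟩
  have hff : ∀ x, f (f x) = f x := by
    intro x
    rw [hf, Matrix.toLin'_apply, Matrix.toLin'_apply, Matrix.mulVec_mulVec, hE]
  have hproj : Module.Projective O (LinearMap.range f) := by
    refine Module.Projective.of_split (LinearMap.range f).subtype f.rangeRestrict ?_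
    apply LinearMap.ext
    rintro ⟨_, x, rfl⟩
    apply Subtype.ext
    exact hff x
  have hfin : Module.Finite O (LinearMap.range f) := inferInstance
  have hfree : Module.Free O (LinearMap.range f) := Module.free_of_flat_of_isLocalRing
  obtain ⟨r, b⟩ : ∃ r : ℕ, Nonempty (Module.Basis (Fin r) O (LinearMap.range f)) :=
    ⟨_, ⟨Module.finBasis O _⟩⟩
  obtain ⟨b⟩ := b
  let X : Matrix n (Fin r) O := Matrix.of fun i j => (b j : n → O) i
  let Y : Matrix (Fin r) n O := Matrix.of fun j i => b.repr ⟨f (Pi.single i 1), ⟨_, rfl⟩⟩ j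
  have hXY : E = X * Y := by
    ext i j
    rw [Matrix.mul_apply]
    have h1 := b.sum_repr ⟨f (Pi.single j 1), ⟨_, rfl⟩⟩
    have h2 := congrFun (congrArg Subtype.val h1) i
    have h3 : f (Pi.single j 1) i = E i j := by
      rw [hf, Matrix.toLin'_apply, Matrix.mulVec_single_one]; rfl
    have h4 : (((∑ l, (b.repr ⟨f (Pi.single j 1), ⟨_, rfl⟩⟩) l • b l :
        LinearMap.range f) : n → O)) i = ∑ l, X i l * Y l j := by
      simp only [AddSubmonoidClass.coe_finsetSum, Submodule.coe_smul, Finset.sum_apply,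
        Pi.smul_apply, smul_eq_mul]
      exact Finset.sum_congr rfl fun l _ => mul_comm _ _
    rw [← h3, ← h4, h2]
  have hYX : Y * X = 1 := by
    ext i j
    rw [Matrix.mul_apply, Matrix.one_apply]
    have h1 : (⟨f (b j : n → O), ⟨_, rfl⟩⟩ : LinearMap.range f) = b j := by
      apply Subtype.ext
      obtain ⟨x, hx⟩ := (b j).2
      change f (b j : n → O) = _
      rw [← hx, hff]
    have h2 : (⟨f (b j : n → O), ⟨_, rfl⟩⟩ : LinearMap.range f) =
        ∑ l, (b j : n → O) l • ⟨f (Pi.single l 1), ⟨_, rfl⟩⟩ := by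
      apply Subtype.ext
      simp only [AddSubmonoidClass.coe_finsetSum, Submodule.coe_smul]
      conv_lhs => rw [pi_eq_sum_univ' (b j : n → O), map_sum]
      refine Finset.sum_congr rfl fun l _ => ?_
      rw [← map_smul]
    have h3 : b.repr (b j) i = if i = j then 1 else 0 := by
      rw [b.repr_self, Finsupp.single_apply]
      simp only [eq_comm]
    rw [← h3, ← h1, h2, map_sum, Finsupp.finsetSum_apply]
    refine Finset.sum_congr rfl fun l _ => ?_
    rw [map_smul, Finsupp.smul_apply, smul_eq_mul, mul_comm]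
    rfl
  refine ⟨r, ?_, ?_⟩
  · rw [hXY, Matrix.trace_mul_comm, hYX, Matrix.trace_one, Fintype.card_fin]
  · have h1 : E.map φ = X.map φ * Y.map φ := by rw [hXY, Matrix.map_mul]
    have h2 : Y.map φ * X.map φ = 1 := by
      rw [← Matrix.map_mul, hYX, Matrix.map_one φ (map_zero φ) (map_one φ)]
    apply le_antisymm
    · rw [h1]
      refine (Matrix.rank_mul_le_left _ _).trans ((Matrix.rank_le_card_width _).trans ?_)
      rw [Fintype.card_fin]
    · have h3 : Y.map φ * (E.map φ) * X.map φ = 1 := by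
        rw [h1, ← Matrix.mul_assoc, h2, Matrix.one_mul, h2]
      have h4 : (1 : Matrix (Fin r) (Fin r) k).rank = r := by
        rw [Matrix.rank_one, Fintype.card_fin]
      rw [← h4, ← h3]
      exact (Matrix.rank_mul_le_left _ _).trans (Matrix.rank_mul_le_right _ _)

end local_

section zm

variable {k : Type*} [Field k] {G : Type u} [Group G] [Fintype G]

/-- class functions as central elements -/
noncomputable def toZ : (ConjClasses G → k) →ₗ[k] MonoidAlgebra k G where
  toFun f := ofFun fun g => f (ConjClasses.mk g)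
  map_add' f g := by apply ga_ext; intro x; rfl
  map_smul' c f := by apply ga_ext; intro x; rfl

theorem toZ_coeff (f : ConjClasses G → k) (g : G) : (toZ f).coeff g = f (ConjClasses.mk g) := rfl

theorem toZ_injective : Function.Injective (toZ (k := k) (G := G)) := by
  intro f f' h
  funext c
  have := congrArg (fun z : MonoidAlgebra k G => z.coeff (rp c)) h
  simp only [toZ_coeff, mk_rp] at this
  exact this

theorem fixed_toZ (f : ConjClasses G → k) : Fixed ⊤ (toZ f) := by
  rw [fixed_iff]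
  intro u _ g
  rw [toZ_coeff, toZ_coeff]
  congr 1
  exact ConjClasses.mk_eq_mk_iff_isConj.2 (isConj_iff.2 ⟨u⁻¹, by group⟩)

theorem Fixed.coeff_eq_of_mk {z : MonoidAlgebra k G} (hz : Fixed ⊤ z) {g h : G}
    (hgh : ConjClasses.mk g = ConjClasses.mk h) : z.coeff g = z.coeff h := by
  obtain ⟨u, hu⟩ := isConj_iff.1 (ConjClasses.mk_eq_mk_iff_isConj.1 hgh)
  rw [← hu, hz.coeff_conj (Subgroup.mem_top u)]

theorem exists_toZ {z : MonoidAlgebra k G} (hz : Fixed ⊤ z) : ∃ f, toZ f = z := by
  refine ⟨fun c => z.coeff (rp c), ?_⟩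
  apply ga_ext; intro g
  rw [toZ_coeff]
  exact Fixed.coeff_eq_of_mk hz (mk_rp _)

/-- the matrix of the multiplication by `z` on the centre -/
noncomputable def zmat (z : MonoidAlgebra k G) : Matrix (ConjClasses G) (ConjClasses G) k :=
  Matrix.of fun K L => (z * clsSum ⊤ (rp L)).coeff (rp K)

theorem toZ_eq_sum [Fintype (ConjClasses G)] (f : ConjClasses G → k) :
    toZ f = ∑ L, f L • clsSum ⊤ (rp L) := by
  classical
  apply ga_ext; intro g
  rw [toZ_coeff, coeff_sum, Finsupp.finsetSum_apply, Finset.sum_eq_single (ConjClasses.mk g)]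
  · rw [coeff_smul_apply, clsSum, ofFun_coeff, if_pos, smul_eq_mul, mul_one]
    obtain ⟨u, hu⟩ := isConj_iff.1 (ConjClasses.mk_eq_mk_iff_isConj.1 (mk_rp (ConjClasses.mk g)))
    exact ⟨u, Subgroup.mem_top u, hu⟩
  · intro L _ hL
    rw [coeff_smul_apply, clsSum, ofFun_coeff, if_neg, smul_zero]
    rintro ⟨u, -, hu⟩
    apply hL
    rw [← mk_rp L]
    exact ConjClasses.mk_eq_mk_iff_isConj.2 (isConj_iff.2 ⟨u, hu⟩)
  · intro h; exact absurd (Finset.mem_univ _) h

theorem toZ_mulVec [Fintype (ConjClasses G)] {z : MonoidAlgebra k G} (hz : Fixed ⊤ z)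
    (f : ConjClasses G → k) : toZ (zmat z *ᵥ f) = z * toZ f := by
  apply ga_ext; intro g
  rw [toZ_coeff, ← Fixed.coeff_eq_of_mk (hz.mul (fixed_toZ f)) (mk_rp (ConjClasses.mk g)),
    toZ_eq_sum, Finset.mul_sum, coeff_sum, Finsupp.finsetSum_apply, Matrix.mulVec, dotProduct]
  refine Finset.sum_congr rfl fun L _ => ?_
  rw [mul_smul_comm, coeff_smul_apply, smul_eq_mul, mul_comm]
  rfl

theorem zmat_idem [Fintype (ConjClasses G)] {z : MonoidAlgebra k G} (hz : Fixed ⊤ z)
    (hzz : z * z = z) : zmat z * zmat z = zmat z := by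
  classical
  apply Matrix.toLin'.injective
  apply LinearMap.ext
  intro f
  rw [Matrix.toLin'_apply, Matrix.toLin'_apply, ← Matrix.mulVec_mulVec]
  apply toZ_injective
  rw [toZ_mulVec hz, toZ_mulVec hz, ← mul_assoc, hzz]

/-- the centre of a block algebra -/
noncomputable def ZB (b : MonoidAlgebra k G) : Submodule k (MonoidAlgebra k G) where
  carrier := {z | Fixed ⊤ z ∧ b * z = z}
  zero_mem' := ⟨Fixed.zero, mul_zero b⟩
  add_mem' := fun hx hy => ⟨hx.1.add hy.1, by rw [mul_add, hx.2, hy.2]⟩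
  smul_mem' := fun c _ hx => ⟨hx.1.smul c, by rw [mul_smul_comm, hx.2]⟩

theorem mem_ZB {b z : MonoidAlgebra k G} : z ∈ ZB b ↔ Fixed ⊤ z ∧ b * z = z := Iff.rfl

theorem finrank_ZB_eq_rank [Fintype (ConjClasses G)] {b : MonoidAlgebra k G} (hb : Fixed ⊤ b)
    (hbb : b * b = b) : Module.finrank k (ZB b) = (zmat b).rank := by
  rw [Matrix.rank]
  have h1 : (LinearMap.range (zmat b).mulVecLin).map toZ = ZB b := by
    ext z
    constructor
    · rintro ⟨_, ⟨f, rfl⟩, rfl⟩
      rw [Matrix.mulVecLin_apply, toZ_mulVec hb]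
      exact ⟨hb.mul (fixed_toZ f), by rw [← mul_assoc, hbb]⟩
    · rintro ⟨h1, h2⟩
      obtain ⟨f, rfl⟩ := exists_toZ h1
      refine ⟨zmat b *ᵥ f, ⟨f, rfl⟩, ?_⟩
      rw [toZ_mulVec hb, h2]
  rw [← h1]
  exact (Submodule.equivMapOfInjective toZ toZ_injective _).finrank_eq.symm

end zm

section dim

variable {p : ℕ} [hp : Fact p.Prime] {M : Ideal AlgInt} [hMp : M.IsPrime]
  {G : Type u} [Group G] [Fintype G] {B : Set (IrrCharacter G)}

theorem lr_clsSum (x : G) : LR M (clsSum (k := ℂ) ⊤ x) := by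
  classical
  intro g
  rw [clsSum, ofFun_coeff]
  split_ifs
  · exact mlr_one
  · exact mlr_zero

theorem red_clsSum (x : G) : red M (clsSum (k := ℂ) ⊤ x) = clsSum ⊤ x := by
  classical
  apply ga_ext; intro g
  rw [red_coeff, clsSum, clsSum, ofFun_coeff, ofFun_coeff]
  split_ifs
  · exact rd_one
  · exact rd_zero

theorem sum_cj_single (g : G) : ∑ u : G, cj u (MonoidAlgebra.single g (1 : ℂ)) =
    (Nat.card (Subgroup.centralizer ({g} : Set G)) : ℂ) • clsSum ⊤ g := by
  have h1 : Fixed ⊥ (MonoidAlgebra.single g (1 : ℂ)) := by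
    intro u hu
    rw [Subgroup.mem_bot] at hu
    rw [hu, cj_one_left]
  have h2 := sum_cj_eq h1
  rw [Nat.card_unique, Nat.cast_one, one_smul, relTr_single le_top bot_le,
    Subgroup.relIndex_bot_left, inf_top_eq] at h2
  exact h2

theorem coeff_blk_cls (g : G) : (Nat.card (Subgroup.centralizer ({g} : Set G)) : ℂ) *
    (ofFun (blockCoeff B) * clsSum ⊤ g : MonoidAlgebra ℂ G).coeff g =
      ∑ χ ∈ Bfin B, (χ : G → ℂ) g * (χ : G → ℂ) g⁻¹ := by
  classical
  have hG : (Nat.card G : ℂ) ≠ 0 := by exact_mod_cast Nat.card_pos.ne'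
  have h1 : (Nat.card (Subgroup.centralizer ({g} : Set G)) : ℂ) *
    (ofFun (blockCoeff B) * clsSum ⊤ g : MonoidAlgebra ℂ G).coeff g =
      (ofFun (blockCoeff B) * ∑ u : G, cj u (MonoidAlgebra.single g (1 : ℂ))).coeff g := by
    rw [sum_cj_single, mul_smul_comm, coeff_smul_apply, smul_eq_mul]
  rw [h1, coeff_eq_Tc]
  have h2 : ∀ χ : IrrCharacter G, (χ : G → ℂ) 1 * Tc (χ : G → ℂ) (ofFun (blockCoeff B) *
      (∑ u : G, cj u (MonoidAlgebra.single g (1 : ℂ))) * MonoidAlgebra.single g⁻¹ 1) =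
      if χ ∈ Bfin B then (Nat.card G : ℂ) * ((χ : G → ℂ) g * (χ : G → ℂ) g⁻¹) else 0 := by
    intro χ
    have h3 : (χ : G → ℂ) 1 ≠ 0 := by
      rw [charDegree_spec]; exact_mod_cast (charDegree_pos χ).ne'
    by_cases hχ : χ ∈ B
    · rw [if_pos (mem_Bfin.2 hχ), mul_assoc, Tc_blk_mem hχ, Tc_cj_sum, Tc_single, one_mul]
      field_simp
    · rw [if_neg (fun h => hχ (mem_Bfin.1 h)), mul_assoc, Tc_blk_notMem hχ, mul_zero]
  rw [Finset.sum_congr rfl fun χ _ => h2 χ, ← Finset.sum_filter, ← Finset.mul_sum, ← mul_assoc,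
    inv_mul_cancel₀ hG, one_mul]
  refine Finset.sum_congr ?_ fun _ _ => rfl
  ext χ; simp

theorem trace_zmat [Fintype (ConjClasses G)] :
    (zmat (ofFun (blockCoeff B) : MonoidAlgebra ℂ G)).trace = (Bfin B).card := by
  classical
  have hG : (Nat.card G : ℂ) ≠ 0 := by exact_mod_cast Nat.card_pos.ne'
  apply mul_left_cancel₀ hG
  have h1 : ∑ g : G, ∑ χ ∈ Bfin B, (χ : G → ℂ) g * (χ : G → ℂ) g⁻¹ =
      (Nat.card G : ℂ) * (Bfin B).card := by
    rw [Finset.sum_comm, Finset.sum_congr rfl fun χ hχ => ?_, Finset.sum_const, nsmul_eq_mul,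
      mul_comm]
    have h2 := classInner_irr χ χ
    rw [if_pos rfl, classInner, inv_mul_eq_iff_eq_mul₀ hG, mul_one] at h2
    rw [← h2]
    exact Finset.sum_congr rfl fun g _ => by rw [irr_inv]
  have h2 : ∑ g : G, ∑ χ ∈ Bfin B, (χ : G → ℂ) g * (χ : G → ℂ) g⁻¹ = (Nat.card G : ℂ) *
      (zmat (ofFun (blockCoeff B) : MonoidAlgebra ℂ G)).trace := by
    rw [← Finset.sum_fiberwise Finset.univ (ConjClasses.mk (α := G)), Matrix.trace, Finset.mul_sum]
    refine Finset.sum_congr rfl fun K _ => ?_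
    have h3 : ∀ g ∈ Finset.univ.filter (fun g : G => ConjClasses.mk g = K),
        ∑ χ ∈ Bfin B, (χ : G → ℂ) g * (χ : G → ℂ) g⁻¹ =
        ∑ χ ∈ Bfin B, (χ : G → ℂ) (rp K) * (χ : G → ℂ) (rp K)⁻¹ := by
      intro g hg
      have h4 : ConjClasses.mk g = ConjClasses.mk (rp K) := by
        rw [mk_rp]; exact (Finset.mem_filter.1 hg).2
      obtain ⟨u, hu⟩ := isConj_iff.1 (ConjClasses.mk_eq_mk_iff_isConj.1 h4)
      refine Finset.sum_congr rfl fun χ _ => ?_
      rw [← hu, irr_isClassFunction χ g u]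
      have : (u * g * u⁻¹)⁻¹ = u * g⁻¹ * u⁻¹ := by group
      rw [this, irr_isClassFunction χ g⁻¹ u]
    rw [Finset.sum_congr rfl h3, Finset.sum_const, ← coeff_blk_cls, nsmul_eq_mul, ← mul_assoc,
      Matrix.diag_apply, zmat, Matrix.of_apply]
    congr 1
    have h5 := card_isConj_mul_card_centralizer (rp K)
    rw [← h5]
    push_cast
    congr 2
    rw [Nat.card_eq_fintype_card, Fintype.card_subtype]
    congr 1
    ext g
    simp only [Finset.mem_filter, Finset.mem_univ, true_and]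
    rw [← ConjClasses.mk_eq_mk_iff_isConj, mk_rp]
    exact eq_comm
  rw [← h1, h2]

theorem finrank_ZB (hB : IsPBlock M B) :
    Module.finrank (kM M) (ZB (eB M B)) = (Bfin B).card := by
  classical
  have := Fintype.ofFinite (ConjClasses G)
  have hb := isCL_blockCoeff (M := M) hB
  have hent : ∀ K L, MemLocalRing M ((zmat (ofFun (blockCoeff B) : MonoidAlgebra ℂ G)) K L) :=
    fun K L => lr_mul hb.lr (lr_clsSum (rp L)) (rp K)
  let E : Matrix (ConjClasses G) (ConjClasses G) (locRing M) := Matrix.of fun K L => ⟨_, hent K L⟩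
  have hE : E.map (locRing M).subtype = zmat (ofFun (blockCoeff B) : MonoidAlgebra ℂ G) := by
    ext K L; rfl
  have hEE : E * E = E := by
    have h1 : (E * E).map (locRing M).subtype = E.map (locRing M).subtype := by
      rw [Matrix.map_mul, hE, zmat_idem hb.fixed hb.idem]
    ext K L
    exact congrFun (congrFun h1 K) L
  obtain ⟨r, h1, h2⟩ := idem_matrix hEE (IsLocalRing.residue (locRing M))
  have h3 : r = (Bfin B).card := by
    have h4 : (E.map (locRing M).subtype).trace = r := by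
      have := congrArg (locRing M).subtype h1
      rw [map_natCast] at this
      rw [← this, Matrix.trace, Matrix.trace, map_sum]
      rfl
    rw [hE, trace_zmat] at h4
    exact_mod_cast h4.symm
  have h4 : E.map (IsLocalRing.residue (locRing M)) = zmat (eB M B) := by
    ext K L
    rw [Matrix.map_apply]
    have h5 : zmat (eB M B) K L = (red M (ofFun (blockCoeff B) * clsSum ⊤ (rp L))).coeff (rp K) := by
      rw [red_mul hb.lr (lr_clsSum _), hb.red, red_clsSum]
      rfl
    rw [h5, red_coeff]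
    exact (rd_of_mlr (hent K L)).symm
  rw [finrank_ZB_eq_rank (fixed_eB B) (eB_idem hB), ← h4, h2, h3]

end dim

end Cfsg.Agent.Star
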