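import Cfsg.Agent.Star.EqDeg
import Cfsg.Agent.Char.Galois
import Cfsg.Agent.H4.BlkQuot
import Cfsg.Agent.Glaub.Cyclic

/-!
# `σ`-fixed characters of `p'`-degree of the principal block (owner: helper77)
-/

set_option autoImplicit false
set_option linter.unusedSectionVars false
set_option linter.style.haveILetI false

namespace Cfsg.Agent.Star

open scoped ComplexConjugate BigOperators
open Cfsg Cfsg.Agent.CharBase Cfsg.Agent.Char Cfsg.Agent.Blk Cfsg.Agent.BlkC

universe u

section Lin

variable {K : Type u} [Group K] [Finite K] {M : Ideal AlgInt}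

variable (M K) in
/-- linear characters in the principal block invariant under a set of maps -/
noncomputable def LamF [M.IsPrime] (D : (K → K) → Prop) : Subgroup (K →* ℂˣ) where
  carrier := {f | linIrr f ∈ principalBlock M K ∧ ∀ e : K → K, D e → ∀ x, f (e x) = f x}
  mul_mem' := by
    rintro f f' ⟨h1, h2⟩ ⟨h3, h4⟩
    refine ⟨((Lam0 K M (fun _ => False)).mul_mem ⟨h1, fun _ h => h.elim⟩ ⟨h3, fun _ h => h.elim⟩).1,
      fun e he x => by rw [MonoidHom.mul_apply, MonoidHom.mul_apply, h2 e he, h4 e he]⟩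
  one_mem' := ⟨((Lam0 K M (fun _ => False)).one_mem).1, fun e _ x => by simp⟩
  inv_mem' := by
    rintro f ⟨h1, h2⟩
    exact ⟨((Lam0 K M (fun _ => False)).inv_mem ⟨h1, fun _ h => h.elim⟩).1,
      fun e he x => by rw [MonoidHom.inv_apply, MonoidHom.inv_apply, h2 e he]⟩

theorem mem_LamF [M.IsPrime] {D : (K → K) → Prop} {f : K →* ℂˣ} : f ∈ LamF K M D ↔
    linIrr f ∈ principalBlock M K ∧ ∀ e : K → K, D e → ∀ x, f (e x) = f x := Iff.rfl

end Lin

section Pow

variable {K : Type u} [Group K] [Finite K] {p : ℕ} [hp : Fact p.Prime] {k : ℕ}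
  {M : Ideal AlgInt}

theorem coprime_of_fix (hkp : k ≡ 1 [MOD p])
    (hk2 : ∀ g : K, Nat.Coprime (orderOf g) p → g ^ k = g) : k.Coprime (Nat.card K) := by
  rw [Nat.coprime_iff_gcd_eq_one] 
  by_contra h
  obtain ⟨q, hq, hqd⟩ := Nat.exists_prime_and_dvd h
  have h1 : q ∣ k := hqd.trans (Nat.gcd_dvd_left _ _)
  have h2 : q ∣ Nat.card K := hqd.trans (Nat.gcd_dvd_right _ _)
  have h3 : k ≡ 1 [MOD q] := by
    by_cases hqp : q = p
    · rw [hqp]; exact hkp
    · haveI := Fact.mk hq
      obtain ⟨g, hg⟩ := exists_prime_orderOf_dvd_card' q h2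
      have h4 := hk2 g (by rw [hg]; exact (Nat.coprime_primes hq hp.out).mpr hqp)
      rw [← hg]
      apply pow_eq_pow_iff_modEq.mp
      rw [h4, pow_one]
  have h4 : (0 : ℕ) ≡ 1 [MOD q] := ((Nat.modEq_zero_iff_dvd.mpr h1).symm).trans h3
  have h5 := (Nat.modEq_iff_dvd' (zero_le_one)).mp h4
  rw [Nat.sub_zero, Nat.dvd_one] at h5
  exact hq.ne_one h5

theorem pow_pow_eq (hkp : k ≡ 1 [MOD p])
    (hk2 : ∀ g : K, Nat.Coprime (orderOf g) p → g ^ k = g) (x : K) :
    x ^ (k ^ (p ^ (Nat.card K).factorization p)) = x := by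
  have hx0 : orderOf x ≠ 0 := (orderOf_pos x).ne'
  set A := (Nat.card K).factorization p with hA
  conv_rhs => rw [← pow_one x]
  rw [pow_eq_pow_iff_modEq]
  have h1 : orderOf x = p ^ (orderOf x).factorization p * (orderOf x / p ^ (orderOf x).factorization p) :=
    (Nat.ordProj_mul_ordCompl_eq_self _ _).symm
  set b := (orderOf x).factorization p with hb
  set c := orderOf x / p ^ b with hc
  have hcop : Nat.Coprime (p ^ b) c := (Nat.coprime_ordCompl hp.out hx0).pow_left b
  have hbA : b ≤ A := by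
    have h2 : orderOf x ∣ Nat.card K := orderOf_dvd_natCard x
    exact (Nat.factorization_le_iff_dvd hx0 Nat.card_pos.ne').mpr h2 p
  rw [h1]
  refine (Nat.modEq_and_modEq_iff_modEq_mul hcop).mp ⟨?_, ?_⟩
  · -- modulo p ^ b
    have h2 : ((p : ℕ) : ℤ) ∣ (k : ℤ) - 1 := by
      have := (Nat.modEq_iff_dvd.mp hkp.symm)
      simpa using this
    have h3 := dvd_sub_pow_of_dvd_sub h2 A
    rw [one_pow] at h3
    have h4 : ((p ^ b : ℕ) : ℤ) ∣ (p : ℤ) ^ (A + 1) := by
      push_cast
      exact pow_dvd_pow _ (by omega)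
    have h5 := h4.trans h3
    apply Nat.ModEq.symm
    rw [Nat.modEq_iff_dvd]
    push_cast
    push_cast at h5
    exact h5
  · -- modulo c
    have hxb : orderOf (x ^ (p ^ b)) = c := by
      rw [orderOf_pow_of_dvd (pow_ne_zero _ hp.out.ne_zero) (by rw [h1]; exact Dvd.intro _ rfl)]
    have h2 := hk2 (x ^ (p ^ b)) (by
      rw [hxb]
      exact (Nat.coprime_ordCompl hp.out hx0).symm)
    have h3 : k ≡ 1 [MOD c] := by
      rw [← hxb]
      apply pow_eq_pow_iff_modEq.mp
      rw [h2, pow_one]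
    have h4 := h3.pow (p ^ A)
    rw [one_pow] at h4
    exact h4

/-- the permutation of the irreducible characters -/
noncomputable def powPerm (hk : k.Coprime (Nat.card K)) : Equiv.Perm (IrrCharacter K) :=
  Equiv.ofBijective (fun θ => ⟨fun g => (θ : K → ℂ) (g ^ k), isIrrCharacter_pow θ.2 hk⟩)
    (Finite.injective_iff_bijective.mp (by
      intro θ θ' h
      apply Subtype.ext
      funext g
      have h1 := congrArg Subtype.val h
      obtain ⟨y, rfl⟩ := (powCoprime hk.symm).surjective g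
      exact congrFun h1 y))

theorem powPerm_apply (hk : k.Coprime (Nat.card K)) (θ : IrrCharacter K) (x : K) :
    (powPerm hk θ : K → ℂ) x = (θ : K → ℂ) (x ^ k) := rfl

theorem powPerm_pow (hk : k.Coprime (Nat.card K)) (n : ℕ) (θ : IrrCharacter K) (x : K) :
    ((powPerm hk ^ n) θ : K → ℂ) x = (θ : K → ℂ) (x ^ (k ^ n)) := by
  induction n generalizing x with
  | zero => simp
  | succ n ih =>
    rw [pow_succ', Equiv.Perm.mul_apply, powPerm_apply, ih, ← pow_mul, ← pow_succ']

theorem powPerm_order (hkp : k ≡ 1 [MOD p])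
    (hk2 : ∀ g : K, Nat.Coprime (orderOf g) p → g ^ k = g) (hk : k.Coprime (Nat.card K)) :
    powPerm hk ^ (p ^ (Nat.card K).factorization p) = 1 := by
  ext1 θ
  apply Subtype.ext
  funext x
  rw [powPerm_pow, pow_pow_eq hkp hk2]
  rfl

theorem powPerm_mem (hM : IsPModular p M) (hk2 : ∀ g : K, Nat.Coprime (orderOf g) p → g ^ k = g)
    (hk : k.Coprime (Nat.card K)) {B : Set (IrrCharacter K)} (hB : IsPBlock M B) (θ : IrrCharacter K) :
    powPerm hk θ ∈ B ↔ θ ∈ B := by
  haveI := isPrime_of_isPModular hM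
  haveI := Fintype.ofFinite K
  have h1 : SameBlock M (θ : K → ℂ) (powPerm hk θ : K → ℂ) := by
    refine H4.sameBlock_of_regular hM θ (powPerm hk θ) fun g hg => ?_
    have h2 : (powPerm hk θ : K → ℂ) g = (θ : K → ℂ) g := by
      rw [powPerm_apply, hk2 g ((Nat.Prime.coprime_iff_not_dvd hp.out).mpr hg).symm]
    have h3 : (powPerm hk θ : K → ℂ) 1 = (θ : K → ℂ) 1 := by
      rw [powPerm_apply, one_pow]
    unfold centralChar
    rw [h2, h3, sub_self]
    exact mli_zero
  constructor
  · intro h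
    exact mem_of_sameBlock hB h (fun g => mli_symm (h1 g))
  · intro h
    exact mem_of_sameBlock hB h h1

theorem powPerm_degree (hk : k.Coprime (Nat.card K)) (θ : IrrCharacter K) :
    charDegree (powPerm hk θ : K → ℂ) = charDegree (θ : K → ℂ) := by
  unfold charDegree
  rw [powPerm_apply, one_pow]

end Pow

section Ext

variable {G : Type u} [Group G] [Finite G] {p : ℕ} [hp : Fact p.Prime] {M : Ideal AlgInt} {k : ℕ}

/-- The canonical extension of an invariant member of the principal block of `O^p(G)`. -/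
theorem exists_canonical (hM : IsPModular p M) [hNn : (pResidual p G).Normal]
    (θ : IrrCharacter (pResidual p G))
    (hθB : θ ∈ principalBlock M (pResidual p G))
    (hθ : ∀ g : G, cj (pResidual p G) g (θ : pResidual p G → ℂ) = θ)
    (hd : ¬ p ∣ charDegree (θ : pResidual p G → ℂ)) :
    ∃ χ : IrrCharacter G, χ ∈ principalBlock M G ∧
      (∀ n : pResidual p G, (χ : G → ℂ) n = (θ : pResidual p G → ℂ) n) ∧
      charDegree (χ : G → ℂ) = charDegree (θ : pResidual p G → ℂ) ∧
      (∀ k : ℕ, k.Coprime (Nat.card G) → (∀ n : pResidual p G,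
        (θ : pResidual p G → ℂ) (n ^ k) = (θ : pResidual p G → ℂ) n) →
        ∀ g : G, (χ : G → ℂ) (g ^ k) = (χ : G → ℂ) g) := by
  haveI := isPrime_of_isPModular hM
  haveI : Fintype (pResidual p G) := Fintype.ofFinite _
  haveI : Fintype G := Fintype.ofFinite _
  obtain ⟨k₀, hk₀⟩ : ∃ k, (pResidual p G).index = p ^ k := Glaub.index_residual p
  have hdet : ¬ p ∣ detOrder (θ : pResidual p G → ℂ) := Glaub.not_dvd_detOrder_residual p θ.2
  obtain ⟨χ, ⟨hχ, hχθ, hχd⟩, huniq⟩ := S0867.result (pResidual p G) (θ : pResidual p G → ℂ) θ.2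
    (fun g n => congrFun (hθ g) n)
    (charDegree (θ : pResidual p G → ℂ)) (charDegree_spec θ) (by
      rw [hk₀]
      apply Nat.Coprime.pow_left
      rw [Nat.Prime.coprime_iff_not_dvd hp.out, Nat.Prime.dvd_mul hp.out]
      push Not
      exact ⟨hdet, hd⟩)
  refine ⟨⟨χ, hχ⟩, ?_, hχθ, ?_, ?_⟩
  · exact H76.mem_principalBlock_of_restrict hM (pResidual p G).subtype
      (pResidual p G).subtype_injective (fun g hg => by
      rw [Subgroup.range_subtype]
      exact Transfer.mem_pResidual_of_coprime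
        ((Nat.Prime.coprime_iff_not_dvd hp.out).mpr hg).symm)
      ⟨χ, hχ⟩ θ hχθ hθB
  · unfold charDegree
    rw [show ((⟨χ, hχ⟩ : IrrCharacter G) : G → ℂ) 1 = (θ : pResidual p G → ℂ) 1 from hχθ 1]
  · intro k hk hfix g
    obtain ⟨σ, hσ⟩ := exists_aut_pow Nat.card_pos.ne' hk
    have hmap : ∀ x : G, σ (χ x) = χ (x ^ k) := fun x =>
      map_char_eq (isCharacter_of_isIrr hχ) x (orderOf_dvd_natCard x) σ hσ
    have h1 := huniq (fun x => σ (χ x)) (isIrrCharacter_map σ hχ) (fun n => by
      rw [hmap, ← Subgroup.coe_pow, hχθ, hfix]) (by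
      rw [Glaub.detOrder_map σ hχ, hχd, hk₀]
      exact Nat.Coprime.pow_left _ ((Nat.Prime.coprime_iff_not_dvd hp.out).mpr hdet))
    have h2 := congrFun h1 g
    rw [hmap] at h2
    exact h2

/-- If the power-fixed members of degree prime to `p` of the principal block are linear then there is
a normal `p`-complement. -/
theorem npc_of_degrees_pow (hM : IsPModular p M) (hkp : k ≡ 1 [MOD p])
    (hk2 : ∀ g : G, Nat.Coprime (orderOf g) p → g ^ k = g)
    (hdeg : ∀ χ : IrrCharacter G, χ ∈ principalBlock M G → ¬ p ∣ charDegree (χ : G → ℂ) →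
      (∀ g : G, (χ : G → ℂ) (g ^ k) = (χ : G → ℂ) g) →
      charDegree (χ : G → ℂ) = 1) : HasNormalPComplement p G := by
  classical
  haveI := isPrime_of_isPModular hM
  rw [Transfer.hasNPC_iff_card_pResidual]
  by_contra hc
  have hpN : p ∣ Nat.card (pResidual p G) := by
    by_contra h
    exact hc ((Nat.Prime.coprime_iff_not_dvd hp.out).mpr h).symm
  haveI hNn : (pResidual p G).Normal := H20.pResidual_normal p
  have hkG : k.Coprime (Nat.card G) := coprime_of_fix hkp hk2
  have hcan := fun θ => exists_canonical (p := p) hM (G := G) θ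
  set N := pResidual p G with hN
  haveI : Fintype G := Fintype.ofFinite G
  haveI : Fintype N := Fintype.ofFinite N
  haveI : Fintype (IrrCharacter N) := Fintype.ofFinite _
  have hk2N : ∀ g : N, Nat.Coprime (orderOf g) p → g ^ k = g := fun g hg => by
    apply Subtype.ext
    rw [Subgroup.coe_pow]
    exact hk2 g (by rwa [Subgroup.orderOf_coe])
  have hkN : k.Coprime (Nat.card N) := coprime_of_fix hkp hk2N
  obtain ⟨S⟩ := (inferInstance : Nonempty (Sylow p G))
  have hNS : N ⊔ (S : Subgroup G) = ⊤ := by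
    rw [sup_comm]
    exact Transfer.sylow_sup_pResidual S
  have hinvS : ∀ θ : IrrCharacter N, (∀ s ∈ (S : Subgroup G), cj N s (θ : N → ℂ) = θ) ↔
      ∀ g : G, cj N g (θ : N → ℂ) = θ := fun θ =>
    (Glaub.cj_invariant_iff N (S : Subgroup G) hNS (irr_isClassFunction θ)).symm
  -- the sum of squares vanishes modulo p
  have h1 : (∑ θ : IrrCharacter N, (if θ ∈ principalBlock M N then
      ((charDegree (θ : N → ℂ) : ℕ) : ZMod p) ^ 2 else 0)) = 0 := by
    rw [← Finset.sum_filter]
    have e1 : Finset.univ.filter (fun θ : IrrCharacter N => θ ∈ principalBlock M N) =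
        Bfin (principalBlock M N) := by
      ext θ
      simp
    rw [e1]
    have e2 := factorization_sum_sq hM (Blk.isPBlock_principalBlock (M := M) (G := N))
    rw [blockDefect_principalBlock] at e2
    have e3 : 0 < (Nat.card N).factorization p := hp.out.factorization_pos_of_dvd Nat.card_pos.ne' hpN
    have e4 : p ∣ ∑ χ ∈ Bfin (principalBlock M N), charDegree (χ : N → ℂ) ^ 2 := by
      apply Nat.dvd_of_factorization_pos
      rw [e2]
      omega
    have e5 := (ZMod.natCast_eq_zero_iff _ p).mpr e4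
    push_cast at e5
    exact e5
  have h2 := H76.sum_eq_sum_fixed (R := ZMod p) S.isPGroup' ((H76.irrPerm N).comp
    (S : Subgroup G).subtype)
    (fun θ : IrrCharacter N => if θ ∈ principalBlock M N then
      ((charDegree (θ : N → ℂ) : ℕ) : ZMod p) ^ 2 else 0) (by
      intro s ψ
      have e4 : (((H76.irrPerm N).comp (S : Subgroup G).subtype s ψ : IrrCharacter N) : N → ℂ) 1 =
          (ψ : N → ℂ) 1 := by
        change cj N (s : G)⁻¹ (ψ : N → ℂ) 1 = _
        rw [cj_one_apply]
      have e5 : charDegree (((H76.irrPerm N).comp (S : Subgroup G).subtype s ψ : IrrCharacter N) :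
          N → ℂ) = charDegree (ψ : N → ℂ) := by
        unfold charDegree
        rw [e4]
      have e6 : ((H76.irrPerm N).comp (S : Subgroup G).subtype s ψ) ∈ principalBlock M N ↔
          ψ ∈ principalBlock M N := by
        constructor
        · intro h
          refine H76.cj_mem_principalBlock N (s : G) h (θ' := ψ) ?_
          change _ = cj N (s : G) (cj N (s : G)⁻¹ (ψ : N → ℂ))
          rw [cj_cj_inv]
        · intro h
          exact H76.cj_mem_principalBlock N (s : G)⁻¹ h rfl
      simp only [e5, e6]) (fun θ => ∀ s ∈ (S : Subgroup G), cj N s (θ : N → ℂ) = θ)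
    (fun θ => (H76.fixed_irrPerm_iff N S θ).symm)
  rw [h1] at h2
  -- the cyclic group generated by the power permutation
  set τ : Equiv.Perm (IrrCharacter N) := powPerm hkN with hτ
  have hτg : IsPGroup p (Subgroup.zpowers τ) := by
    apply IsPGroup.of_card (n := (Nat.factorization (orderOf τ) p))
    rw [Nat.card_zpowers]
    have e1 : orderOf τ ∣ p ^ (p ^ (Nat.card N).factorization p) * 1 ∨
      orderOf τ ∣ p ^ (Nat.card N).factorization p := Or.inr
        (orderOf_dvd_of_pow_eq_one (powPerm_order hkp hk2N hkN))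
    rcases e1 with e1 | e1
    · rw [mul_one] at e1
      obtain ⟨j, -, hj⟩ := (Nat.dvd_prime_pow hp.out).mp e1
      rw [hj, Nat.Prime.factorization_pow hp.out]
      simp
    · obtain ⟨j, -, hj⟩ := (Nat.dvd_prime_pow hp.out).mp e1
      rw [hj, Nat.Prime.factorization_pow hp.out]
      simp
  have hτcj : ∀ (g : G) (θ : IrrCharacter N), cj N g (τ θ : N → ℂ) = (τ θ : N → ℂ) ↔
      cj N g (θ : N → ℂ) = θ := by
    intro g θ
    have e0 : ∀ (x : N), cj N g (τ θ : N → ℂ) x = cj N g (θ : N → ℂ) (x ^ k) := by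
      intro x
      show (θ : N → ℂ) ((⟨g * x * g⁻¹, hNn.conj_mem (x : G) x.2 g⟩ : N) ^ k) =
        (θ : N → ℂ) ⟨g * ((x ^ k : N) : G) * g⁻¹, _⟩
      refine congrArg (θ : N → ℂ) (Subtype.ext ?_)
      show (g * (x : G) * g⁻¹) ^ k = g * ((x : G) ^ k) * g⁻¹
      exact conj_pow
    constructor
    · intro h
      funext y
      obtain ⟨x, rfl⟩ := (powCoprime hkN.symm).surjective y
      have e1 := congrFun h x
      rw [e0] at e1
      exact e1
    · intro h
      funext x
      rw [e0, h]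
      rfl
  have hfixτ : ∀ θ : IrrCharacter N, (∀ s : Subgroup.zpowers τ, (Subgroup.zpowers τ).subtype s θ = θ) ↔
      (∀ n : N, (θ : N → ℂ) (n ^ k) = (θ : N → ℂ) n) := by
    intro θ
    constructor
    · intro h n
      have e1 := h ⟨τ, Subgroup.mem_zpowers τ⟩
      have e2 := congrFun (congrArg Subtype.val e1) n
      exact e2
    · rintro h ⟨s, hs⟩
      obtain ⟨z, rfl⟩ := Subgroup.mem_zpowers_iff.mp hs
      have e1 : τ θ = θ := Subtype.ext (funext h)
      show (τ ^ z) θ = θ
      exact Function.IsFixedPt.perm_zpow (e := τ) e1 z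
  have h3 := H76.sum_eq_sum_fixed (R := ZMod p) hτg (Subgroup.zpowers τ).subtype
    (fun θ : IrrCharacter N => if (∀ s ∈ (S : Subgroup G), cj N s (θ : N → ℂ) = θ) then
      (if θ ∈ principalBlock M N then
      ((charDegree (θ : N → ℂ) : ℕ) : ZMod p) ^ 2 else 0) else 0) (by
      have e0 : ∀ ψ : IrrCharacter N, (if (∀ s ∈ (S : Subgroup G), cj N s (τ ψ : N → ℂ) = τ ψ) then
        (if τ ψ ∈ principalBlock M N then
        ((charDegree (τ ψ : N → ℂ) : ℕ) : ZMod p) ^ 2 else 0) else 0) =
        (if (∀ s ∈ (S : Subgroup G), cj N s (ψ : N → ℂ) = ψ) then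
        (if ψ ∈ principalBlock M N then
        ((charDegree (ψ : N → ℂ) : ℕ) : ZMod p) ^ 2 else 0) else 0) := by
        intro ψ
        have e4 : (∀ s ∈ (S : Subgroup G), cj N s (τ ψ : N → ℂ) = τ ψ) ↔
            (∀ s ∈ (S : Subgroup G), cj N s (ψ : N → ℂ) = ψ) :=
          forall₂_congr fun s _ => hτcj s ψ
        have e5 : charDegree (τ ψ : N → ℂ) = charDegree (ψ : N → ℂ) := powPerm_degree hkN ψ
        have e6 : τ ψ ∈ principalBlock M N ↔ ψ ∈ principalBlock M N :=
          powPerm_mem hM hk2N hkN (Blk.isPBlock_principalBlock) ψ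
        simp only [e4, e5, e6]
      rintro ⟨s, hs⟩ ψ
      obtain ⟨z, rfl⟩ := Subgroup.mem_zpowers_iff.mp hs
      have e1 : ∀ (n : ℕ) (ψ : IrrCharacter N), (if (∀ s ∈ (S : Subgroup G),
          cj N s ((τ ^ n) ψ : N → ℂ) = (τ ^ n) ψ) then
        (if (τ ^ n) ψ ∈ principalBlock M N then
        ((charDegree ((τ ^ n) ψ : N → ℂ) : ℕ) : ZMod p) ^ 2 else 0) else 0) =
        (if (∀ s ∈ (S : Subgroup G), cj N s (ψ : N → ℂ) = ψ) then
        (if ψ ∈ principalBlock M N then
        ((charDegree (ψ : N → ℂ) : ℕ) : ZMod p) ^ 2 else 0) else 0) := by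
        intro n
        induction n with
        | zero => intro ψ; rfl
        | succ n ih =>
          intro ψ
          rw [pow_succ', Equiv.Perm.mul_apply, e0, ih]
      obtain ⟨n, hn⟩ : ∃ n : ℕ, τ ^ z = τ ^ n := by
        have := (isOfFinOrder_of_finite τ).mem_powers_iff_mem_zpowers.mpr
          (Subgroup.mem_zpowers_iff.mpr ⟨z, rfl⟩)
        obtain ⟨n, hn⟩ := this
        exact ⟨n, hn.symm⟩
      have e2 := e1 n ψ
      rw [← hn] at e2
      exact e2)
    (fun θ => ∀ n : N, (θ : N → ℂ) (n ^ k) = (θ : N → ℂ) n) (fun θ => (hfixτ θ).symm)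
  rw [← h2] at h3
  -- the group of invariant linear characters
  let D : (N → N) → Prop := fun e => (∃ g : G, ∀ n : N, (e n : G) = g * n * g⁻¹) ∨ (∀ n : N, e n = n ^ k)
  let L := LamF N M D
  have hLmem : ∀ f : N →* ℂˣ, f ∈ L ↔ linIrr f ∈ principalBlock M N ∧
      (∀ g : G, cj N g (linIrr f : N → ℂ) = linIrr f) ∧
      (∀ n : N, (linIrr f : N → ℂ) (n ^ k) = (linIrr f : N → ℂ) n) := by
    intro f
    rw [show (f ∈ L ↔ _) ↔ _ from Iff.rfl, mem_LamF]
    refine and_congr_right fun _ => ⟨fun h => ⟨fun g => ?_, fun n => ?_⟩, fun h e he x => ?_⟩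
    · funext n
      have e1 := h (fun n => (⟨g * n * g⁻¹, hNn.conj_mem (n : G) n.2 g⟩ : N))
        (Or.inl ⟨g, fun n => rfl⟩) n
      show (f ⟨g * n * g⁻¹, hNn.conj_mem (n : G) n.2 g⟩ : ℂ) = (f n : ℂ)
      rw [← e1]
    · have e1 := h (fun n => n ^ k) (Or.inr fun n => rfl) n
      show (f (n ^ k) : ℂ) = (f n : ℂ)
      rw [← e1]
    · rcases he with ⟨g, hg⟩ | he
      · have e1 := congrFun (h.1 g) x
        have e2 : e x = ⟨g * x * g⁻¹, hNn.conj_mem (x : G) x.2 g⟩ := Subtype.ext (hg x)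
        rw [e2]
        exact Units.ext e1
      · rw [he]
        exact Units.ext (h.2 x)
  have h4 : (0 : ZMod p) = (Nat.card L : ZMod p) := by
    rw [h3]
    have e1 : (∑ θ : IrrCharacter N, if (∀ n : N, (θ : N → ℂ) (n ^ k) = (θ : N → ℂ) n) then
        (if (∀ s ∈ (S : Subgroup G), cj N s (θ : N → ℂ) = θ) then
        (if θ ∈ principalBlock M N then ((charDegree (θ : N → ℂ) : ℕ) : ZMod p) ^ 2 else 0) else 0)
          else 0) =
        ∑ θ : IrrCharacter N, if (θ ∈ principalBlock M N ∧ ((∀ g : G, cj N g (θ : N → ℂ) = θ) ∧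
          (∀ n : N, (θ : N → ℂ) (n ^ k) = (θ : N → ℂ) n)) ∧
          charDegree (θ : N → ℂ) = 1) then (1 : ZMod p) else 0 := by
      refine Finset.sum_congr rfl fun θ _ => ?_
      by_cases h7 : ∀ n : N, (θ : N → ℂ) (n ^ k) = (θ : N → ℂ) n
      · rw [if_pos h7]
        by_cases h4 : ∀ g : G, cj N g (θ : N → ℂ) = θ
        · rw [if_pos ((hinvS θ).mpr h4)]
          by_cases h5 : θ ∈ principalBlock M N
          · rw [if_pos h5]
            by_cases h6 : p ∣ charDegree (θ : N → ℂ)
            · rw [if_neg, (ZMod.natCast_eq_zero_iff _ _).mpr h6]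
              · norm_num
              · rintro ⟨-, -, h7⟩
                rw [h7, Nat.dvd_one] at h6
                exact hp.out.ne_one h6
            · obtain ⟨χ, hχB, hχθ, hχd, hχk⟩ := hcan θ h5 h4 h6
              have h8 : charDegree (θ : N → ℂ) = 1 := by
                rw [← hχd]
                exact hdeg χ hχB (by rw [hχd]; exact h6) (hχk k hkG h7)
              rw [if_pos ⟨h5, ⟨h4, h7⟩, h8⟩, h8]
              norm_num
          · rw [if_neg h5, if_neg (fun h => h5 h.1)]
        · rw [if_neg (fun h => h4 ((hinvS θ).mp h)), if_neg (fun h => h4 h.2.1.1)]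
      · rw [if_neg h7, if_neg (fun h => h7 h.2.1.2)]
    rw [e1, Finset.sum_ite, Finset.sum_const, Finset.sum_const_zero, add_zero, nsmul_eq_mul, mul_one]
    congr 1
    rw [← Fintype.card_subtype, ← Nat.card_eq_fintype_card]
    symm
    refine Nat.card_congr (Equiv.ofBijective (fun f : L => (⟨linIrr (f : N →* ℂˣ),
      ((hLmem _).mp f.2).1, ((hLmem _).mp f.2).2, ?_⟩ : {θ : IrrCharacter N //
        θ ∈ principalBlock M N ∧ ((∀ g : G, cj N g (θ : N → ℂ) = θ) ∧
          (∀ n : N, (θ : N → ℂ) (n ^ k) = (θ : N → ℂ) n)) ∧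
          charDegree (θ : N → ℂ) = 1})) ⟨?_, ?_⟩)
    · have := charDegree_spec (linIrr (f : N →* ℂˣ))
      rw [linIrr_apply, map_one, Units.val_one] at this
      exact_mod_cast this.symm
    · intro f f' h
      have e2 := congrArg (fun z => ((z : {θ : IrrCharacter N //
        θ ∈ principalBlock M N ∧ ((∀ g : G, cj N g (θ : N → ℂ) = θ) ∧
          (∀ n : N, (θ : N → ℂ) (n ^ k) = (θ : N → ℂ) n)) ∧
          charDegree (θ : N → ℂ) = 1}).1 : N → ℂ)) h
      apply Subtype.ext
      ext x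
      exact congrFun e2 x
    · rintro ⟨θ, h5, h4, h6⟩
      have e2 : (θ : N → ℂ) 1 = 1 := by
        rw [charDegree_spec θ, h6, Nat.cast_one]
      let f : N →* ℂˣ := (linHom (irr_isCharacter θ) e2).toHomUnits
      have e3 : ∀ x, (f x : ℂ) = (θ : N → ℂ) x := fun x => rfl
      have e4 : linIrr f = θ := Subtype.ext (funext e3)
      refine ⟨⟨f, (hLmem f).mpr ?_⟩, ?_⟩
      · rw [e4]
        exact ⟨h5, h4⟩
      · apply Subtype.ext
        exact e4
  have h5 : p ∣ Nat.card L := (ZMod.natCast_eq_zero_iff _ p).mp h4.symm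
  obtain ⟨f, hf⟩ := exists_prime_orderOf_dvd_card' p h5
  have h6 : (f : N →* ℂˣ) = 1 := by
    ext x
    have h6 : ∀ x, ((Units.coeHom ℂ).comp (f : N →* ℂˣ)) x ^ p = 1 := by
      intro x
      have h7 : f ^ p = 1 := by rw [← hf]; exact pow_orderOf_eq_one f
      have h8 := congrArg (fun z : L => (((z : N →* ℂˣ) x : ℂˣ) : ℂ)) h7
      simpa using h8
    have h7 := Glaub.residual_hom_eq_one p ((Units.coeHom ℂ).comp (f : N →* ℂˣ)) h6 x
    simpa using h7
  have h7 : f = 1 := Subtype.ext h6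
  rw [h7, orderOf_one] at hf
  exact hp.out.ne_one hf.symm

theorem degree_one_of_npc (hM : IsPModular p M) (h : HasNormalPComplement p G) (χ : IrrCharacter G)
    (hχ : χ ∈ principalBlock M G) (h0 : ¬ p ∣ charDegree (χ : G → ℂ)) :
    charDegree (χ : G → ℂ) = 1 := by
  haveI := isPrime_of_isPModular hM
  obtain ⟨d, hd⟩ := (equal_degrees_iff hM).mpr h
  have hone : oneIrr G ∈ principalBlock M G := fun g => by
    rw [show ((oneIrr G : IrrCharacter G) : G → ℂ) = fun _ => (1 : ℂ) from rfl, sub_self]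
    exact mli_zero
  have h1 : charDegree ((oneIrr G : IrrCharacter G) : G → ℂ) = 1 := by
    have := charDegree_spec (oneIrr G)
    rw [show ((oneIrr G : IrrCharacter G) : G → ℂ) 1 = (1 : ℂ) from rfl] at this
    exact_mod_cast this.symm
  have hd1 : d = 1 := by
    rw [← hd (oneIrr G) hone ((principal_height_zero_iff _ hone).mpr (by
      rw [h1, Nat.dvd_one]; exact hp.out.ne_one)), h1]
  rw [hd χ hχ ((principal_height_zero_iff _ hχ).mpr h0), hd1]

end Ext

end Cfsg.Agent.Star
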